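import Cfsg.Agent.Lib.QP.Defs

/-!
# Weakly closed generalized quaternion subgroups: conjugates of the central involution
-/

set_option autoImplicit false
set_option linter.unusedSectionVars false
set_option linter.unusedVariables false

namespace Cfsg.Agent.QP

open Cfsg Subgroup FusionSystem H6 H2 H8

variable {Ω : Type*} [Group Ω] {S R P Q : Subgroup Ω} [Finite S] {F : FusionSystem S} {m : ℕ}
  {r y t s w x : Ω} {f g : Ω → Ω}

/-- The centralizer of an element in `S`. -/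
abbrev cS (S : Subgroup Ω) (t : Ω) : Subgroup Ω := S ⊓ centralizer {t}

theorem mem_cS : x ∈ cS S t ↔ x ∈ S ∧ x * t = t * x := by
  rw [mem_inf, mem_centralizer_singleton_iff]

theorem conj_zpow' {g x : Ω} {a : ℤ} (h : g * x * g⁻¹ = x ^ a) (i : ℤ) :
    g * x ^ i * g⁻¹ = x ^ (a * i) := by rw [← conj_zpow, h, zpow_mul]

/-- The pair `(t, x)` is conjugate to a pair `(z, x')` with `x' ∈ R`. -/
def Rel (F : FusionSystem S) (z : Ω) (R : Subgroup Ω) (t x : Ω) : Prop :=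
  ∃ P f, F.IsMor P f ∧ t ∈ P ∧ x ∈ P ∧ f t = z ∧ f x ∈ R

theorem Rel.transport {z : Ω} (h : Rel F z R t x) (hg : F.IsMor Q g) (ht : t ∈ Q) (hx : x ∈ Q) :
    Rel F z R (g t) (g x) := by
  obtain ⟨P, f, hf, h1, h2, h3, h4⟩ := h
  obtain ⟨k, hk, e, -⟩ := (hg.isIso_img_of_le (inf_le_right : P ⊓ Q ≤ Q)).exists_symm
  refine ⟨_, _, hf.comp' hk.mor fun v hv => (hk.mapsTo v hv).1, mem_img_of_mem g ⟨h1, ht⟩,
    mem_img_of_mem g ⟨h2, hx⟩, ?_, ?_⟩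
  · simp only [e t ⟨h1, ht⟩, h3]
  · simp only [e x ⟨h2, hx⟩, h4]

namespace Ctx

variable (h : Ctx F R m r y)
include h

theorem le : R ≤ S := h.wc.le
theorem rS : r ∈ S := h.le h.mc.x_mem
theorem yS : y ∈ S := h.le h.mc.y_mem
theorem zR : y * y ∈ R := mul_mem h.mc.y_mem h.mc.y_mem
theorem zS : y * y ∈ S := h.le h.zR
theorem zz : y * y = r ^ (2 * m : ℤ) := by rw [h.mc.sq, mul_one]
theorem two_dvd : (2 : ℤ) ∣ m := by
  obtain ⟨k, e⟩ := h.ev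
  exact ⟨2 ^ k, by rw [e]; push_cast; ring⟩
theorem two_le : 2 ≤ m := by
  have := h.two_dvd
  have := h.mc.pos
  omega
theorem oz : orderOf (y * y) = 2 := h.zz ▸ h.mc.orderOf_z
theorem z1 : y * y ≠ 1 := h.zz ▸ h.mc.z_ne_one
theorem z2 : y * y * (y * y) = 1 := h.zz ▸ h.mc.z_mul_self
theorem yr (i : ℤ) : y * r ^ i = r ^ (-i) * y := by simpa using h.mc.y_mul i
theorem osq (i : ℤ) : r ^ i * y * (r ^ i * y) = y * y := by
  rw [h.zz]; exact h.mc.outer_odd_sq (by simp)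
theorem eq_z (hx : x ∈ R) (h1 : x ≠ 1) (h2 : x * x = 1) : x = y * y := by
  obtain ⟨i, rfl | rfl⟩ := (h.mc.mem_iff x).1 hx
  · rw [h.zz]
    exact h.mc.inner_eq_z ⟨i, rfl⟩ (orderOf_eq_prime (by rwa [pow_two]) h1)
  · exact absurd (h.osq i ▸ h2) h.z1
theorem z_mem_zpowers (hx : x ∈ R) (h1 : x ≠ 1) : y * y ∈ zpowers x := by
  haveI : Finite (zpowers x) := finite_of_le (zpowers_le_of_mem (h.le hx))
  obtain ⟨v, hv, ho⟩ := H7.exists_orderOf_eq_prime_of_ne_bot (p := 2) (Q := zpowers x)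
    (h.mc.isPGroup.to_le (zpowers_le_of_mem hx)) (by simpa using h1)
  rwa [← h.eq_z (zpowers_le_of_mem hx hv) (by rintro rfl; simp at ho)
    (mul_self_of_orderOf_two ho)]
theorem mor_mem (hg : F.IsMor P g) (hP : R ≤ P) (hx : x ∈ R) : g x ∈ R :=
  (h.wc.isIso (hg.mono hP)).mapsTo x hx
theorem mor_z (hg : F.IsMor P g) (hP : R ≤ P) : g (y * y) = y * y :=
  h.eq_z (h.mor_mem hg hP h.zR) (fun e => h.z1 ((hg.eq_one_iff (hP h.zR)).1 e))
    (by rw [← hg.map_mul (hP h.zR) (hP h.zR), h.z2, hg.map_one])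
theorem mor_r (hg : F.IsMor P g) (hP : R ≤ P) : ∃ e : ℤ, Odd e ∧ g r = r ^ e := by
  have ho := hg.orderOf_eq (hP h.mc.x_mem)
  have := h.two_le
  obtain ⟨i, e | e⟩ := (h.mc.mem_iff _).1 (h.mor_mem hg hP h.mc.x_mem)
  · refine ⟨i, ?_, e⟩
    by_contra hi
    obtain ⟨j, rfl⟩ := Int.not_odd_iff_even.1 hi
    have h1 : g (r ^ (2 * m : ℤ)) = 1 := by
      rw [hg.map_zpow (hP h.mc.x_mem), e, ← zpow_mul, h.mc.zpow_eq_one_iff]
      exact ⟨j, by ring⟩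
    exact h.mc.z_ne_one ((hg.eq_one_iff (hP (h.mc.zpow_mem _))).1 h1)
  · rw [e, h.mc.orderOf_outer_odd (by simp), h.mc.ord] at ho
    omega
theorem mor_y (hg : F.IsMor P g) (hP : R ≤ P) : ∃ c : ℤ, g y = r ^ c * y := by
  obtain ⟨i, e | e⟩ := (h.mc.mem_iff _).1 (h.mor_mem hg hP h.mc.y_mem)
  · obtain ⟨a, ha, e'⟩ := h.mor_r hg hP
    have hr := hP h.mc.x_mem
    have hy := hP h.mc.y_mem
    have : g (y * r) = g (r * y) := by
      rw [hg.map_mul hy hr, hg.map_mul hr hy, e, e', ← zpow_add, ← zpow_add, add_comm]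
    have h1 := hg.inj (mul_mem hy hr) (mul_mem hr hy) this
    have h2 := (h.mc.commute_outer_iff 0 1).1 (by simpa using h1)
    have := Int.le_of_dvd one_pos h2
    have := h.two_le
    omega
  · exact ⟨i, e⟩
theorem conj_mem (hs : s ∈ S) (hx : x ∈ R) : s * x * s⁻¹ ∈ R :=
  h.mor_mem (g := fun x => s * x * s⁻¹) (F.isMor_conj le_rfl hs) h.le hx
theorem conj_z (hs : s ∈ S) : s * (y * y) * s⁻¹ = y * y :=
  h.mor_z (F.isMor_conj le_rfl hs) h.le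
theorem comm_z (hs : s ∈ S) : s * (y * y) = y * y * s := mul_inv_eq_iff_eq_mul.1 (h.conj_z hs)
theorem act (hs : s ∈ S) :
    ∃ a b : ℤ, Odd a ∧ s * r * s⁻¹ = r ^ a ∧ s * y * s⁻¹ = r ^ b * y := by
  obtain ⟨a, ha, e⟩ := h.mor_r (F.isMor_conj le_rfl hs) h.le
  obtain ⟨b, e'⟩ := h.mor_y (F.isMor_conj le_rfl hs) h.le
  exact ⟨a, b, ha, e, e'⟩
theorem scz : SC F (y * y) R :=
  h.sc _ h.zS (h.comm_z h.rS).symm (h.comm_z h.yS).symm h.oz
theorem ext (ht : F.IsConjElt (y * y) t) : ∃ φ, F.IsMor (cS S t) φ ∧ φ t = y * y := by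
  obtain ⟨f, hf, e⟩ := isConjElt_iff'.1 ht.symm
  have hi : F.IsIso (zpowers t) (zpowers (y * y)) f := hf.isIso_of_img_eq (by
    apply le_antisymm
    · exact img_le_iff.2 fun v ⟨i, hi⟩ => ⟨i, by
        rw [← hi, hf.map_zpow (mem_zpowers t), e]⟩
    · exact zpowers_le_of_mem (e ▸ mem_img_of_mem f (mem_zpowers t)))
  obtain ⟨g, hg, e'⟩ := (h.sat.isReceptive_of_fc h.two (F.isFullyCentralized_of_le_centralizer
    (zpowers_le_of_mem h.zS) fun v hv => by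
      rintro _ ⟨i, rfl⟩
      exact (Commute.zpow_left (h.comm_z hv).symm i : _))).exists_ext_centralizerIn hi
  refine ⟨g, hg.mono (le_sup_of_le_right fun v hv => mem_centralizerIn'.2 ⟨hv.1, ?_⟩),
    by rw [e' t (mem_zpowers t), e]⟩
  rintro _ ⟨i, rfl⟩
  exact (Commute.zpow_left (mem_cS.1 hv).2.symm i : _)
theorem sq (ht : F.IsConjElt (y * y) t) : t * t = 1 :=
  mul_self_of_orderOf_two ((isConjElt_orderOf ht).trans h.oz)
theorem ne_one (ht : F.IsConjElt (y * y) t) : t ≠ 1 := fun e => by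
  have := (isConjElt_orderOf ht).trans h.oz
  simp [e] at this
theorem z_cS (ht : t ∈ S) : y * y ∈ cS S t := mem_cS.2 ⟨h.zS, (h.comm_z ht).symm⟩
theorem nc (ht : F.IsConjElt (y * y) t) (h1 : t * r = r * t) (h2 : t * y = y * t) :
    t = y * y := by
  obtain ⟨φ, hφ, e⟩ := h.ext ht
  have hR : R ≤ cS S t := h.mc.le_of_mem (mem_cS.2 ⟨h.rS, h1.symm⟩) (mem_cS.2 ⟨h.yS, h2.symm⟩)
  exact hφ.inj (mem_cS.2 ⟨ht.mem_right, rfl⟩) (hR h.zR) (e.trans (h.mor_z hφ hR).symm)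
theorem rel_map (hx : Rel F (y * y) R t x) (hg : F.IsMor Q g) (ht : t ∈ Q) (hxQ : x ∈ Q)
    (e : g t = y * y) : g x ∈ R := by
  obtain ⟨P, f, hf, h1, h2, h3, h4⟩ := hx.transport hg ht hxQ
  rw [e] at h1 h3
  obtain ⟨k, hk, e1, e2⟩ := hf.isIso_img.exists_symm
  have := h.scz _ k hk.mor (h3 ▸ mem_img_of_mem f h1) (by conv_lhs => rw [← h3, e1 _ h1]) _
    (mem_img_of_mem f h2) h4
  rwa [e1 _ h2] at this
theorem rel_self (hx : x ∈ R) : Rel F (y * y) R (y * y) x :=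
  ⟨S, id, F.isMor_id le_rfl, h.zS, h.le hx, rfl, hx⟩
theorem rel_cS (hx : Rel F (y * y) R t x) : x ∈ cS S t := by
  obtain ⟨P, f, hf, h1, h2, h3, h4⟩ := hx
  exact mem_cS.2 ⟨hf.le h2, hf.inj (mul_mem h2 h1) (mul_mem h1 h2) (by
    rw [hf.map_mul h2 h1, hf.map_mul h1 h2, h3, h.comm_z (h.le h4)])⟩
theorem rel_mem_zpowers (hx : Rel F (y * y) R t x) (h1 : x ≠ 1) : t ∈ zpowers x := by
  obtain ⟨P, f, hf, h1', h2, h3, h4⟩ := hx
  obtain ⟨i, hi⟩ := h.z_mem_zpowers h4 fun e => h1 ((hf.eq_one_iff h2).1 e)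
  exact ⟨i, hf.inj (zpow_mem h2 i) h1' (by rw [hf.map_zpow h2, h3]; exact hi)⟩
theorem rel_conj (hx : Rel F (y * y) R t x) : F.IsConjElt (y * y) t := by
  obtain ⟨P, f, hf, h1', h2, h3, h4⟩ := hx
  exact (h3 ▸ hf.isConjElt h1').symm
theorem rel_comm (hx : Rel F (y * y) R t x) (hne : t ≠ y * y) (hw : w ∈ R) (hc : t * w = w * t) :
    x * w = w * x := by
  obtain ⟨φ, hφ, e⟩ := h.ext (h.rel_conj hx)
  have tC : t ∈ cS S t := mem_cS.2 ⟨(h.rel_conj hx).mem_right, rfl⟩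
  have xC := h.rel_cS hx
  have wC : w ∈ cS S t := mem_cS.2 ⟨h.le hw, hc.symm⟩
  have m1 := h.rel_map hx hφ tC xC e
  have cC : x * w * x⁻¹ * w⁻¹ ∈ cS S t := mul_mem (mul_mem (mul_mem xC wC) (inv_mem xC)) (inv_mem wC)
  have m2 : φ (x * w * x⁻¹ * w⁻¹) ∈ R := by
    rw [show x * w * x⁻¹ * w⁻¹ = x * (w * x⁻¹ * w⁻¹) by group, hφ.map_mul xC
      (mul_mem (mul_mem wC (inv_mem xC)) (inv_mem wC)), hφ.map_conj wC (inv_mem xC), hφ.map_inv xC]
    exact mul_mem m1 (h.conj_mem (hφ.mem wC) (inv_mem m1))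
  by_contra hn
  have c1 : x * w * x⁻¹ * w⁻¹ ≠ 1 := fun e => hn (by
    rwa [mul_inv_eq_one, mul_inv_eq_iff_eq_mul] at e)
  have m3 : x * w * x⁻¹ * w⁻¹ ∈ R := mul_mem (h.conj_mem xC.1 hw) (inv_mem hw)
  have := h.rel_mem_zpowers ⟨_, φ, hφ, tC, cC, e, m2⟩ c1
  exact hne (h.eq_z (zpowers_le_of_mem m3 this) (h.ne_one (h.rel_conj hx)) (h.sq (h.rel_conj hx)))
theorem dvd_sq_sub {a : ℤ} (ha : Odd a) (h4 : (4 * m : ℤ) ∣ a * a * (a * a) - 1) :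
    (2 * m : ℤ) ∣ a * a - 1 := by
  obtain ⟨k, e⟩ := h.ev
  obtain ⟨b, rfl⟩ := ha
  have h1 : (2 * m : ℤ) ∣ ((2 * b + 1) * (2 * b + 1) - 1) * (2 * (b * b + b) + 1) :=
    Int.dvd_of_mul_dvd_mul_left (a := 2) (by norm_num) (by
      obtain ⟨c, hc⟩ := h4
      exact ⟨c, by linear_combination hc⟩)
  refine IsCoprime.dvd_of_dvd_mul_right ?_ h1
  rw [e]
  push_cast
  rw [← pow_succ']
  exact IsCoprime.pow_left ⟨-(b * b + b), 1, by ring⟩
theorem factA (hx : Rel F (y * y) R t x) (hne : t ≠ y * y) (e : x * x = t) : t * r = r * t := by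
  obtain ⟨a, b, ha, e1, -⟩ := h.act (h.rel_cS hx).1
  have e2 : t * r * t⁻¹ = r ^ (a * a) := by
    rw [← e, show x * x * r * (x * x)⁻¹ = x * (x * r * x⁻¹) * x⁻¹ by group, e1, conj_zpow' e1]
  have e3 : r ^ (a * a * (a * a)) = r ^ (1 : ℤ) := by
    rw [← conj_zpow' e2, ← e2, show t * (t * r * t⁻¹) * t⁻¹ = t * t * r * (t * t)⁻¹ by group,
      h.sq (h.rel_conj hx)]
    simp
  obtain ⟨c, hc⟩ := h.dvd_sq_sub ha (h.mc.zpow_eq_iff.1 e3)
  have e4 : t * r ^ (2 : ℤ) = r ^ (2 : ℤ) * t := mul_inv_eq_iff_eq_mul.1 (by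
    rw [conj_zpow' e2]; exact h.mc.zpow_eq c (by linear_combination 2 * hc))
  have e5 := mul_inv_eq_iff_eq_mul.2 (h.rel_comm hx hne (h.mc.zpow_mem 2) e4)
  rw [conj_zpow' e1] at e5
  obtain ⟨d, hd⟩ := h.mc.zpow_eq_iff.1 e5
  rw [← mul_inv_eq_iff_eq_mul, e2]
  obtain ⟨b, rfl⟩ := ha
  exact (h.mc.zpow_eq (j := 1) (d * (b + 1)) (by linear_combination (b + 1) * hd)).trans (zpow_one r)
theorem lift (hf : F.IsMor P f) (hz : y * y ∈ P) (e : f (y * y) = y * y) :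
    ∃ g, F.IsMor (P ⊔ R) g ∧ ∀ x ∈ P, (f x)⁻¹ * g x ∈ R := by
  have hzS : zpowers (y * y) ≤ S := zpowers_le_of_mem h.zS
  have hc : S ≤ centralizer (zpowers (y * y) : Set Ω) := fun v hv => by
    rintro _ ⟨i, rfl⟩
    exact (Commute.zpow_left (h.comm_z hv).symm i : _)
  obtain ⟨E, hE⟩ := F.exists_isKNormSys_bot hzS hc
  have hs : E.IsSaturated 2 := hE.isSaturated h.sat h.two (h.sat.isFullyKNormalized_of_fc h.two
    (F.isFullyCentralized_of_le_centralizer hzS hc) bot_le)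
  have hR : E.StronglyClosed R := stronglyClosed_iff.2 ⟨h.le, fun P f hf x hx hxR => by
    obtain ⟨g, hg, e1, e2⟩ := hE.bot_exists_ext hf
    rw [← e1 x hx]
    exact h.scz _ g hg (mem_sup_right (mem_zpowers _)) (e2 _ (mem_zpowers _)) x (mem_sup_left hx)
      hxR⟩
  obtain ⟨g, hg, e'⟩ := hs.exists_lift_mod h.two hR (hE.bot_isMor_of_fixed hf
    (zpowers_le_of_mem hz) le_rfl hf.le (fix_zpowers hf.isHomOn hz e))
  exact ⟨g, hE.isSubsystemOf.isMor hg, e'⟩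

end Ctx

end Cfsg.Agent.QP
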