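import Cfsg.Agent.Lib.H6.Real

/-!
# Weakly closed generalized quaternion subgroups: definitions
-/

set_option autoImplicit false
set_option linter.unusedSectionVars false
set_option linter.unusedVariables false

namespace Cfsg.Agent.QP

open Cfsg Subgroup FusionSystem H6 H2 H8

variable {Ω : Type*} [Group Ω]

/-- The subgroup generated by two elements. -/
abbrev g2 (x y : Ω) : Subgroup Ω := zpowers x ⊔ zpowers y

/-- The Sylow `2`-subgroup of `G₂(q)`: `(C_{4m} × C_{4m}) : 2²`. -/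
structure GS (S : Subgroup Ω) (m : ℕ) (a b y ι : Ω) : Prop where
  pow : ∃ k, m = 2 ^ (k + 1)
  one_iff : ∀ i j : ℤ, a ^ i * b ^ j = 1 ↔ (4 * m : ℤ) ∣ i ∧ (4 * m : ℤ) ∣ j
  comm : a * b = b * a
  ya : y * a * y⁻¹ = b
  yb : y * b * y⁻¹ = a
  yy : y * y = (a * b⁻¹) ^ (2 * m : ℤ)
  ia : ι * a * ι⁻¹ = a⁻¹
  ib : ι * b * ι⁻¹ = b⁻¹
  ii : ι * ι = 1
  iy : ι * y = y * ι
  mem_iff : ∀ g, g ∈ S ↔ ∃ i j : ℤ, g = a ^ i * b ^ j ∨ g = a ^ i * b ^ j * y ∨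
    g = a ^ i * b ^ j * ι ∨ g = a ^ i * b ^ j * (y * ι)

/-- `R` is strongly closed in the centralizer system of `z`. -/
def SC {S : Subgroup Ω} (F : FusionSystem S) (z : Ω) (R : Subgroup Ω) : Prop :=
  ∀ P f, F.IsMor P f → z ∈ P → f z = z → ∀ x ∈ P, x ∈ R → f x ∈ R

/-- `f` is the automorphism of order three of `⟨a, b, ι⟩`. -/
def Rho {S : Subgroup Ω} (F : FusionSystem S) (a b ι : Ω) (f : Ω → Ω) : Prop :=
  F.IsMor (g2 a b ⊔ zpowers ι) f ∧ f a = a⁻¹ * b ∧ f b = a⁻¹ ∧ f ι = ι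

/-- The automorphism of order three of `Q₈ ∘ ⟨ζ, g⟩` lies in `F`. -/
def Bet {S : Subgroup Ω} (F : FusionSystem S) (m : ℕ) (r y ζ g : Ω) : Prop :=
  ∃ f, F.IsMor (g2 (r ^ (m : ℤ)) y ⊔ g2 ζ g) f ∧ f y = r ^ (m : ℤ) ∧
    f (r ^ (m : ℤ)) = y * r ^ (m : ℤ) ∧ f ζ = ζ ∧ f g = g

/-- `F` is generated by the centralizer system of `z` and the automorphism `ρ`. -/
def Gen {S : Subgroup Ω} (F : FusionSystem S) (z a b ι : Ω) : Prop :=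
  ∀ M : Subgroup Ω → (Ω → Ω) → Prop, Closed F M →
    (∀ P f, F.IsMor P f → z ∈ P → f z = z → M P f) →
    (∀ f, Rho F a b ι f → M (g2 a b ⊔ zpowers ι) f) → ∀ P f, F.IsMor P f → M P f

/-- A group with the `2`-fusion pattern of `G₂(q)`. -/
structure GM {G : Type*} [Group G] (U : Subgroup G) (m : ℕ) (a b y ι : G) : Prop where
  gs : GS U m a b y ι
  syl : SylIn 2 U ⊤
  sc : ∀ g : G, g * (y * y) * g⁻¹ = y * y → ∀ x ∈ g2 (a * b⁻¹) y, g * x * g⁻¹ ∈ U →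
    g * x * g⁻¹ ∈ g2 (a * b⁻¹) y
  rho : ∃ g : G, g * a * g⁻¹ = a⁻¹ * b ∧ g * b * g⁻¹ = a⁻¹ ∧ g * ι * g⁻¹ = ι
  b1 : ∃ g : G, g * y * g⁻¹ = (a * b⁻¹) ^ (m : ℤ) ∧
    g * (a * b⁻¹) ^ (m : ℤ) * g⁻¹ = y * (a * b⁻¹) ^ (m : ℤ) ∧ g * (a * b) * g⁻¹ = a * b ∧
    g * (y * ι) * g⁻¹ = y * ι
  b2 : ∃ g : G, g * (y * ι) * g⁻¹ = (a * b) ^ (m : ℤ) ∧
    g * (a * b) ^ (m : ℤ) * g⁻¹ = y * ι * (a * b) ^ (m : ℤ) ∧
    g * (a * b⁻¹) * g⁻¹ = a * b⁻¹ ∧ g * y * g⁻¹ = y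

/-- The hypotheses of the theorem. -/
structure Ctx {S : Subgroup Ω} (F : FusionSystem S) (R : Subgroup Ω) (m : ℕ) (r y : Ω) : Prop where
  two : IsPGroup 2 S
  sat : F.IsSaturated 2
  mc : MC R m 0 1 r y
  ev : ∃ k, m = 2 ^ (k + 1)
  wc : F.WeaklyClosed R
  sc : ∀ j ∈ S, j * r = r * j → j * y = y * j → orderOf j = 2 → SC F j R

end Cfsg.Agent.QP
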