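import Cfsg.Agent.Lib.QP.Uniq
import Cfsg.Agent.Lib.QP.G2B

/-!
# The `2`-fusion pattern of `G₂(q)`
-/

set_option autoImplicit false
set_option linter.unusedSectionVars false
set_option linter.unusedVariables false

namespace Cfsg.Agent.QP

open Cfsg Subgroup FusionSystem H6 H2 H8 G2A Cfsg.Lie

/-- The union of `T` and a coset `T y` of a normalising element with `y² ∈ T`. -/
def ext2 {G : Type*} [Group G] (T : Subgroup G) (y : G) (hn : ∀ t ∈ T, y * t * y⁻¹ ∈ T)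
    (hy : y * y ∈ T) : Subgroup G where
  carrier := {g | g ∈ T ∨ g * y⁻¹ ∈ T}
  one_mem' := Or.inl (one_mem _)
  mul_mem' := by
    rintro g h (hg | hg) (hh | hh)
    · exact Or.inl (mul_mem hg hh)
    · exact Or.inr (by rw [mul_assoc]; exact mul_mem hg hh)
    · refine Or.inr ?_
      rw [show g * h * y⁻¹ = g * y⁻¹ * (y * h * y⁻¹) by group]
      exact mul_mem hg (hn _ hh)
    · refine Or.inl ?_
      rw [show g * h = g * y⁻¹ * (y * (h * y⁻¹) * y⁻¹) * (y * y) by group]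
      exact mul_mem (mul_mem hg (hn _ hh)) hy
  inv_mem' := by
    rintro g (hg | hg)
    · exact Or.inl (inv_mem hg)
    · refine Or.inr ?_
      rw [show g⁻¹ * y⁻¹ = (y * (g * y⁻¹) * y⁻¹ * (y * y))⁻¹ by group]
      exact inv_mem (mul_mem (hn _ hg) hy)

theorem mem_ext2 {G : Type*} [Group G] {T : Subgroup G} {y : G} {hn : ∀ t ∈ T, y * t * y⁻¹ ∈ T}
    {hy : y * y ∈ T} {g : G} : g ∈ ext2 T y hn hy ↔ g ∈ T ∨ g * y⁻¹ ∈ T := Iff.rfl

variable {K : Type*} [Field K]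

theorem dH_zpow (l : Kˣ) (i j : ℤ) :
    (dH (l, 1) : G2 K) ^ i * dH (1, l) ^ j = dH (l ^ i, l ^ j) := by
  rw [← map_zpow, ← map_zpow, ← map_mul]
  simp

theorem dH_r (l : Kˣ) : (dH (l, 1) : G2 K) * (dH (1, l))⁻¹ = dH (l, l⁻¹) := by
  rw [← map_inv, ← map_mul]
  simp

theorem dH_ζ (l : Kˣ) : (dH (l, 1) : G2 K) * dH (1, l) = dH (l, l) := by
  rw [← map_mul]
  simp

theorem conj_of_mul {G : Type*} [Group G] {g x y : G} (h : g * x = y * g) : g * x * g⁻¹ = y := by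
  rw [h, mul_inv_cancel_right]

theorem exists_GS {l : Kˣ} {k : ℕ} (ho : orderOf l = 4 * 2 ^ (k + 1))
    (hl : l ^ (2 * 2 ^ (k + 1)) = -1) :
    ∃ U : Subgroup (G2 K), GS U (2 ^ (k + 1)) (dH (l, 1)) (dH (1, l)) wy io := by
  let T : Subgroup (G2 K) := ((zpowers l).prod (zpowers l)).map dH
  have hT : ∀ g, g ∈ T ↔ ∃ i j : ℤ, g = dH (l ^ i, l ^ j) := fun g =>
    ⟨fun ⟨⟨s, t⟩, ⟨⟨i, hi⟩, ⟨j, hj⟩⟩, h⟩ => ⟨i, j, by rw [← h]; simp only at hi hj; rw [hi, hj]⟩,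
      fun ⟨i, j, h⟩ => ⟨(l ^ i, l ^ j), ⟨⟨i, rfl⟩, ⟨j, rfl⟩⟩, h.symm⟩⟩
  have hl' : l ^ (2 * ((2 ^ (k + 1) : ℕ) : ℤ)) = -1 := by exact_mod_cast hl
  have n1 : ∀ t ∈ T, wy * t * wy⁻¹ ∈ T := fun t ht => by
    obtain ⟨i, j, rfl⟩ := (hT t).1 ht
    exact (hT _).2 ⟨j, i, conj_of_mul (wy_dH _ _)⟩
  have n2 : ∀ t ∈ T, io * t * io⁻¹ ∈ T := fun t ht => by
    obtain ⟨i, j, rfl⟩ := (hT t).1 ht
    exact (hT _).2 ⟨-i, -j, by rw [zpow_neg, zpow_neg]; exact conj_of_mul (io_dH _ _)⟩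
  have s1 : wy * wy ∈ T := (hT _).2 ⟨_, _, by rw [wy_sq, ← hl']⟩
  have n3 : ∀ t ∈ ext2 T wy n1 s1, io * t * io⁻¹ ∈ ext2 T wy n1 s1 := by
    rintro t (ht | ht)
    · exact Or.inl (n2 t ht)
    · refine Or.inr ?_
      have := n2 _ ht
      rwa [mul_assoc, mul_assoc, ← mul_inv_rev, io_wy, mul_inv_rev, ← mul_assoc, ← mul_assoc] at this
  refine ⟨ext2 (ext2 T wy n1 s1) io n3 (by rw [io_sq]; exact one_mem _), ⟨k, rfl⟩, fun i j => ?_,
    ?_, conj_of_mul (wy_dH _ _), conj_of_mul (wy_dH _ _), ?_, ?_, ?_, io_sq, io_wy, fun g => ?_⟩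
  · rw [dH_zpow, map_eq_one_iff _ dH_inj, Prod.mk_eq_one, ← orderOf_dvd_iff_zpow_eq_one,
      ← orderOf_dvd_iff_zpow_eq_one, ho]
    push_cast
    rfl
  · rw [← map_mul, ← map_mul, mul_comm]
  · rw [dH_r, ← map_zpow, Prod.pow_mk, inv_zpow, hl', wy_sq]
    simp
  · rw [conj_of_mul (io_dH _ _), ← map_inv]; rfl
  · rw [conj_of_mul (io_dH _ _), ← map_inv]; rfl
  · simp only [mem_ext2, hT, dH_zpow, mul_inv_eq_iff_eq_mul, exists_or, or_assoc]
    simp only [mul_assoc]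

theorem exists_GM' [Finite K] {l : Kˣ} {k : ℕ} (h2 : (2 : K) ≠ 0)
    (ho : orderOf l = 4 * 2 ^ (k + 1)) (hl : l ^ (2 * 2 ^ (k + 1)) = -1)
    (hmax : ∀ (s : Kˣ) (n : ℕ), s ^ 2 ^ n = 1 → s ∈ zpowers l) :
    ∃ U : Subgroup (G2 K), GM U (2 ^ (k + 1)) (dH (l, 1)) (dH (1, l)) wy io := by
  obtain ⟨U, h⟩ := exists_GS ho hl
  have hmem := h.mem_iff
  simp only [dH_zpow] at hmem
  have hi : ((l ^ 2 ^ (k + 1) : Kˣ) : K) * (l ^ 2 ^ (k + 1) : Kˣ) = -1 := by
    rw [← Units.val_mul, ← pow_add, ← two_mul, hl]; simp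
  have hc : (2 : K) * 2⁻¹ = 1 := mul_inv_cancel₀ h2
  have hfix : ∀ v : Fin 8 → K, act (wy * wy) v = v → v 1 = 0 ∧ v 2 = 0 ∧ v 4 = 0 ∧ v 5 = 0 := by
    intro v hv
    rw [wy_sq, act_dH] at hv
    have a1 := congrFun hv 1
    have a2 := congrFun hv 2
    have a4 := congrFun hv 4
    have a5 := congrFun hv 5
    simp only [dF, v8c, inv_neg, inv_one, Units.val_neg, Units.val_one] at a1 a2 a4 a5
    exact ⟨(mul_eq_zero.1 (by linear_combination -a1)).resolve_left h2,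
      (mul_eq_zero.1 (by linear_combination -a2)).resolve_left h2,
      (mul_eq_zero.1 (by linear_combination -a4)).resolve_left h2,
      (mul_eq_zero.1 (by linear_combination -a5)).resolve_left h2⟩
  have hsq : ∀ u ∈ U, ∃ s t, u * u = dH (s, t) := by
    intro u hu
    obtain ⟨i, j, rfl | rfl | rfl | rfl⟩ := (h.mem_iff u).1 hu
    · exact ⟨_, _, by rw [h.e_mul, dH_zpow]⟩
    · exact ⟨_, _, by rw [h.ey_sq, dH_zpow]⟩
    · exact ⟨1, 1, by rw [h.eι_sq]; exact (map_one dH).symm⟩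
    · exact ⟨_, _, by rw [h.eg_sq, dH_zpow]⟩
  have hμ : l * l ≠ 1 := by
    rw [← sq, Ne, ← orderOf_dvd_iff_pow_eq_one, ho]
    intro hd
    have := Nat.le_of_dvd two_pos hd
    have : 0 < 2 ^ (k + 1) := by positivity
    omega
  have haa : (dH (l, 1) : G2 K) * dH (l, 1) = dH (l * l, 1) := by rw [← map_mul]; simp
  have hbb : (dH (1, l) : G2 K) * dH (1, l) = dH (1, l * l) := by rw [← map_mul]; simp
  have hzc : ∀ u ∈ U, u * (wy * wy) = wy * wy * u := by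
    intro u hu
    have c1 : ∀ s t, Commute (dH (s, t)) (wy * wy : G2 K) := fun s t => by
      rw [wy_sq]; exact (Commute.all _ _).map dH
    have c2 : Commute (wy : G2 K) (wy * wy) := (Commute.refl _).mul_right (Commute.refl _)
    have c3 : Commute (io : G2 K) (wy * wy) := Commute.mul_right io_wy io_wy
    obtain ⟨i, j, rfl | rfl | rfl | rfl⟩ := (hmem u).1 hu
    · exact c1 _ _
    · exact (c1 _ _).mul_left c2
    · exact (c1 _ _).mul_left c3
    · exact (c1 _ _).mul_left (c2.mul_left c3)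
  refine ⟨U, h, ⟨le_top, h.two, fun Q hQ hUQ _ => ?_⟩, fun g hg x hx hU => ?_,
    ⟨ro, ?_, ?_, conj_of_mul ro_io⟩, ?_, ?_⟩
  · by_contra hne
    obtain ⟨g₀, hg₀Q, hg₀U, hg₀N⟩ :=
      H6.exists_mem_normalizer_not_mem hQ (lt_of_le_of_ne hUQ (Ne.symm hne))
    have hdiag : ∀ s t, dH (s, t) ∈ Q → dH (s, t) ∈ U := fun s t hst => by
      obtain ⟨n, hn⟩ := isPGroup_subgroup_iff.1 hQ _ hst
      rw [← map_pow, map_eq_one_iff _ dH_inj, Prod.pow_mk, Prod.mk_eq_one] at hn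
      obtain ⟨i, rfl⟩ := hmax s n hn.1
      obtain ⟨j, rfl⟩ := hmax t n hn.2
      exact (hmem _).2 ⟨i, j, Or.inl rfl⟩
    have key : ∀ g ∈ Q, g ∈ normalizer (U : Set (G2 K)) → act g (e 0) = e 0 → act g (e 7) = e 7 →
        g ∈ U := by
      intro g hgQ hgN h0 h7
      have hc : ∀ u ∈ U, ∃ s t, g * (u * u) = dH (s, t) * g := fun u hu => by
        obtain ⟨s, t, e⟩ := hsq _ ((mem_normalizer_iff.1 hgN u).1 hu)
        exact ⟨s, t, by rw [← e]; group⟩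
      obtain ⟨s, t, ha⟩ := hc _ h.a_mem
      obtain ⟨s', t', hz⟩ := hc _ h.y_mem
      have hz1 : dH (s', t') = g * (wy * wy) * g⁻¹ := (conj_of_mul hz).symm
      have e1 : wy * dH (s', t') = dH (s', t') * wy := by
        have := hzc _ ((mem_normalizer_iff.1 (inv_mem hgN) wy).1 h.y_mem)
        rw [hz1]
        calc wy * (g * (wy * wy) * g⁻¹) = g * (g⁻¹ * wy * g⁻¹⁻¹ * (wy * wy)) * g⁻¹ := by group
          _ = _ := by rw [this]; group
      rw [wy_dH, mul_left_inj] at e1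
      obtain rfl : t' = s' := (Prod.mk.inj (dH_inj e1)).1
      have e2 : (dH (t', t') : G2 K) * dH (t', t') = 1 := by
        rw [hz1, wy_sq, show g * dH (-1, -1) * g⁻¹ * (g * dH (-1, -1) * g⁻¹) =
          g * (dH (-1, -1) * dH (-1, -1)) * g⁻¹ by group, ← map_mul]
        simp [show ((1, 1) : Kˣ × Kˣ) = 1 from rfl]
      rw [← map_mul, map_eq_one_iff _ dH_inj, Prod.mk_mul_mk, Prod.mk_eq_one] at e2
      have e3 : t' = -1 := by
        rcases mul_self_eq_one_iff.1 (show (t' : K) * t' = 1 by rw [← Units.val_mul, e2.1]; rfl)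
          with e3 | e3
        · obtain rfl : t' = 1 := Units.ext e3
          rw [show ((1, 1) : Kˣ × Kˣ) = 1 from rfl, map_one, one_mul, mul_eq_left, wy_sq,
            map_eq_one_iff _ dH_inj, Prod.mk_eq_one] at hz
          have := congrArg Units.val hz.1
          exact (h2 (by
            simp only [Units.val_neg, Units.val_one] at this; linear_combination -this)).elim
        · exact Units.ext e3
      rw [e3, wy_sq] at hz
      rw [haa] at ha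
      obtain ⟨s, t, e | e⟩ := monomial h2 hμ h0 h7 hz ha
      · rw [e] at hgQ ⊢
        exact hdiag s t hgQ
      · have := hdiag s t (e ▸ mul_mem (hUQ h.y_mem) hgQ)
        rw [← e] at this
        exact (mul_mem_cancel_left h.y_mem).1 this
    have hc : ∀ u ∈ U, ∃ s t, u * u * g₀ = g₀ * dH (s, t) := fun u hu => by
      obtain ⟨s, t, e⟩ := hsq _ ((mem_normalizer_iff.1 (inv_mem hg₀N) u).1 hu)
      exact ⟨s, t, by rw [← e]; group⟩
    obtain ⟨s, t, ha⟩ := hc _ h.a_mem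
    obtain ⟨s', t', hb⟩ := hc _ h.b_mem
    rw [haa] at ha
    rw [hbb] at hb
    rcases idem hμ ha hb with ⟨h0, h7⟩ | ⟨h0, h7⟩
    · exact hg₀U (key g₀ hg₀Q hg₀N h0 h7)
    · refine hg₀U ((mul_mem_cancel_left h.ι_mem).1 (key _ (mul_mem (hUQ h.ι_mem) hg₀Q)
        (mul_mem (le_normalizer h.ι_mem) hg₀N) ?_ ?_))
      · rw [act_mul, h0, act_io]; simp [iF, e_eq, v8c]
      · rw [act_mul, h7, act_io]; simp [iF, e_eq, v8c]
  · let X : Subgroup (G2 K) :=
      { carrier := {x | ∀ v, act (wy * wy) v = v → act x v = v}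
        one_mem' := fun v _ => act_one v
        mul_mem' := fun ha hb v hv => by rw [act_mul, hb v hv, ha v hv]
        inv_mem' := fun {a} ha v hv => act_inj a (by rw [act_act_inv, ha v hv]) }
    have hX : g2 (dH (l, 1) * (dH (1, l))⁻¹) wy ≤ X := by
      refine sup_le (zpowers_le.2 fun v hv => ?_) (zpowers_le.2 fun v hv => ?_) <;>
        obtain ⟨a1, a2, a4, a5⟩ := hfix v hv
      · rw [dH_r, act_dH]
        apply vec_ext <;> simp [dF, v8c, a1, a2, a4, a5]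
      · rw [act_wy]
        apply vec_ext <;> simp [v8c, a1, a2, a4, a5]
    have hu : ∀ v, act (wy * wy) v = v → act (g * x * g⁻¹) v = v := fun v hv => by
      have : act (wy * wy) (act g⁻¹ v) = act g⁻¹ v := by
        rw [← act_mul, show wy * wy * g⁻¹ = g⁻¹ * (g * (wy * wy) * g⁻¹) by group, hg, act_mul, hv]
      rw [act_mul, act_mul, hX hx _ this, act_act_inv]
    have u0 := congrFun (hu (e 0) (by
      rw [wy_sq, act_dH]; apply vec_ext <;> simp [dF, e_eq, v8c])) 0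
    have u3 := congrFun (hu (e 3) (by
      rw [wy_sq, act_dH]; apply vec_ext <;> simp [dF, e_eq, v8c])) 3
    have hr : ∀ i j : ℤ, (((l ^ i)⁻¹ : Kˣ) : K) * ((l ^ j)⁻¹ : Kˣ) * 1 = 1 →
        dH (l ^ i, l ^ j) ∈ g2 (dH (l, 1) * (dH (1, l))⁻¹ : G2 K) wy := fun i j hij => by
      rw [mul_one, ← Units.val_mul, Units.val_eq_one, mul_inv_eq_one] at hij
      refine mem_sup_left ⟨i, ?_⟩
      simp only [dH_r, ← map_zpow, Prod.pow_mk, inv_zpow, hij]
    obtain ⟨i, j, e | e | e | e⟩ := (hmem _).1 hU <;> rw [e] at u0 u3 ⊢ <;>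
      simp only [act_mul, act_dH, act_wy, act_io, dF, iF, e_eq, v8c] at u0 u3
    · exact hr i j u3
    · exact mul_mem (hr i j u3) (mem_sup_right (mem_zpowers _))
    · exact (zero_ne_one u0).elim
    · exact (zero_ne_one u0).elim
  · rw [conj_of_mul (ro_dH _ _), ← map_inv, ← map_mul]; simp
  · rw [conj_of_mul (ro_dH _ _), ← map_inv]; simp
  · obtain ⟨g, e1, e2, e3, e4⟩ := exists_b1 hi hc
    rw [dH_r, dH_ζ, ← map_zpow, Prod.pow_mk, inv_zpow, zpow_natCast]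
    exact ⟨g, conj_of_mul e1, conj_of_mul e2, conj_of_mul (e3 _), conj_of_mul e4⟩
  · obtain ⟨g, e1, e2, e3, e4⟩ := exists_b2 hi hc
    rw [dH_r, dH_ζ, ← map_zpow, Prod.pow_mk, zpow_natCast]
    exact ⟨g, conj_of_mul e1, conj_of_mul e2, conj_of_mul (e3 _), conj_of_mul e4⟩

theorem exists_GM (K : Type) [Field K] [Fintype K] (hK : Fintype.card K % 4 = 1) {j u : ℕ}
    (hu : Odd u) (e : Fintype.card K - 1 = 2 ^ (j + 1 + 2) * u) :
    ∃ (U : Subgroup (Lie.G2 K)) (a b y ι : Lie.G2 K), GM U (2 ^ (j + 1)) a b y ι := by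
  classical
  have h2 : (2 : K) ≠ 0 := Ring.two_ne_zero fun hc => by
    have := FiniteField.even_card_of_char_two hc
    omega
  obtain ⟨g, hg⟩ := IsCyclic.exists_ofOrder_eq_natCard (α := Kˣ)
  have hcard : Nat.card Kˣ = 2 ^ (j + 1 + 2) * u := by
    rw [Nat.card_eq_fintype_card, Fintype.card_units, e]
  have ho : orderOf (g ^ u) = 4 * 2 ^ (j + 1) := by
    rw [orderOf_pow_of_dvd hu.pos.ne' (by rw [hg, hcard]; exact dvd_mul_left _ _), hg, hcard,
      Nat.mul_div_cancel _ hu.pos]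
    ring
  have hl : (g ^ u) ^ (2 * 2 ^ (j + 1)) = -1 := by
    have e1 : (((g ^ u) ^ (2 * 2 ^ (j + 1)) : Kˣ) : K) * ((g ^ u) ^ (2 * 2 ^ (j + 1)) : Kˣ) = 1 := by
      rw [← Units.val_mul, ← pow_add, show 2 * 2 ^ (j + 1) + 2 * 2 ^ (j + 1) = 4 * 2 ^ (j + 1) by ring,
        ← ho, pow_orderOf_eq_one, Units.val_one]
    rcases mul_self_eq_one_iff.1 e1 with e2 | e2
    · have e3 : (g ^ u) ^ (2 * 2 ^ (j + 1)) = 1 := Units.ext e2
      have := Nat.le_of_dvd (by positivity) (orderOf_dvd_of_pow_eq_one e3)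
      have : 0 < 2 ^ (j + 1) := by positivity
      omega
    · exact Units.ext e2
  obtain ⟨U, h⟩ := exists_GM' h2 ho hl fun s n hs => by
    have hp : IsPrimitiveRoot (g ^ u) (4 * 2 ^ (j + 1)) := ho ▸ IsPrimitiveRoot.orderOf _
    haveI : NeZero (4 * 2 ^ (j + 1)) := ⟨by positivity⟩
    rw [hp.zpowers_eq, mem_rootsOfUnity, ← orderOf_dvd_iff_pow_eq_one]
    have d1 : orderOf s ∣ 2 ^ (j + 1 + 2) * u := hcard ▸ orderOf_dvd_natCard s
    have d2 : (orderOf s).Coprime u := Nat.Coprime.coprime_dvd_left (orderOf_dvd_of_pow_eq_one hs)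
      (Nat.Coprime.pow_left _ (Nat.coprime_two_left.2 hu))
    rw [show 4 * 2 ^ (j + 1) = 2 ^ (j + 1 + 2) by ring]
    exact d2.dvd_of_dvd_mul_right d1
  exact ⟨U, _, _, _, _, h⟩

end Cfsg.Agent.QP
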