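import Cfsg.Agent.Lib.QP.Basic

/-!
# Weakly closed generalized quaternion subgroups: the semidihedral case
-/

set_option autoImplicit false
set_option linter.unusedSectionVars false
set_option linter.unusedVariables false

namespace Cfsg.Agent.QP

open Cfsg Subgroup FusionSystem H6 H2 H8

variable {Ω : Type*} [Group Ω] {S R P Q : Subgroup Ω} [Finite S] {F : FusionSystem S} {m : ℕ}
  {r y t s w x : Ω} {f g : Ω → Ω}

/-- `t` acts on `⟨r, y⟩` as an outer automorphism inverting `r`. -/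
def Od (r y t : Ω) : Prop := t * r * t⁻¹ = r ^ (-1 : ℤ) ∧ ∃ B : ℤ, Odd B ∧ t * y * t⁻¹ = r ^ B * y

theorem comm_of_sq {t v : Ω} (h1 : t * t = 1) (h2 : v * v = 1) (h3 : t * v * (t * v) = 1) :
    t * v * t = t * (t * v) := by
  rw [← mul_assoc, h1, one_mul, ← mul_left_inj v, h2, mul_assoc, h3]

namespace Ctx

variable (h : Ctx F R m r y)
include h

theorem cop {c : ℤ} (hc : Odd c) : IsCoprime (4 * m : ℤ) c := by
  obtain ⟨k, e⟩ := h.ev
  obtain ⟨b, rfl⟩ := hc
  rw [e]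
  push_cast
  rw [show (4 : ℤ) * 2 ^ (k + 1) = 2 ^ (k + 3) by ring]
  exact IsCoprime.pow_left ⟨-b, 1, by ring⟩
theorem uu : r ^ (m : ℤ) * r ^ (m : ℤ) = y * y := by rw [h.zz, ← zpow_add, two_mul]
theorem od (ht : t ∈ S) (h2 : t * t = 1) (hw : ∀ w ∈ R, w * w = y * y → t * w ≠ w * t) :
    Od r y t := by
  obtain ⟨a, b, ha, e1, e2⟩ := h.act ht
  have tt : ∀ v : Ω, t * (t * v * t⁻¹) * t⁻¹ = v := fun v => by
    rw [show t * (t * v * t⁻¹) * t⁻¹ = t * t * v * (t * t)⁻¹ by group, h2]; simp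
  have hc : Odd ((a - 1) / 2) := by
    by_contra hc
    obtain ⟨d, hd⟩ := Int.not_odd_iff_even.1 hc
    obtain ⟨a', rfl⟩ := ha
    refine hw _ (h.mc.zpow_mem m) h.uu (mul_inv_eq_iff_eq_mul.1 ?_)
    rw [conj_zpow' e1]
    obtain rfl : a' = d + d := by omega
    exact h.mc.zpow_eq d (by ring)
  have hb : Odd b := by
    by_contra hb
    obtain ⟨d, rfl⟩ := Int.not_odd_iff_even.1 hb
    obtain ⟨p, q, e⟩ := h.cop hc
    obtain ⟨a', rfl⟩ := ha
    rw [show (2 * a' + 1 - 1) / 2 = a' by omega] at e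
    refine hw _ (h.mc.outer_mem (-q * d)) (h.osq _) (mul_inv_eq_iff_eq_mul.1 ?_)
    rw [show t * (r ^ (-q * d) * y) * t⁻¹ = t * r ^ (-q * d) * t⁻¹ * (t * y * t⁻¹) by group,
      conj_zpow' e1, e2, ← mul_assoc, ← zpow_add]
    congr 1
    exact h.mc.zpow_eq (2 * p * d) (by linear_combination (-2 * d) * e)
  refine ⟨?_, b, hb, e2⟩
  have := tt y
  rw [e2, show t * (r ^ b * y) * t⁻¹ = t * r ^ b * t⁻¹ * (t * y * t⁻¹) by group, conj_zpow' e1, e2,
    ← mul_assoc, ← zpow_add, mul_eq_right, h.mc.zpow_eq_one_iff] at this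
  rw [e1, h.mc.zpow_eq_iff]
  exact (h.cop hb).dvd_of_dvd_mul_right (by rwa [show (a - -1) * b = a * b + b by ring])
theorem r_ne : r ^ (-1 : ℤ) ≠ r := fun e => by
  have := Int.le_of_dvd two_pos (dvd_neg.1 (h.mc.zpow_eq_iff.1 (e.trans (zpow_one r).symm)))
  have := h.two_le
  omega
theorem od_ne (ho : Od r y t) (hc : x * r = r * x) : t * x ≠ y * y := fun e => by
  have h1 := (h.comm_z h.rS).symm
  rw [← e, mul_assoc, hc, ← mul_assoc, ← mul_assoc, mul_left_inj] at h1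
  exact h.r_ne (ho.1.symm.trans (mul_inv_eq_iff_eq_mul.2 h1))
theorem od_mul (ht : F.IsConjElt (y * y) t) (ho : Od r y t) (i : ℤ) :
    F.IsConjElt (y * y) (t * r ^ i) := by
  have tS := ht.mem_right
  have t2 := h.sq ht
  have ti : t⁻¹ = t := inv_eq_of_mul_eq_one_right t2
  have key : ∀ j k : ℤ, F.IsConjElt (y * y) (t * r ^ j) →
      F.IsConjElt (y * y) (t * r ^ (j + 2 * k)) := fun j k hj => by
    have := hj.trans (isConjElt_conj F (zpow_mem h.rS (-k)) hj.mem_right)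
    have e := conj_zpow' ho.1 (-k)
    rw [ti] at e
    rwa [show r ^ (-k) * (t * r ^ j) * (r ^ (-k))⁻¹ = t⁻¹ * (t * r ^ (-k) * t) * r ^ j * r ^ k by
      group, e, ti, mul_assoc, mul_assoc, ← zpow_add, ← zpow_add,
      show -1 * -k + (j + k) = j + 2 * k by ring] at this
  obtain ⟨-, B, ⟨c, rfl⟩, e⟩ := ho
  rcases Int.even_or_odd' i with ⟨k, rfl | rfl⟩
  · simpa using key 0 k (by simpa using ht)
  · have h1 := ht.trans (isConjElt_conj F h.yS tS)
    rw [ti] at e
    rw [show y * t * y⁻¹ = t⁻¹ * (t * y * t) * y⁻¹ by group, e, ti, mul_assoc,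
      mul_inv_cancel_right] at h1
    have := key _ (k - c) h1
    rwa [show 2 * c + 1 + 2 * (k - c) = 2 * k + 1 by ring] at this

variable (hall : ∀ s, F.IsConjElt (y * y) s → s ≠ y * y → Od r y s)
include hall

theorem three (ht : F.IsConjElt (y * y) t) (hne : t ≠ y * y) (hs : F.IsConjElt (y * y) s)
    (hne' : s ≠ y * y) (hc : s * t = t * s) : s = t ∨ s = t * (y * y) := by
  by_contra! hn
  obtain ⟨φ, hφ, e⟩ := h.ext ht
  have tC : t ∈ cS S t := mem_cS.2 ⟨ht.mem_right, rfl⟩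
  have sC : s ∈ cS S t := mem_cS.2 ⟨hs.mem_right, hc⟩
  have zC := h.z_cS ht.mem_right
  have key : ∀ v ∈ cS S t, F.IsConjElt (y * y) v → v ≠ t → φ v * r * (φ v)⁻¹ = r ^ (-1 : ℤ) :=
    fun v hv h1 h2 => (hall _ (h1.trans (hφ.isConjElt hv)) fun e' =>
      h2 (hφ.inj hv tC (e'.trans e.symm))).1
  have h1 := key _ zC (F.isConjElt_refl h.zS) hne.symm
  have h2 := key _ sC hs hn.1
  have h3 := key _ (mul_mem sC zC) (h.zz ▸ h.od_mul hs (hall s hs hne') (2 * m)) fun e' =>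
    hn.2 (by rw [← e', mul_assoc, h.z2, mul_one])
  rw [hφ.map_mul sC zC, show φ s * φ (y * y) * r * (φ s * φ (y * y))⁻¹ =
    φ s * (φ (y * y) * r * (φ (y * y))⁻¹) * (φ s)⁻¹ by group, h1, conj_zpow' h2] at h3
  exact h.r_ne (by simpa using h3.symm)
theorem conj_cases (ht : F.IsConjElt (y * y) t) (hne : t ≠ y * y) (hs : F.IsConjElt (y * y) s)
    (hne' : s ≠ y * y) : ∃ i : ℤ, s = t * r ^ i := by
  have ho := hall t ht hne
  obtain ⟨e1, B, ⟨b, rfl⟩, e2⟩ := hall t ht hne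
  obtain ⟨f1, B', ⟨b', rfl⟩, f2⟩ := hall s hs hne'
  have ti : t⁻¹ = t := inv_eq_of_mul_eq_one_right (h.sq ht)
  have h1 := h.od_mul hs (hall s hs hne') (b' - b)
  obtain ⟨c, hc⟩ : ∃ c, s * r ^ (b' - b) = t * c := ⟨t⁻¹ * (s * r ^ (b' - b)), by group⟩
  have cS : c ∈ S := (mul_mem_cancel_left ht.mem_right).1 (hc ▸ h1.mem_right)
  have cr : c * r = r * c := by
    have : t * c * r * (t * c)⁻¹ = t * r * t⁻¹ := by
      rw [← hc, e1, ← f1]; group
    rw [← mul_inv_eq_iff_eq_mul, ← (MulAut.conj t).injective.eq_iff]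
    simpa [mul_assoc] using this
  have cy : c * y = y * c := by
    have : t * c * y * (t * c)⁻¹ = t * y * t⁻¹ := by
      rw [← hc, e2, show s * r ^ (b' - b) * y * (s * r ^ (b' - b))⁻¹ =
        s * r ^ (b' - b) * (y * r ^ (-(b' - b))) * s⁻¹ by group, h.yr, neg_neg,
        show s * r ^ (b' - b) * (r ^ (b' - b) * y) * s⁻¹ =
          s * r ^ (2 * (b' - b)) * s⁻¹ * (s * y * s⁻¹) by group, conj_zpow' f1, f2, ← mul_assoc,
        ← zpow_add]
      congr 2; ring
    rw [← mul_inv_eq_iff_eq_mul, ← (MulAut.conj t).injective.eq_iff]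
    simpa [mul_assoc] using this
  rw [hc] at h1
  have tc : t * c * t⁻¹ = c ^ (-1 : ℤ) := by
    rw [ti, zpow_neg_one, eq_inv_iff_mul_eq_one, mul_assoc]; exact h.sq h1
  have hD : ∀ i : ℤ, F.IsConjElt (y * y) (t * c ^ i) := fun i => by
    have key : ∀ j k : ℤ, F.IsConjElt (y * y) (t * c ^ j) →
        F.IsConjElt (y * y) (t * c ^ (j + 2 * k)) := fun j k hj => by
      have := hj.trans (isConjElt_conj F (zpow_mem cS (-k)) hj.mem_right)
      have e := conj_zpow' tc (-k)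
      rw [ti] at e
      rwa [show c ^ (-k) * (t * c ^ j) * (c ^ (-k))⁻¹ = t⁻¹ * (t * c ^ (-k) * t) * c ^ j * c ^ k by
        group, e, ti, mul_assoc, mul_assoc, ← zpow_add, ← zpow_add,
        show -1 * -k + (j + k) = j + 2 * k by ring] at this
    rcases Int.even_or_odd' i with ⟨k, rfl | rfl⟩
    · simpa using key 0 k (by simpa using ht)
    · simpa [add_comm] using key 1 k (by simpa using h1)
  have cr' : ∀ i : ℤ, c ^ i * r = r * c ^ i := fun i => (Commute.zpow_left cr i : _)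
  have inv : ∀ i : ℤ, c ^ i * c ^ i = 1 → c ^ i = 1 ∨ c ^ i = y * y := fun i hi => by
    have := h.three hall ht hne (hD i) (h.od_ne ho (cr' i)) 
      (comm_of_sq (h.sq ht) hi (h.sq (hD i)))
    rwa [mul_eq_left, mul_right_inj] at this
  have four : ∀ i : ℤ, c ^ i * c ^ i ≠ y * y := fun i hi => by
    have hu := h.uu
    have ho' := hall _ (hD i) (h.od_ne ho (cr' i))
    have cu : c ^ i * r ^ (m : ℤ) = r ^ (m : ℤ) * c ^ i :=
      ((Commute.zpow_left cr i).zpow_right m : _)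
    have h3 := h.od_mul (hD i) ho' m
    rw [mul_assoc] at h3
    have v2 : c ^ i * r ^ (m : ℤ) * (c ^ i * r ^ (m : ℤ)) = 1 := by
      rw [mul_assoc, ← mul_assoc (r ^ (m : ℤ)), ← cu, mul_assoc, hu, ← mul_assoc, hi, h.z2]
    have := h.three hall ht hne h3 (h.od_ne ho (by
      rw [mul_assoc, ((Commute.refl r).zpow_left m).eq, ← mul_assoc, cr', mul_assoc]))
      (comm_of_sq (h.sq ht) v2 (h.sq h3))
    rw [mul_eq_left, mul_right_inj] at this
    have cy' : c ^ i * y = y * c ^ i := (Commute.zpow_left cy i : _)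
    have : r ^ (m : ℤ) * y = y * r ^ (m : ℤ) := by
      rw [← mul_right_inj (c ^ i), ← mul_assoc, ← mul_assoc, cy', mul_assoc y]
      rcases this with e | e <;> rw [e] <;> simp [mul_assoc]
    have h4 := (h.mc.commute_outer_iff 0 m).1 (by simpa using this.symm)
    have := Int.le_of_dvd (by exact_mod_cast h.mc.pos) h4
    have := h.mc.pos
    omega
  have : c = 1 ∨ c = y * y := by
    obtain ⟨k, hk⟩ := h.two ⟨c, cS⟩
    have hk' : c ^ (2 ^ k : ℤ) = 1 := by
      have : c ^ 2 ^ k = 1 := congrArg Subtype.val hk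
      exact_mod_cast this
    clear hk
    induction k with
    | zero => exact Or.inl (by simpa using hk')
    | succ k ih =>
      rcases inv (2 ^ k) (by rw [← zpow_add, ← hk']; congr 1; ring) with e | e
      · exact ih e
      · cases k with
        | zero => exact Or.inr (by simpa using e)
        | succ k => exact absurd (by rw [← zpow_add, ← e]; congr 1; ring) (four (2 ^ k))
  rcases this with rfl | rfl
  · exact ⟨-(b' - b), by rw [← mul_one t, ← hc]; group⟩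
  · exact ⟨2 * m - (b' - b), by rw [zpow_sub, ← h.zz, ← mul_assoc, ← hc]; group⟩

end Ctx

theorem Ctx.case1 (h : Ctx F R m r y) (ht : F.IsConjElt (y * y) t) (hne : t ≠ y * y)
    (hall : ∀ s, F.IsConjElt (y * y) s → s ≠ y * y → ∀ w ∈ R, w * w = y * y → s * w ≠ w * s) :
    ∃ P : Subgroup Ω, P ≤ S ∧ IsQuasiDihedral P ∧ F.StronglyClosed P := by
  have hall' : ∀ s, F.IsConjElt (y * y) s → s ≠ y * y → Od r y s := fun s hs e =>
    h.od hs.mem_right (h.sq hs) (hall s hs e)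
  obtain ⟨e1, B, hB, e2⟩ := hall' t ht hne
  have t2 := h.sq ht
  have ti : t⁻¹ = t := inv_eq_of_mul_eq_one_right t2
  have tS := ht.mem_right
  have tR : t ∉ R := fun hR => hne (h.eq_z hR (h.ne_one ht) t2)
  have tN : zpowers t ≤ normalizer (R : Set Ω) := zpowers_le_of_mem (h.wc.le_normalizer tS)
  have hPS : R ⊔ zpowers t ≤ S := sup_le h.le (zpowers_le_of_mem tS)
  have tP : t ∈ R ⊔ zpowers t := mem_sup_right (mem_zpowers t)
  have mem : ∀ g ∈ R ⊔ zpowers t, g ∈ R ∨ t * g ∈ R := fun g hg => by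
    obtain ⟨_, ⟨i, rfl⟩, b, hb, rfl⟩ := (mem_sup_of_le_normalizer tN).1 (sup_comm R _ ▸ hg)
    have : t ^ (2 : ℤ) = 1 := by rw [zpow_two, t2]
    rcases Int.even_or_odd' i with ⟨k, rfl | rfl⟩
    · left; simpa [zpow_mul, this] using hb
    · right; simpa [zpow_add, zpow_mul, this, ← mul_assoc, t2] using hb
  have hD : ∀ s, F.IsConjElt (y * y) s → s ∈ R ⊔ zpowers t := fun s hs => by
    by_cases e : s = y * y
    · exact mem_sup_left (e ▸ h.zR)
    · obtain ⟨i, rfl⟩ := h.conj_cases hall' ht hne hs e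
      exact mul_mem tP (mem_sup_left (h.mc.zpow_mem i))
  have sq : ∀ i : ℤ, (t * (r ^ i * y)) ^ (2 : ℤ) = r ^ (B - 2 * i + 2 * m) := fun i => by
    have e3 : t * y * t = r ^ B * y := by rw [← e2, ti]
    rw [zpow_two, show t * (r ^ i * y) * (t * (r ^ i * y)) =
      t * r ^ i * t⁻¹ * (t * y * t) * r ^ i * y by group, conj_zpow' e1, e3,
      show r ^ (-1 * i) * (r ^ B * y) * r ^ i * y = r ^ (B - i) * (y * r ^ i) * y by group, h.yr,
      mul_assoc, mul_assoc, h.zz, ← zpow_add, ← zpow_add]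
    congr 1; ring
  have pw : ∀ i j : ℤ, (t * (r ^ i * y)) ^ (2 * j) = r ^ ((B - 2 * i + 2 * m) * j) := fun i j => by
    rw [zpow_mul, sq, zpow_mul]
  obtain ⟨b, rfl⟩ := hB
  have z4 : ∀ i : ℤ, (t * (r ^ i * y)) ^ (2 * (2 * m) : ℤ) = y * y := fun i => by
    rw [pw, h.zz]
    exact h.mc.zpow_eq (b - i + m) (by ring)
  refine ⟨R ⊔ zpowers t, hPS, ?_, stronglyClosed_iff_isConjElt.2 ⟨hPS, fun g hg g' hc => ?_⟩⟩
  · obtain ⟨k, e⟩ := h.ev
    have xP : t * (r ^ (0 : ℤ) * y) ∈ R ⊔ zpowers t :=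
      mul_mem tP (mem_sup_left (h.mc.outer_mem 0))
    have h4 : (t * (r ^ (0 : ℤ) * y)) ^ 2 ^ (k + 3) = y * y := by
      rw [← z4 0, ← zpow_natCast, e]; congr 1; push_cast; ring
    refine ⟨k + 4, by omega, ?_, ⟨_, xP⟩, ⟨t, tP⟩, ?_, ?_, Subtype.ext ?_⟩
    · rw [H9.card_sup_zpowers (p := 2) (tN (mem_zpowers t)) tR (by rw [pow_two, t2]; exact one_mem _),
        h.mc.card, e]
      ring
    · rw [← orderOf_coe]
      exact orderOf_eq_prime_pow (p := 2) (h4 ▸ h.z1) (by rw [pow_succ, pow_mul, h4, pow_two, h.z2])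
    · rw [← orderOf_coe]
      exact (isConjElt_orderOf ht).trans h.oz
    · change t * (t * (r ^ (0 : ℤ) * y)) * t⁻¹ = (t * (r ^ (0 : ℤ) * y)) ^ (2 ^ (k + 3) - 1)
      rw [pow_sub _ Nat.one_le_two_pow, h4, ti, ← mul_assoc t, t2]
      simp [ti, mul_assoc]
  by_cases g1 : g = 1
  · obtain ⟨f, hf, rfl⟩ := isConjElt_iff'.1 hc
    rw [g1, hf.map_one]
    exact one_mem _
  by_cases hg' : F.IsConjElt (y * y) g
  · exact hD _ (hg'.trans hc)
  obtain ⟨w, hw, hwR, hww⟩ : ∃ w ∈ zpowers g, w ∈ R ∧ w * w = y * y := by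
    have inn : ∀ i : ℤ, r ^ i ∈ zpowers g → r ^ i ≠ 1 → r ^ i ≠ y * y →
        ∃ w ∈ zpowers g, w ∈ R ∧ w * w = y * y := fun i hi h1 h2 => by
      obtain ⟨k, hk⟩ := h.two ⟨r ^ i, zpow_mem h.rS i⟩
      have hk' : (r ^ i) ^ 2 ^ k = 1 := congrArg Subtype.val hk
      clear hk
      induction k with
      | zero => exact absurd (by simpa using hk') h1
      | succ k ih =>
        by_cases e : (r ^ i) ^ 2 ^ k = 1
        · exact ih e
        have := h.eq_z (pow_mem (h.mc.zpow_mem i) _) e (by rw [← pow_two, ← pow_mul, ← pow_succ, hk'])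
        cases k with
        | zero => exact absurd (by simpa using this) h2
        | succ k => exact ⟨_, pow_mem hi (2 ^ k), pow_mem (h.mc.zpow_mem i) _, by
            rw [← pow_two, ← pow_mul, ← pow_succ, this]⟩
    rcases mem g hg with hR | hR <;> obtain ⟨i, e | e⟩ := (h.mc.mem_iff _).1 hR
    · exact inn i (e ▸ mem_zpowers g) (e ▸ g1) fun e' =>
        hg' (by rw [e, e']; exact F.isConjElt_refl h.zS)
    · exact ⟨g, mem_zpowers g, hR, e ▸ h.osq i⟩
    · exact absurd (by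
        rw [show g = t * r ^ i by rw [← e, ← mul_assoc, t2, one_mul]]
        exact h.od_mul ht (hall' t ht hne) i) hg'
    · obtain rfl : g = t * (r ^ i * y) := by rw [← e, ← mul_assoc, t2, one_mul]
      refine ⟨_, zpow_mem (mem_zpowers _) (2 * m), pw i m ▸ h.mc.zpow_mem _, ?_⟩
      rw [← zpow_add, ← z4 i]; congr 1; ring
  obtain ⟨f, hf, rfl⟩ := isConjElt_iff'.1 hc
  have zg : y * y ∈ zpowers g := hww ▸ mul_mem hw hw
  by_cases e : f (y * y) = y * y
  · obtain ⟨k, hk, e'⟩ := h.lift hf zg e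
    have h1 : k g ∈ R ⊔ zpowers t := by
      rcases mem g hg with hR | hR
      · exact mem_sup_left (h.mor_mem hk le_sup_right hR)
      · have gP : g ∈ zpowers g ⊔ R := mem_sup_left (mem_zpowers g)
        have tP' : t ∈ zpowers g ⊔ R := (mul_mem_cancel_right gP).1 (mem_sup_right hR)
        have := h.mor_mem hk le_sup_right hR
        rw [hk.map_mul tP' gP] at this
        exact (mul_mem_cancel_left (hD _ (ht.trans (hk.isConjElt tP')))).1 (mem_sup_left this)
    exact inv_mem_iff.1 ((mul_mem_cancel_right h1).1 (mem_sup_left (e' g (mem_zpowers g))))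
  · have hr := (h.rel_self hwR).transport hf zg hw
    have := h.factA hr e (by rw [← hf.map_mul hw hw, hww])
    exact absurd ((hall' _ (h.rel_conj hr) e).1.symm.trans (mul_inv_eq_iff_eq_mul.2 this)) h.r_ne

end Cfsg.Agent.QP
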