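import Cfsg.Agent.Lib.QP.TwoB

/-!
# Weakly closed generalized quaternion subgroups: the wreathed case and the case `G₂(q)`
-/

set_option autoImplicit false
set_option linter.unusedSectionVars false
set_option linter.unusedVariables false

namespace Cfsg.Agent.QP

open Cfsg Subgroup FusionSystem H6 H2 H8

variable {Ω : Type*} [Group Ω] {S R P Q : Subgroup Ω} [Finite S] {F : FusionSystem S} {m : ℕ}
  {r y t s w x z a b ι : Ω} {f g ρ : Ω → Ω} {M : Subgroup Ω → (Ω → Ω) → Prop} {l : ℤ}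

theorem cancel (hM : Closed F M) (hf : F.IsMor P f) (hg : F.IsMor Q g) (hm : ∀ x ∈ P, f x ∈ Q)
    (h1 : M Q g) (h2 : M P (g ∘ f)) : M P f := by
  have hle : img P f ≤ Q := img_le_iff.2 hm
  obtain ⟨k, hk, e, -⟩ := (hg.isIso_img_of_le hle).exists_symm
  exact hM.congr (hM.comp (hg.comp hf hm) hk.mor h2
    (hM.inv (hg.isIso_img_of_le hle) hk e (hM.mono hg h1 hle))
    fun x hx => mem_img_of_mem g (mem_img_of_mem f hx)) fun x hx => e _ (mem_img_of_mem f hx)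

/-- Some map of the class `M` defined on `C_S(t)` carries `t` to `z`. -/
def Key (F : FusionSystem S) (M : Subgroup Ω → (Ω → Ω) → Prop) (z t : Ω) : Prop :=
  ∃ ψ, F.IsMor (cS S t) ψ ∧ ψ t = z ∧ M (cS S t) ψ

theorem Key.step (hM : Closed F M) (hg : F.IsMor Q g) (h1 : M Q g) (ht : t ∈ S)
    (hle : cS S t ≤ Q) (h : Key F M z (g t)) : Key F M z t := by
  obtain ⟨ψ, hψ, e, h2⟩ := h
  have tQ := hle (mem_cS.2 ⟨ht, rfl⟩)
  have hm : ∀ x ∈ cS S t, g x ∈ cS S (g t) := fun x hx => mem_cS.2 ⟨hg.mem (hle hx), by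
    rw [← hg.map_mul (hle hx) tQ, ← hg.map_mul tQ (hle hx), (mem_cS.1 hx).2]⟩
  exact ⟨_, hψ.comp (hg.mono hle) hm, e, hM.comp (hg.mono hle) hψ (hM.mono hg h1 hle) h2 hm⟩

/-- The elements centralizing or inverting `r`. -/
def pm (r : Ω) : Subgroup Ω where
  carrier := {s | s * r * s⁻¹ = r ∨ s * r * s⁻¹ = r⁻¹}
  one_mem' := Or.inl (by simp)
  mul_mem' := fun {s t} hs ht => by
    have e : s * t * r * (s * t)⁻¹ = s * (t * r * t⁻¹) * s⁻¹ := by group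
    have e' : s * r⁻¹ * s⁻¹ = (s * r * s⁻¹)⁻¹ := by group
    rcases hs with hs | hs <;> rcases ht with ht | ht <;>
      simp only [Set.mem_setOf_eq, e, e', hs, ht, inv_inv, true_or, or_true]
  inv_mem' := fun {s} hs => by
    rcases hs with hs | hs
    · exact Or.inl (by nth_rewrite 1 [← hs]; group)
    · exact Or.inr (by
        rw [← inv_inj, inv_inv r, show (s⁻¹ * r * s⁻¹⁻¹)⁻¹ = s⁻¹ * r⁻¹ * s by group, ← hs]; group)

theorem Ctx.le_pm (h : Ctx F R m r y) : R ≤ pm r :=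
  h.mc.le_of_mem (Or.inl (by group)) (Or.inr (by simpa using h.mc.conj))

theorem Ctx.mod_pm (h : Ctx F R m r y) (hf : F.IsMor P f) (hz : y * y ∈ P)
    (e : f (y * y) = y * y) (hx : x ∈ P) : x⁻¹ * f x ∈ pm r := by
  obtain ⟨g, hg, e1⟩ := h.lift hf hz e
  obtain ⟨c, -, -, e2, -⟩ := h.act (hf.le hx)
  obtain ⟨d, hd, e3⟩ := h.mor_r hg le_sup_right
  obtain ⟨u, hu⟩ := h.r_eq hd
  have e4 := hg.map_conj (mem_sup_left hx) (mem_sup_right h.mc.x_mem)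
  rw [e2, hg.map_zpow (mem_sup_right h.mc.x_mem), e3] at e4
  have e5 : g x * r * (g x)⁻¹ = x * r * x⁻¹ := by
    rw [e2]
    nth_rewrite 1 [hu]
    rw [← conj_zpow, ← e4, ← zpow_mul, mul_comm c, zpow_mul, ← hu]
  have : x⁻¹ * g x ∈ pm r := Or.inl (by
    rw [show x⁻¹ * g x * r * (x⁻¹ * g x)⁻¹ = x⁻¹ * (g x * r * (g x)⁻¹) * x by group, e5]; group)
  simpa [mul_assoc] using mul_mem this (inv_mem (h.le_pm (e1 x hx)))

namespace Tx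

variable (h : Tx F R m a b y ρ)
include h

theorem ye2 (l i j : ℤ) :
    (a * b⁻¹) ^ l * y * (a ^ i * b ^ j) * ((a * b⁻¹) ^ l * y)⁻¹ = a ^ j * b ^ i := by
  rw [show (a * b⁻¹) ^ l * y * (a ^ i * b ^ j) * ((a * b⁻¹) ^ l * y)⁻¹ =
    (a * b⁻¹) ^ l * (y * (a ^ i * b ^ j) * y⁻¹) * ((a * b⁻¹) ^ l)⁻¹ by group, h.ye, e_r h.comm,
    e_cc h.comm, mul_inv_cancel_right]
theorem two_dvd {i : ℤ} (e : (4 * m : ℤ) ∣ i) : 2 ∣ i := (Dvd.intro (2 * m : ℤ) (by ring)).trans e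
theorem odd_diff (hι : Io S m a b y ρ ι l) {i j : ℤ}
    (ho : Od (a * b⁻¹) y (ι * (a ^ i * b ^ j))) : Odd (i - j) := by
  obtain ⟨e1, B, ⟨k, rfl⟩, e2⟩ := ho
  have e3 : ι * (a ^ i * b ^ j) * ((a * b⁻¹) ^ l * y) * (ι * (a ^ i * b ^ j))⁻¹ =
      ι * (a ^ i * b ^ j * ((a * b⁻¹) ^ l * y * (a ^ i * b ^ j)⁻¹ * ((a * b⁻¹) ^ l * y)⁻¹)) * ι⁻¹ *
        (ι * ((a * b⁻¹) ^ l * y) * ι⁻¹) := by group
  rw [hι.comm, mul_inv_cancel_right, e_inv h.comm, h.ye2, e_mul h.comm, hι.inv,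
    show ∀ v : Ω, v * ((a * b⁻¹) ^ l * y) * v⁻¹ = v * (a * b⁻¹) ^ l * v⁻¹ * (v * y * v⁻¹) from
      fun v => by group, conj_zpow' e1, e2, ← mul_assoc, ← mul_assoc, mul_left_inj, e_r h.comm,
    e_r h.comm, e_r h.comm, e_mul h.comm, e_mul h.comm, h.eq_iff] at e3
  obtain ⟨d, hd⟩ := h.two_dvd e3.1
  exact ⟨d + l - k - 1, by linarith⟩
theorem od_mem (ht : t ∈ S) (h2 : t * t = 1) (ho : Od (a * b⁻¹) y t) :
    t ∈ cS S (a ^ (2 * m : ℤ)) := by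
  refine (h.top ht).resolve_right fun hT => ?_
  obtain ⟨e1, B, ⟨k, rfl⟩, e2⟩ := ho
  have e0 : y⁻¹ * (a * b⁻¹) * y⁻¹⁻¹ = (a * b⁻¹) ^ (-1 : ℤ) := by
    rw [e_r h.comm]; simpa using h.ye' 1 (-1)
  obtain ⟨i, j, e3⟩ := (mem_g2 h.comm).1 (h.centT hT (by
    rw [← mul_inv_eq_iff_eq_mul, show t * y⁻¹ * (a * b⁻¹) * (t * y⁻¹)⁻¹ =
      t * (y⁻¹ * (a * b⁻¹) * y⁻¹⁻¹) * t⁻¹ by group, e0, conj_zpow' e1]
    simp))
  obtain rfl := mul_inv_eq_iff_eq_mul.1 e3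
  rw [show a ^ i * b ^ j * y * (a ^ i * b ^ j * y) =
    a ^ i * b ^ j * (y * (a ^ i * b ^ j) * y⁻¹) * (y * y) by group, h.ye, h.zt, e_mul h.comm,
    e_mul h.comm, h.one_iff] at h2
  rw [show a ^ i * b ^ j * y * y * (a ^ i * b ^ j * y)⁻¹ =
    a ^ i * b ^ j * (y * (a ^ i * b ^ j)⁻¹ * y⁻¹) * y by group, e_inv h.comm, h.ye, e_mul h.comm,
    mul_left_inj, e_r h.comm, h.eq_iff] at e2
  have := h.two_dvd h2.1
  have := h.two_dvd e2.1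
  omega
theorem cS_le' (hι : Io S m a b y ρ ι l) {i j : ℤ} (ho : Odd (i - j)) :
    cS S (ι * (a ^ i * b ^ j)) ≤ cS S (a ^ (2 * m : ℤ)) := fun s hs => by
  refine (h.top hs.1).resolve_right fun hT => ?_
  have h1 := mul_mem hT (inv_mem (zpow_mem h.rT l))
  obtain ⟨p, q, e1⟩ := h.conj_iota hι h1
  obtain ⟨c, ⟨d, rfl⟩, e2⟩ := h.scal h1
  have e3 := mul_inv_eq_iff_eq_mul.2 (mem_cS.1 hs).2
  rw [show ∀ v : Ω, s * (ι * v) * s⁻¹ = s * y⁻¹ * ((a * b⁻¹) ^ l)⁻¹ *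
      ((a * b⁻¹) ^ l * y * ι * ((a * b⁻¹) ^ l * y)⁻¹) * (s * y⁻¹ * ((a * b⁻¹) ^ l)⁻¹)⁻¹ *
      (s * y⁻¹ * ((a * b⁻¹) ^ l)⁻¹ * ((a * b⁻¹) ^ l * y * v * ((a * b⁻¹) ^ l * y)⁻¹) *
        (s * y⁻¹ * ((a * b⁻¹) ^ l)⁻¹)⁻¹) from fun v => by group, ← hι.comm, mul_inv_cancel_right,
    e1, h.ye2, e2, mul_assoc, mul_right_inj, e_mul h.comm, h.eq_iff] at e3
  obtain ⟨k, hk⟩ := h.two_dvd e3.1
  obtain ⟨k', hk'⟩ := ho
  have : 2 * (p + d * j - k - k') = 1 := by linarith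
  omega

section gen

variable (hM : Closed F M) (hz : ∀ P f, F.IsMor P f → y * y ∈ P → f (y * y) = y * y → M P f)
  (hρ : M (cS S (a ^ (2 * m : ℤ))) ρ)
include hM hz hρ

theorem key0 : Key F M (y * y) (y * y) :=
  ⟨id, F.isMor_id inf_le_left, rfl, hz _ _ (F.isMor_id inf_le_left) (h.c.z_cS h.c.zS) rfl⟩
theorem key1 : Key F M (y * y) (a ^ (2 * m : ℤ)) := ⟨ρ, h.mor, h.rt, hρ⟩
theorem key2 : Key F M (y * y) (b ^ (2 * m : ℤ)) :=
  Key.step hM h.mor hρ (zpow_mem h.bS _) h.cS_eq.le (h.rt' ▸ h.key1 hM hz hρ)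
theorem keyE (ht : F.IsConjElt (y * y) t) (hn : ¬ Od (a * b⁻¹) y t) : Key F M (y * y) t := by
  by_cases hne : t = y * y
  · exact hne ▸ h.key0 hM hz hρ
  obtain ⟨w, hw, hww, hc⟩ : ∃ w ∈ R, w * w = y * y ∧ t * w = w * t := by
    by_contra! hc
    exact hn (h.c.od ht.mem_right (h.c.sq ht) hc)
  obtain ⟨φ, hφ, e⟩ := h.c.ext ht
  have zC := h.c.z_cS ht.mem_right
  have wC : w ∈ cS S t := mem_cS.2 ⟨h.c.le hw, hc.symm⟩
  have h1 := (h.c.rel_self hw).transport hφ zC wC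
  have n1 : φ (y * y) ≠ y * y := fun e' =>
    hne (hφ.inj (mem_cS.2 ⟨ht.mem_right, rfl⟩) zC (e.trans e'.symm))
  have e1 : φ w * φ w = φ (y * y) := by rw [← hφ.map_mul wC wC, hww]
  have hD := h.c.rel_conj h1
  obtain ⟨ψ, hψ, e2, h2⟩ : Key F M (y * y) (φ (y * y)) := by
    rcases h.sqA (h.top (hφ.mem wC)) (h.c.rel_comm h1 n1 h.c.mc.x_mem (h.c.factA h1 n1 e1))
      with h2 | h2
    · rcases h.inv_cases (e1 ▸ mul_mem h2 h2) (h.c.ne_one hD) (h.c.sq hD) n1 with e | e <;> rw [e]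
      exacts [h.key1 hM hz hρ, h.key2 hM hz hρ]
    · exact absurd (h.c.eq_z (e1 ▸ h2) (h.c.ne_one hD) (h.c.sq hD)) n1
  have hm : ∀ x ∈ cS S t, φ x ∈ cS S (φ (y * y)) := fun x hx => mem_cS.2 ⟨hφ.mem hx, by
    rw [← hφ.map_mul hx zC, ← hφ.map_mul zC hx, h.c.comm_z hx.1]⟩
  exact ⟨φ, hφ, e, cancel hM hφ hψ hm h2 (hz _ _ (hψ.comp hφ hm) zC e2)⟩
theorem key (ht : F.IsConjElt (y * y) t) : Key F M (y * y) t := by
  by_cases ho : Od (a * b⁻¹) y t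
  swap
  · exact h.keyE hM hz hρ ht ho
  have tT := h.od_mem ht.mem_right (h.c.sq ht) ho
  obtain ⟨ι, l, hι, i, j, rfl⟩ := h.iota tT (by simpa using ho.1)
  have h1 := h.odd_diff hι ho
  have e : ∀ i j : ℤ, ρ (ι * (a ^ i * b ^ j)) = ι * (a ^ (-i - j) * b ^ i) := fun i j => by
    rw [h.mor.map_mul hι.mem (h.eT _ _), hι.fix, h.rho]
  obtain ⟨k, hk⟩ := id h1
  rcases Int.even_or_odd' j with ⟨d, hd | hd⟩
  · refine Key.step hM h.mor hρ tT.1 (h.cS_le' hι h1) (h.keyE hM hz hρ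
      (ht.trans (h.mor.isConjElt tT)) fun ho' => ?_)
    obtain ⟨k', hk'⟩ := h.odd_diff hι (e i j ▸ ho')
    omega
  · have h2 := h.mor.comp h.mor h.maps
    refine Key.step hM h2 (hM.comp h.mor h.mor hρ hρ h.maps) tT.1 (h.cS_le' hι h1)
      (h.keyE hM hz hρ (ht.trans (h2.isConjElt tT)) fun ho' => ?_)
    rw [Function.comp, e, e] at ho'
    obtain ⟨k', hk'⟩ := h.odd_diff hι ho'
    omega
theorem gen : ∀ P f, F.IsMor P f → M P f :=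
  alperin_cr h.c.sat h.c.two hM fun P _ hc _ _ α hα => by
    have hf := isMor_of_mem_autGroup hc.le hα
    have zP : y * y ∈ P := hc.mem_of_mem_centralizer h.c.zS fun x hx => h.c.comm_z (hc.le hx)
    obtain ⟨ψ, hψ, e, h1⟩ := h.key hM hz hρ (hf.isConjElt zP)
    have hm : ∀ x ∈ P, equivFun α x ∈ cS S (equivFun α (y * y)) := fun x hx =>
      mem_cS.2 ⟨hf.mem hx, by
        rw [← hf.map_mul hx zP, ← hf.map_mul zP hx, h.c.comm_z (hc.le hx)]⟩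
    exact cancel hM hf hψ hm h1 (hz _ _ (hψ.comp hf hm) zP e)

end gen

theorem theta (hh : F.hyperfocalSubgroup 2 = S) : S ≤ pm (a * b⁻¹) :=
  hh.ge.trans ((F.hyperfocalSubgroup_le_focalSubgroup 2).trans (focalSubgroup_le_iff.2
    (h.gen (closed_mod F _) (fun P f hf hz e x hx => h.c.mod_pm hf hz e hx) fun x hx => by
      obtain ⟨i, j, e⟩ := h.modA x hx
      rw [e, inv_mul_cancel_left]
      exact Or.inl (by rw [← zpow_one (a * b⁻¹), e_r h.comm, e_cc h.comm, mul_inv_cancel_right]))))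
theorem a_ne : a ≠ b := fun e => h.c.z1 (by rw [h.zt, ← e, h.c.sq h.tD])
theorem wr (hT : cS S (a ^ (2 * m : ℤ)) ≤ g2 a b) : Wr S m a b (y * a ^ (2 * m : ℤ)) := by
  have e1 : y * a ^ (2 * m : ℤ) = b ^ (2 * m : ℤ) * y := mul_inv_eq_iff_eq_mul.1 h.yt
  have e2 : y * a ^ (2 * m : ℤ) * a * (y * a ^ (2 * m : ℤ))⁻¹ = b := by rw [← h.ya]; group
  refine ⟨h.c.mc.pow, ?_, h.comm, fun i j => (h.one_iff i j).1, ?_, e2, fun i j e => h.a_ne ?_,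
    fun g => ⟨fun hg => ?_, ?_⟩⟩
  · refine Nat.dvd_antisymm (orderOf_dvd_iff_pow_eq_one.2 ?_) ?_
    · rw [← zpow_natCast, h.a_one]; push_cast; rfl
    · have := h.a_one.1 ((zpow_natCast a _).trans (pow_orderOf_eq_one a))
      exact_mod_cast this
  · nth_rewrite 1 [e1]
    rw [mul_assoc, ← mul_assoc y, ← mul_assoc, h.tz', h.c.sq h.tD]
  · rw [← e2, e, ← comm_e rfl h.comm, mul_inv_cancel_right]
  · rcases h.top hg with h1 | h1 <;> obtain ⟨i, j, e⟩ := (mem_g2 h.comm).1 (hT h1)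
    · exact ⟨i, j, Or.inl e⟩
    · exact ⟨i, j - 2 * m, Or.inr (by rw [e1, mul_inv_eq_iff_eq_mul.1 e]; group)⟩
  · rintro ⟨i, j, rfl | rfl⟩
    exacts [(h.eT i j).1, mul_mem (h.eT i j).1 (mul_mem h.c.yS (zpow_mem h.aS _))]
theorem mem_T (hh : F.hyperfocalSubgroup 2 = S) (hι : Io S m a b y ρ ι l)
    (hx : x ∈ cS S (a ^ (2 * m : ℤ))) : x ∈ g2 a b ∨ x * ι⁻¹ ∈ g2 a b := by
  rcases h.theta hh hx.1 with e | e
  · exact Or.inl (h.centT hx (mul_inv_eq_iff_eq_mul.1 e))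
  · refine Or.inr (h.centT (mul_mem hx (inv_mem hι.mem)) (mul_inv_eq_iff_eq_mul.1 ?_))
    have : ι * (a * b⁻¹)⁻¹ * ι⁻¹ = a * b⁻¹ := by
      rw [← zpow_neg_one, e_r h.comm, hι.inv]; simp
    nth_rewrite 1 [← this]
    rw [show ∀ v : Ω, x * ι⁻¹ * (ι * v⁻¹ * ι⁻¹) * (x * ι⁻¹)⁻¹ = (x * v * x⁻¹)⁻¹ from
      fun v => by group, e, inv_inv]
theorem T_eq (hh : F.hyperfocalSubgroup 2 = S) (hι : Io S m a b y ρ ι l) :
    g2 a b ⊔ zpowers ι = cS S (a ^ (2 * m : ℤ)) :=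
  le_antisymm (sup_le (g2_le h.aT h.bT) (zpowers_le_of_mem hι.mem)) fun x hx =>
    (h.mem_T hh hι hx).elim mem_sup_left fun e => (mul_mem_cancel_right
      (inv_mem (mem_sup_right (mem_zpowers ι)))).1 (mem_sup_left e)
theorem gs (hh : F.hyperfocalSubgroup 2 = S) (hι : Io S m a b y ρ ι l) :
    GS S m a b ((a * b⁻¹) ^ l * y) ι := by
  have ti : ι⁻¹ = ι := inv_eq_of_mul_eq_one_right hι.sq
  have yS := h.c.le (h.c.mc.outer_mem l)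
  refine ⟨h.c.ev, h.one_iff, h.comm, by simpa using h.ye2 l 1 0, by simpa using h.ye2 l 0 1,
    (h.c.osq l).trans h.c.zz, by simpa using hι.inv 1 0, by simpa using hι.inv 0 1, hι.sq, hι.comm,
    fun g => ⟨fun hg => ?_, ?_⟩⟩
  · rcases h.top hg with h1 | h1
    · rcases h.mem_T hh hι h1 with h2 | h2 <;> obtain ⟨i, j, e⟩ := (mem_g2 h.comm).1 h2
      · exact ⟨i, j, Or.inl e⟩
      · exact ⟨i, j, Or.inr (Or.inr (Or.inl (mul_inv_eq_iff_eq_mul.1 e)))⟩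
    · rcases h.mem_T hh hι (mul_mem h1 (inv_mem (zpow_mem h.rT l))) with h2 | h2 <;>
        obtain ⟨i, j, e⟩ := (mem_g2 h.comm).1 h2
      · exact ⟨i, j, Or.inr (Or.inl (by rw [← e]; group))⟩
      · exact ⟨i, j, Or.inr (Or.inr (Or.inr (by rw [← e, ← hι.comm]; group)))⟩
  · rintro ⟨i, j, rfl | rfl | rfl | rfl⟩
    exacts [(h.eT i j).1, mul_mem (h.eT i j).1 yS, mul_mem (h.eT i j).1 hι.mem.1,
      mul_mem (h.eT i j).1 (mul_mem yS hι.mem.1)]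

end Tx

theorem Ctx.case2 (h : Ctx F R m r y) (ht : F.IsConjElt (y * y) t) (hne : t ≠ y * y)
    (hw : w ∈ R) (hww : w * w = y * y) (hc : t * w = w * t) (hh : F.hyperfocalSubgroup 2 = S) :
    (∃ a b v, Wr S m a b v) ∨ ∃ a b y' ι, GS S m a b y' ι ∧
      SC F (y' * y') (g2 (a * b⁻¹) y') ∧ (∃ f, Rho F a b ι f) ∧ Gen F (y' * y') a b ι := by
  obtain ⟨a, b, h1⟩ := h.exists_tw ht hne hw hww hc
  obtain ⟨a, b, y, h2, hE⟩ := h1.exists_fn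
  obtain ⟨ρ, h⟩ := h2.exists_tx hE
  by_cases hT : cS S (a ^ (2 * m : ℤ)) ≤ g2 a b
  · exact Or.inl ⟨a, b, _, h.wr hT⟩
  obtain ⟨x, hx, hn⟩ := SetLike.not_le_iff_exists.1 hT
  obtain ⟨ι, l, hι, -⟩ := h.iota hx ((h.theta hh hx.1).resolve_left fun e =>
    hn (h.centT hx (mul_inv_eq_iff_eq_mul.1 e)))
  have h3 := h.c.change (e := 1) (c := l) odd_one (zpow_one _).symm rfl
  have hρ : Rho F a b ι ρ := ⟨h.T_eq hh hι ▸ h.mor, h.ra, h.rb, hι.fix⟩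
  refine Or.inr ⟨a, b, _, ι, h.gs hh hι, by rw [g2, ← h3.mc.eq_sup]; exact h3.scz, ⟨ρ, hρ⟩, fun M hM hz h4 => ?_⟩
  rw [h.c.osq] at hz
  exact h.gen hM hz (h.T_eq hh hι ▸ h4 ρ hρ)

end Cfsg.Agent.QP
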