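import Cfsg.Agent.Lib.QP.One

/-!
# Weakly closed generalized quaternion subgroups: the torus and the automorphism of order three
-/

set_option autoImplicit false
set_option linter.unusedSectionVars false
set_option linter.unusedVariables false

namespace Cfsg.Agent.QP

open Cfsg Subgroup FusionSystem H6 H2 H8

variable {Ω : Type*} [Group Ω] {S R P Q : Subgroup Ω} [Finite S] {F : FusionSystem S} {m : ℕ}
  {r y t s w x v a b : Ω} {f g : Ω → Ω}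

section ab

variable (hc : a * b = b * a)
include hc

theorem e_comm (i j : ℤ) : b ^ j * a ^ i = a ^ i * b ^ j :=
  (((show Commute a b from hc).zpow_zpow i j).symm : _)
theorem e_mul (i j k l : ℤ) : a ^ i * b ^ j * (a ^ k * b ^ l) = a ^ (i + k) * b ^ (j + l) := by
  rw [mul_assoc, ← mul_assoc (b ^ j), e_comm hc, zpow_add, zpow_add]; group
theorem e_zpow (i j k : ℤ) : (a ^ i * b ^ j) ^ k = a ^ (i * k) * b ^ (j * k) := by
  rw [((show Commute a b from hc).zpow_zpow i j).mul_zpow, zpow_mul, zpow_mul]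
theorem e_inv (i j : ℤ) : (a ^ i * b ^ j)⁻¹ = a ^ (-i) * b ^ (-j) := by
  simpa using e_zpow hc i j (-1)
theorem e_r (k : ℤ) : (a * b⁻¹) ^ k = a ^ k * b ^ (-k) := by
  simpa using e_zpow hc 1 (-1) k
theorem e_cc (i j k l : ℤ) : a ^ i * b ^ j * (a ^ k * b ^ l) = a ^ k * b ^ l * (a ^ i * b ^ j) := by
  rw [e_mul hc, e_mul hc, add_comm i, add_comm j]
theorem mem_g2 : x ∈ g2 a b ↔ ∃ i j : ℤ, x = a ^ i * b ^ j := by
  rw [mem_sup_of_le_normalizer (zpowers_le_of_mem (centralizer_le_normalizer _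
    (mem_centralizer_iff.2 (by rintro _ ⟨j, rfl⟩; simpa using e_comm hc 1 j))))]
  exact ⟨fun ⟨_, ⟨i, e1⟩, _, ⟨j, e2⟩, e⟩ => ⟨i, j, by rw [← e, ← e1, ← e2]⟩,
    fun ⟨i, j, e⟩ => ⟨_, ⟨i, rfl⟩, _, ⟨j, rfl⟩, e.symm⟩⟩

end ab

theorem e_mem (a b : Ω) (i j : ℤ) : a ^ i * b ^ j ∈ g2 a b :=
  mul_mem (mem_sup_left ⟨i, rfl⟩) (mem_sup_right ⟨j, rfl⟩)

theorem map_e (hf : F.IsMor P f) (ha : a ∈ P) (hb : b ∈ P) (i j : ℤ) :
    f (a ^ i * b ^ j) = f a ^ i * f b ^ j := by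
  rw [hf.map_mul (zpow_mem ha i) (zpow_mem hb j), hf.map_zpow ha, hf.map_zpow hb]

theorem g2_le (ha : a ∈ P) (hb : b ∈ P) : g2 a b ≤ P :=
  sup_le (zpowers_le_of_mem ha) (zpowers_le_of_mem hb)

theorem norm_g2 (ha : a ∈ S) (hb : b ∈ S) (h1 : s * a * s⁻¹ ∈ g2 a b)
    (h2 : s * b * s⁻¹ ∈ g2 a b) : s ∈ normalizer (g2 a b : Set Ω) := by
  haveI : Finite (g2 a b) := finite_of_le (g2_le ha hb)
  refine mem_normalizer_of_finite ((isHomOn_conj _ s).mapsTo_sup ?_ ?_)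
  · rintro _ ⟨i, rfl⟩
    simpa only [conj_zpow] using zpow_mem h1 i
  · rintro _ ⟨i, rfl⟩
    simpa only [conj_zpow] using zpow_mem h2 i

theorem isIso_g2 (hf : F.IsMor P f) (ha : a ∈ P) (hb : b ∈ P) :
    F.IsIso (g2 a b) (g2 (f a) (f b)) f := by
  have h := hf.mono (g2_le ha hb)
  refine h.isIso_of_img_eq (le_antisymm (img_le_iff.2 (h.isHomOn.mapsTo_sup ?_ ?_)) (g2_le
    (mem_img_of_mem f (mem_sup_left (mem_zpowers a)))
    (mem_img_of_mem f (mem_sup_right (mem_zpowers b)))))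
  · rintro _ ⟨i, rfl⟩
    exact mem_sup_left ⟨i, (hf.map_zpow ha i).symm⟩
  · rintro _ ⟨i, rfl⟩
    exact mem_sup_right ⟨i, (hf.map_zpow hb i).symm⟩

namespace Ctx

variable (h : Ctx F R m r y)
include h

theorem exists_inv {c : ℤ} (hc : Odd c) : ∃ u p : ℤ, c * u = 1 + 4 * m * p := by
  obtain ⟨p, q, e⟩ := h.cop hc
  exact ⟨q, -p, by linear_combination e⟩
theorem r_eq {c : ℤ} (hc : Odd c) : ∃ u : ℤ, r = (r ^ c) ^ u := by
  obtain ⟨u, p, e⟩ := h.exists_inv hc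
  exact ⟨u, by rw [← zpow_mul, (h.mc.zpow_eq (j := 1) p (by linear_combination e)), zpow_one]⟩
theorem comm_r {c : ℤ} (hc : Odd c) (e : x * r ^ c = r ^ c * x) : x * r = r * x := by
  obtain ⟨u, e'⟩ := h.r_eq hc
  rw [e']
  exact (Commute.zpow_right e u : _)
theorem change {e c : ℤ} (he : Odd e) {r' y' : Ω} (h1 : r' = r ^ e) (h2 : y' = r ^ c * y) :
    Ctx F R m r' y' := by
  haveI := h.mc.finite
  subst h1 h2
  obtain ⟨u, hu⟩ := h.r_eq he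
  have hm : MC R m 0 1 (r ^ e) (r ^ c * y) := by
    refine mc_of_gens h.mc.pow ?_ ?_ ?_ (by simp) (le_antisymm (h.mc.le_of_mem
      (mem_sup_left ⟨u, hu.symm⟩) ?_) (g2_le (h.mc.zpow_mem e) (h.mc.outer_mem c)))
    · rw [← h.mc.ord]
      refine Nat.dvd_antisymm (orderOf_dvd_of_mem_zpowers ⟨e, rfl⟩)
        (orderOf_dvd_of_mem_zpowers ⟨u, hu.symm⟩)
    · rw [h.osq, h.zz, ← zpow_mul]
      obtain ⟨k, rfl⟩ := he
      exact h.mc.zpow_eq (-k) (by ring)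
    · rw [h.mc.outer_conj, ← zpow_mul, mul_comm]
    · exact (mul_mem_cancel_left (zpow_mem (mem_sup_left
        (mem_zpowers_iff.2 ⟨u, hu.symm⟩)) c)).1 (mem_sup_right (mem_zpowers _))
  refine ⟨h.two, h.sat, hm, h.ev, h.wc, fun j hj h1 h2 => ?_⟩
  have : R ≤ centralizer {j} := hm.le_of_mem (mem_centralizer_singleton_iff.2 h1.symm)
    (mem_centralizer_singleton_iff.2 h2.symm)
  exact h.sc j hj (mem_centralizer_singleton_iff.1 (this h.mc.x_mem)).symm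
    (mem_centralizer_singleton_iff.1 (this h.mc.y_mem)).symm
theorem yconj (hs : s ∈ S) : ∃ c : ℤ, y * s * y⁻¹ = s * r ^ c := by
  obtain ⟨-, c, -, -, e⟩ := h.act (inv_mem hs)
  exact ⟨c, by rw [← mul_left_inj y, mul_assoc s, ← e]; group⟩
theorem yconj2 (hs : s ∈ S) (h1 : s * r = r * s) (h2 : s * s = 1) :
    y * s * y⁻¹ = s ∨ y * s * y⁻¹ = s * (y * y) := by
  obtain ⟨c, e⟩ := h.yconj hs
  have h3 : s * r ^ c * (s * r ^ c) = 1 := by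
    rw [← e, show y * s * y⁻¹ * (y * s * y⁻¹) = y * (s * s) * y⁻¹ by group, h2]; simp
  rw [mul_assoc, ← mul_assoc (r ^ c), ← (Commute.zpow_right h1 c).eq, mul_assoc, ← mul_assoc, h2,
    one_mul] at h3
  by_cases h4 : r ^ c = 1
  · exact Or.inl (by rw [e, h4, mul_one])
  · exact Or.inr (by rw [e, h.eq_z (h.mc.zpow_mem c) h4 h3])
theorem gen (hx : Rel F (y * y) R (x ^ (2 * m : ℤ)) x) (hg : F.IsMor Q g) (hxQ : x ∈ Q)
    (e : g (x ^ (2 * m : ℤ)) = y * y) : ∃ c : ℤ, Odd c ∧ g x = r ^ c := by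
  have h1 := h.rel_map hx hg (zpow_mem hxQ _) hxQ e
  rw [hg.map_zpow hxQ] at e
  obtain ⟨i, e' | e'⟩ := (h.mc.mem_iff _).1 h1
  · refine ⟨i, ?_, e'⟩
    by_contra hi
    obtain ⟨j, rfl⟩ := Int.not_odd_iff_even.1 hi
    rw [e', ← zpow_mul] at e
    exact h.z1 (e.symm.trans (h.mc.zpow_eq_one_iff.2 ⟨j, by ring⟩))
  · obtain ⟨k, hk⟩ := h.two_dvd
    rw [e', zpow_mul, zpow_two, h.osq, hk, zpow_mul, zpow_two, h.z2, one_zpow] at e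
    exact absurd e.symm h.z1
theorem rel_cyc (hx : Rel F (y * y) R (x ^ (2 * m : ℤ)) x) (hne : x ^ (2 * m : ℤ) ≠ y * y)
    (hv : Rel F (y * y) R (x ^ (2 * m : ℤ)) v) : ∃ i : ℤ, v = x ^ i := by
  obtain ⟨φ, hφ, e⟩ := h.ext (h.rel_conj hx)
  have xC := h.rel_cS hx
  have vC := h.rel_cS hv
  obtain ⟨c, hc, e1⟩ := h.gen hx hφ xC e
  obtain ⟨u, hu⟩ := h.r_eq hc
  have e2 : φ (x ^ u) = r := by rw [hφ.map_zpow xC, e1, ← hu]
  obtain ⟨i, e' | e'⟩ := (h.mc.mem_iff _).1 (h.rel_map hv hφ (zpow_mem xC _) vC e)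
  · exact ⟨u * i, hφ.inj vC (zpow_mem xC _) (by
      rw [zpow_mul, hφ.map_zpow (zpow_mem xC _), e2, e'])⟩
  · obtain ⟨k, hk, e3, -⟩ := hφ.isIso_img.exists_symm
    have h1 : r ∈ img (cS S (x ^ (2 * m : ℤ))) φ := e2 ▸ mem_img_of_mem φ (zpow_mem xC _)
    have h2 := h.mor_z hk.mor (h.mc.le_of_mem h1
      ((mul_mem_cancel_left (zpow_mem h1 i)).1 (e' ▸ mem_img_of_mem φ vC)))
    rw [← e, e3 _ (zpow_mem xC _), e] at h2
    exact absurd h2 hne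
theorem rel_uniq (hx : Rel F (y * y) R t x) (hv : v ∈ zpowers x) (h1 : v ≠ 1) (h2 : v * v = 1) :
    v = t := by
  obtain ⟨P, f, hf, tP, xP, e, h4⟩ := hx
  have vP : v ∈ P := zpowers_le_of_mem xP hv
  obtain ⟨i, rfl⟩ := hv
  exact hf.inj vP tP (e ▸ h.eq_z (hf.map_zpow xP i ▸ zpow_mem h4 i)
    (fun e => h1 ((hf.eq_one_iff vP).1 e)) (by rw [← hf.map_mul vP vP, h2, hf.map_one]))

end Ctx

/-- A conjugate of `⟨r⟩` commuting with `r`. -/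
structure Tw (F : FusionSystem S) (R : Subgroup Ω) (m : ℕ) (a b y : Ω) : Prop where
  c : Ctx F R m (a * b⁻¹) y
  comm : a * b = b * a
  ya : y * a * y⁻¹ = b
  rel : Rel F (y * y) R (a ^ (2 * m : ℤ)) a
  ne : a ^ (2 * m : ℤ) ≠ y * y

theorem Ctx.exists_tw (h : Ctx F R m r y) (ht : F.IsConjElt (y * y) t) (hne : t ≠ y * y)
    (hw : w ∈ R) (hww : w * w = y * y) (hc : t * w = w * t) : ∃ a b, Tw F R m a b y := by
  obtain ⟨φ, hφ, e⟩ := h.ext ht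
  have zC := h.z_cS ht.mem_right
  have wC : w ∈ cS S t := mem_cS.2 ⟨h.le hw, hc.symm⟩
  have h1 := (h.rel_self hw).transport hφ zC wC
  have n1 : φ (y * y) ≠ y * y := fun e' =>
    hne (hφ.inj (mem_cS.2 ⟨ht.mem_right, rfl⟩) zC (e.trans e'.symm))
  have h2 := h.factA h1 n1 (by rw [← hφ.map_mul wC wC, hww])
  obtain ⟨ψ, hψ, e1⟩ := h.ext (h.rel_conj h1)
  have sS := (h.rel_conj h1).mem_right
  have zC' := h.z_cS sS
  have rC : r ∈ cS S (φ (y * y)) := mem_cS.2 ⟨h.rS, h2.symm⟩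
  have n2 : ψ (y * y) ≠ y * y := fun e' => n1 (hψ.inj (mem_cS.2 ⟨sS, rfl⟩) zC' (e1.trans e'.symm))
  have e2 : ψ (y * y) = ψ r ^ (2 * m : ℤ) := by rw [h.zz, hψ.map_zpow rC]
  have h3 := (h.rel_self h.mc.x_mem).transport hψ zC' rC
  have h4 := h.factA ((h.rel_self (h.mc.zpow_mem m)).transport hψ zC' (zpow_mem rC _)) n2
    (by rw [← hψ.map_mul (zpow_mem rC _) (zpow_mem rC _), h.uu])
  have h5 := h.rel_comm h3 n2 h.mc.x_mem h4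
  obtain ⟨-, c, -, -, e3⟩ := h.act (hψ.mem rC)
  generalize ψ r = a at *
  have hpow : ∀ n : ℕ, a ^ n * y * (a ^ n)⁻¹ = r ^ (c * n) * y := fun n => by
    induction n with
    | zero => simp
    | succ n ih =>
      rw [pow_succ', show a * a ^ n * y * (a * a ^ n)⁻¹ = a * (a ^ n * y * (a ^ n)⁻¹) * a⁻¹ by
        group, ih, show a * (r ^ (c * n) * y) * a⁻¹ = a * r ^ (c * n) * a⁻¹ * (a * y * a⁻¹) by
        group, e3, (Commute.zpow_right h5 _).eq, mul_inv_cancel_right, ← mul_assoc, ← zpow_add]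
      congr 2; push_cast; ring
  have hc' : Odd c := by
    by_contra hc'
    obtain ⟨d, rfl⟩ := Int.not_odd_iff_even.1 hc'
    refine n2 (h.nc (h.rel_conj h3) h4 (mul_inv_eq_iff_eq_mul.1 ?_))
    have := hpow (2 * m)
    rw [h.mc.zpow_eq_one_iff.2 ⟨d, by push_cast; ring⟩, one_mul, ← zpow_natCast] at this
    rw [e2]
    exact_mod_cast this
  have e4 : a * (y * a * y⁻¹)⁻¹ = r ^ c := by
    rw [← mul_left_inj y, ← e3]; group
  refine ⟨a, y * a * y⁻¹, h.change hc' e4 (c := 0) (by simp), ?_, rfl, e2 ▸ h3, e2 ▸ n2⟩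
  have : y * a * y⁻¹ = (r ^ c)⁻¹ * a := by rw [← e4]; group
  rw [this, ← mul_assoc, (Commute.zpow_right h5 c).inv_right.eq, mul_assoc]

namespace Tw

variable (h : Tw F R m a b y)
include h

theorem aT : a ∈ cS S (a ^ (2 * m : ℤ)) := h.c.rel_cS h.rel
theorem aS : a ∈ S := h.aT.1
theorem bS : b ∈ S := h.ya ▸ mul_mem (mul_mem h.c.yS h.aS) (inv_mem h.c.yS)
theorem bT : b ∈ cS S (a ^ (2 * m : ℤ)) :=
  mem_cS.2 ⟨h.bS, ((Commute.zpow_right h.comm.symm _) : _)⟩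
theorem eT (i j : ℤ) : a ^ i * b ^ j ∈ cS S (a ^ (2 * m : ℤ)) :=
  mul_mem (zpow_mem h.aT i) (zpow_mem h.bT j)
theorem rT : a * b⁻¹ ∈ cS S (a ^ (2 * m : ℤ)) := mul_mem h.aT (inv_mem h.bT)
theorem yb : y * b * y⁻¹ = a := by
  rw [← h.ya, show y * (y * a * y⁻¹) * y⁻¹ = y * y * a * (y * y)⁻¹ by group, ← h.c.comm_z h.aS,
    mul_inv_cancel_right]
theorem ye (i j : ℤ) : y * (a ^ i * b ^ j) * y⁻¹ = a ^ j * b ^ i := by
  rw [show y * (a ^ i * b ^ j) * y⁻¹ = (y * a * y⁻¹) ^ i * (y * b * y⁻¹) ^ j by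
    rw [conj_zpow, conj_zpow]; group, h.ya, h.yb, e_comm h.comm]
theorem ye' (i j : ℤ) : y⁻¹ * (a ^ i * b ^ j) * y⁻¹⁻¹ = a ^ j * b ^ i := by
  rw [← h.ye j i]; group
theorem yt : y * a ^ (2 * m : ℤ) * y⁻¹ = b ^ (2 * m : ℤ) := by rw [← conj_zpow, h.ya]
theorem relb : Rel F (y * y) R (b ^ (2 * m : ℤ)) b := by
  have := h.rel.transport (F.isMor_conj le_rfl h.c.yS) (zpow_mem h.aS _) h.aS
  rwa [h.yt, h.ya] at this
theorem tD : F.IsConjElt (y * y) (a ^ (2 * m : ℤ)) := h.c.rel_conj h.rel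
theorem tD' : F.IsConjElt (y * y) (b ^ (2 * m : ℤ)) := h.c.rel_conj h.relb
theorem zt : y * y = a ^ (2 * m : ℤ) * b ^ (2 * m : ℤ) := by
  rw [h.c.zz, e_r h.comm, zpow_neg, inv_eq_of_mul_eq_one_right (h.c.sq h.tD')]
theorem neb : b ^ (2 * m : ℤ) ≠ y * y := fun e => h.c.ne_one h.tD (by
  rwa [h.zt, eq_comm, mul_eq_right] at e)
theorem tR : a ^ (2 * m : ℤ) ∉ R := fun hR => h.ne (h.c.eq_z hR (h.c.ne_one h.tD) (h.c.sq h.tD))
theorem tR' : b ^ (2 * m : ℤ) ∉ R := fun hR =>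
  h.neb (h.c.eq_z hR (h.c.ne_one h.tD') (h.c.sq h.tD'))
theorem a_one {i : ℤ} : a ^ i = 1 ↔ (4 * m : ℤ) ∣ i := by
  obtain ⟨φ, hφ, e⟩ := h.c.ext h.tD
  obtain ⟨c, hc, e1⟩ := h.c.gen h.rel hφ h.aT e
  rw [← hφ.eq_one_iff (zpow_mem h.aT i), hφ.map_zpow h.aT, e1, ← zpow_mul,
    h.c.mc.zpow_eq_one_iff]
  exact ⟨(h.c.cop hc).dvd_of_dvd_mul_left, fun h => h.mul_left c⟩
theorem b_one {i : ℤ} : b ^ i = 1 ↔ (4 * m : ℤ) ∣ i := by
  rw [← h.a_one, ← h.ya, conj_zpow, _root_.conj_eq_one_iff]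
theorem one_iff (i j : ℤ) : a ^ i * b ^ j = 1 ↔ (4 * m : ℤ) ∣ i ∧ (4 * m : ℤ) ∣ j := by
  rw [← h.a_one, ← h.b_one]
  refine ⟨fun e => ?_, fun ⟨e1, e2⟩ => by rw [e1, e2, one_mul]⟩
  by_cases h1 : a ^ i = 1
  · exact ⟨h1, by rwa [h1, one_mul] at e⟩
  obtain ⟨P, f, hf, tP, xP, e1, h4⟩ := h.rel
  obtain ⟨k, hk⟩ := h.c.rel_mem_zpowers (x := a ^ i)
    ⟨P, f, hf, tP, zpow_mem xP i, e1, hf.map_zpow xP i ▸ zpow_mem h4 i⟩ h1
  have := h.c.rel_uniq h.relb (v := a ^ (2 * m : ℤ)) ⟨-j * k, by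
    rw [← hk, eq_inv_of_mul_eq_one_left e]; simp only [zpow_mul, zpow_neg]⟩
    (h.c.ne_one h.tD) (h.c.sq h.tD)
  exact absurd (by rw [h.zt, this, h.c.sq h.tD']) h.c.z1
theorem eq_iff {i j k l : ℤ} :
    a ^ i * b ^ j = a ^ k * b ^ l ↔ (4 * m : ℤ) ∣ i - k ∧ (4 * m : ℤ) ∣ j - l := by
  rw [← mul_inv_eq_one, e_inv h.comm, e_mul h.comm, h.one_iff, sub_eq_add_neg, sub_eq_add_neg]
theorem eq {i j k l : ℤ} (p q : ℤ) (e1 : i - k = 4 * m * p) (e2 : j - l = 4 * m * q) :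
    a ^ i * b ^ j = a ^ k * b ^ l := h.eq_iff.2 ⟨⟨p, e1⟩, ⟨q, e2⟩⟩
theorem a_eq {i k : ℤ} (e : (4 * m : ℤ) ∣ i - k) : a ^ i = a ^ k := by
  simpa using (h.eq_iff (j := 0) (l := 0)).2 ⟨e, by simp⟩
theorem b_eq {i k : ℤ} (e : (4 * m : ℤ) ∣ i - k) : b ^ i = b ^ k := by
  simpa using (h.eq_iff (i := 0) (k := 0)).2 ⟨by simp, e⟩
theorem inv_cases (hx : x ∈ g2 a b) (h1 : x ≠ 1) (h2 : x * x = 1) (h3 : x ≠ y * y) :
    x = a ^ (2 * m : ℤ) ∨ x = b ^ (2 * m : ℤ) := by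
  obtain ⟨i, j, rfl⟩ := (mem_g2 h.comm).1 hx
  rw [e_mul h.comm, h.one_iff] at h2
  obtain ⟨⟨p, hp⟩, q, hq⟩ := h2
  obtain rfl : i = 2 * m * p := by linarith
  obtain rfl : j = 2 * m * q := by linarith
  rcases Int.even_or_odd' p with ⟨k, rfl | rfl⟩ <;> rcases Int.even_or_odd' q with ⟨l, rfl | rfl⟩
  · exact absurd ((h.one_iff _ _).2 ⟨⟨k, by ring⟩, ⟨l, by ring⟩⟩) h1
  · exact Or.inr ((h.eq (k := 0) (l := 2 * m) k l (by ring) (by ring)).trans (by simp))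
  · exact Or.inl ((h.eq (k := 2 * m) (l := 0) k l (by ring) (by ring)).trans (by simp))
  · exact absurd ((h.eq k l (by ring) (by ring)).trans h.zt.symm) h3
theorem tz : a ^ (2 * m : ℤ) * (y * y) = b ^ (2 * m : ℤ) := by
  rw [h.zt, ← mul_assoc, h.c.sq h.tD, one_mul]
theorem tz' : b ^ (2 * m : ℤ) * (y * y) = a ^ (2 * m : ℤ) := by
  rw [← h.tz, mul_assoc, h.c.z2, mul_one]
theorem cS_eq : cS S (b ^ (2 * m : ℤ)) = cS S (a ^ (2 * m : ℤ)) := by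
  ext x
  rw [mem_cS, mem_cS, ← h.tz]
  refine and_congr_right fun hx => ?_
  rw [mul_assoc _ (y * y), ← h.c.comm_z hx, ← mul_assoc x, ← mul_assoc _ x, mul_left_inj]
theorem scal (hs : s ∈ cS S (a ^ (2 * m : ℤ))) :
    ∃ c : ℤ, Odd c ∧ ∀ i j : ℤ, s * (a ^ i * b ^ j) * s⁻¹ = a ^ (c * i) * b ^ (c * j) := by
  have h1 := h.rel.transport (F.isMor_conj le_rfl hs.1) (zpow_mem h.aS _) h.aS
  have h2 := h.relb.transport (F.isMor_conj le_rfl hs.1) (zpow_mem h.bS _) h.bS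
  rw [mul_inv_eq_iff_eq_mul.2 (mem_cS.1 hs).2] at h1
  rw [mul_inv_eq_iff_eq_mul.2 (mem_cS.1 (h.cS_eq ▸ hs)).2] at h2
  obtain ⟨i, e1⟩ := h.c.rel_cyc h.rel h.ne h1
  obtain ⟨j, e2⟩ := h.c.rel_cyc h.relb h.neb h2
  obtain ⟨c, -, hc, e3, -⟩ := h.c.act hs.1
  rw [show s * (a * b⁻¹) * s⁻¹ = s * a * s⁻¹ * (s * b * s⁻¹)⁻¹ by group, e1, e2, e_r h.comm,
    ← zpow_neg, h.eq_iff] at e3
  refine ⟨c, hc, fun k l => ?_⟩
  rw [show s * (a ^ k * b ^ l) * s⁻¹ = s * a ^ k * s⁻¹ * (s * b ^ l * s⁻¹) by group,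
    conj_zpow' (e1.trans (h.a_eq e3.1)), conj_zpow' (e2.trans (h.b_eq (k := c)
      (dvd_of_eq (dvd_neg.2 e3.2) (by ring))))]
theorem yT (hs : s ∈ cS S (a ^ (2 * m : ℤ))) : y * s * y⁻¹ ∈ cS S (a ^ (2 * m : ℤ)) := by
  obtain ⟨c, e⟩ := h.c.yconj hs.1
  exact e ▸ mul_mem hs (zpow_mem h.rT c)
theorem yT' (hs : s ∈ cS S (a ^ (2 * m : ℤ))) : y⁻¹ * s * y⁻¹⁻¹ ∈ cS S (a ^ (2 * m : ℤ)) := by
  rw [show y⁻¹ * s * y⁻¹⁻¹ = y * ((y * y)⁻¹ * s * (y * y)) * y⁻¹ by group, mul_assoc _ s,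
    h.c.comm_z hs.1, inv_mul_cancel_left]
  exact h.yT hs
theorem transport (hg : F.IsMor Q g) (hR : R ≤ Q) (ha : a ∈ Q) :
    Tw F R m (g a) (g b) (g y) := by
  have hy := hR h.c.mc.y_mem
  have hb : b ∈ Q := h.ya ▸ mul_mem (mul_mem hy ha) (inv_mem hy)
  obtain ⟨e, he, e1⟩ := h.c.mor_r hg hR
  obtain ⟨c, e2⟩ := h.c.mor_y hg hR
  have e3 : g y * g y = y * y := by rw [← hg.map_mul hy hy, h.c.mor_z hg hR]
  refine ⟨h.c.change he (by rw [← e1, hg.map_mul ha (inv_mem hb), hg.map_inv hb]) e2,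
    by rw [← hg.map_mul ha hb, ← hg.map_mul hb ha, h.comm], by rw [← hg.map_conj hy ha, h.ya],
    ?_, fun e => h.ne (hg.inj (zpow_mem ha _) (hR h.c.zR) ?_)⟩
  · rw [e3, ← hg.map_zpow ha]
    exact h.rel.transport hg (zpow_mem ha _) ha
  · rw [hg.map_zpow ha, e, e3, h.c.mor_z hg hR]
theorem normE (hs : s ∈ S) (h1 : s * (a * b⁻¹) = a * b⁻¹ * s) (h2 : s * s = 1) :
    R ≤ normalizerIn S (g2 (y * y) s) := by
  have zE : y * y ∈ g2 (y * y) s := mem_sup_left (mem_zpowers _)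
  have sE : s ∈ g2 (y * y) s := mem_sup_right (mem_zpowers _)
  refine h.c.mc.le_of_mem ⟨h.c.rS, norm_g2 h.c.zS hs ?_ ?_⟩ ⟨h.c.yS, norm_g2 h.c.zS hs ?_ ?_⟩
  · rwa [h.c.conj_z h.c.rS]
  · rwa [← h1, mul_inv_cancel_right]
  · rwa [h.c.conj_z h.c.yS]
  · rcases h.c.yconj2 hs h1 h2 with e | e <;> rw [e]
    exacts [sE, mul_mem sE zE]
theorem cS_le (hs : s ∈ S) : cS S s ≤ normalizerIn S (g2 (y * y) s) := fun x hx =>
  ⟨hx.1, norm_g2 h.c.zS hs (by rw [h.c.conj_z hx.1]; exact mem_sup_left (mem_zpowers _))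
    (by rw [(mem_cS.1 hx).2, mul_inv_cancel_right]; exact mem_sup_right (mem_zpowers _))⟩
theorem exists_fn : ∃ a b y, Tw F R m a b y ∧
    F.IsFullyNormalized (g2 (y * y) (a ^ (2 * m : ℤ))) := by
  have tS := h.tD.mem_right
  obtain ⟨Q, g, hQ, hg, hi⟩ := h.c.sat.exists_isFullyNormalized h.c.two (g2_le h.c.zS tS)
  have hR := h.normE tS (mem_cS.1 h.rT).2.symm (h.c.sq h.tD)
  have ha := h.cS_le tS h.aT
  refine ⟨_, _, _, h.transport hg hR ha, ?_⟩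
  rwa [← hg.map_mul (hR h.c.mc.y_mem) (hR h.c.mc.y_mem), ← hg.map_zpow ha,
    (isIso_g2 hg (hR h.c.zR) (zpow_mem ha _)).unique hi]
theorem exists_sigma (hE : F.IsFullyNormalized (g2 (y * y) (a ^ (2 * m : ℤ)))) :
    ∃ σ, F.IsMor (cS S (a ^ (2 * m : ℤ))) σ ∧ σ (a ^ (2 * m : ℤ)) = y * y ∧
      σ (y * y) = b ^ (2 * m : ℤ) := by
  obtain ⟨φ, hφ, e⟩ := h.c.ext h.tD
  have zT := h.c.z_cS h.tD.mem_right
  have tT := zpow_mem h.aT (2 * m : ℤ)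
  obtain ⟨c, hc, e1⟩ := h.c.gen h.rel hφ h.aT e
  have hi := isIso_g2 hφ tT zT
  rw [e, g2, sup_comm] at hi
  obtain ⟨χ, hχ, hi'⟩ := h.c.sat.exists_isMor_normalizerIn h.c.two hE hi.isConj.symm
  have sS := hφ.mem zT
  have s2 : φ (y * y) * φ (y * y) = 1 := by rw [← hφ.map_mul zT zT, h.c.z2, hφ.map_one]
  have hR := h.normE sS (h.c.comm_r hc (by
    rw [← e1, ← hφ.map_mul zT h.aT, ← hφ.map_mul h.aT zT, h.c.comm_z h.aS])) s2
  have hm : ∀ x ∈ cS S (a ^ (2 * m : ℤ)), φ x ∈ normalizerIn S (g2 (y * y) (φ (y * y))) :=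
    fun x hx => h.cS_le sS (mem_cS.2 ⟨hφ.mem hx, by
      rw [← hφ.map_mul hx zT, ← hφ.map_mul zT hx, h.c.comm_z hx.1]⟩)
  have h0 := hχ.comp' hφ hm
  have e2 : χ (φ (a ^ (2 * m : ℤ))) = y * y := by rw [e, h.c.mor_z hχ hR]
  rcases h.inv_cases (x := χ (φ (y * y))) (g2_le (h.zt ▸ e_mem _ _ _ _) (mem_sup_left (zpow_mem_zpowers _ _))
    (hi'.mapsTo _ (mem_sup_right (mem_zpowers _)))) (fun e => h.c.z1 ((h0.eq_one_iff zT).1 e))
    (by rw [← h0.map_mul zT zT, h.c.z2, h0.map_one])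
    (fun e => h.ne (h0.inj tT zT (e2.trans e.symm))) with e3 | e3
  · exact ⟨_, (F.isMor_conj le_rfl h.c.yS).comp' h0 fun x hx => h0.mem hx,
      by simp only [e2, h.c.conj_z h.c.yS], by simp only [e3, h.yt]⟩
  · exact ⟨_, h0, e2, e3⟩

end Tw

/-- The automorphism of order three of `C_S(t)`. -/
structure Tx (F : FusionSystem S) (R : Subgroup Ω) (m : ℕ) (a b y : Ω) (ρ : Ω → Ω) : Prop
    extends Tw F R m a b y where
  mor : F.IsMor (cS S (a ^ (2 * m : ℤ))) ρ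
  rho : ∀ i j : ℤ, ρ (a ^ i * b ^ j) = a ^ (-i - j) * b ^ i
  modA : ∀ x ∈ cS S (a ^ (2 * m : ℤ)), ∃ i j : ℤ, ρ x = x * (a ^ i * b ^ j)

theorem Tw.exists_tx (h : Tw F R m a b y)
    (hE : F.IsFullyNormalized (g2 (y * y) (a ^ (2 * m : ℤ)))) : ∃ ρ, Tx F R m a b y ρ := by
  obtain ⟨σ, hσ, e1, e2⟩ := h.exists_sigma hE
  have zT := h.c.z_cS h.tD.mem_right
  have tT := zpow_mem h.aT (2 * m : ℤ)
  have e3 : σ (b ^ (2 * m : ℤ)) = a ^ (2 * m : ℤ) := by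
    rw [← h.tz, hσ.map_mul tT zT, e1, e2, ← h.c.comm_z (zpow_mem h.bS _), h.tz']
  have hm : ∀ x ∈ cS S (a ^ (2 * m : ℤ)), σ x ∈ cS S (a ^ (2 * m : ℤ)) := fun x hx =>
    h.cS_eq ▸ mem_cS.2 ⟨hσ.mem hx, by
      rw [← e2, ← hσ.map_mul hx zT, ← hσ.map_mul zT hx, h.c.comm_z hx.1]⟩
  obtain ⟨τ, hτ, f1, f2⟩ := (hσ.isIso_self hm).exists_symm
  obtain ⟨c, hc, e4⟩ := h.c.gen h.rel hσ h.aT e1
  obtain ⟨j, e5⟩ := h.c.rel_cyc h.relb h.neb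
    (e2 ▸ (h.c.rel_self h.c.mc.x_mem).transport hσ zT h.rT)
  obtain ⟨k, e6⟩ := h.c.rel_cyc h.rel h.ne (e3 ▸ h.relb.transport hσ (zpow_mem h.bT _) h.bT)
  have e7 := e5
  rw [hσ.map_mul h.aT (inv_mem h.bT), hσ.map_inv h.bT, e4, e6, e_r h.comm,
    show (a ^ k)⁻¹ = a ^ (-k) * b ^ (0 : ℤ) by simp, e_mul h.comm,
    show b ^ j = a ^ (0 : ℤ) * b ^ j by simp, h.eq_iff] at e7
  have hs : ∀ p q : ℤ, σ (a ^ p * b ^ q) = a ^ (c * (p + q)) * b ^ (-(c * p)) := fun p q => by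
    rw [map_e hσ h.aT h.bT, e4, e6, h.a_eq (k := c)
      (dvd_of_eq (dvd_neg.2 e7.1) (by ring)), e_r h.comm, e_zpow h.comm, ← zpow_mul,
      show a ^ (c * q) = a ^ (c * q) * b ^ (0 : ℤ) by simp, e_mul h.comm]
    congr 2 <;> ring
  obtain ⟨u, p, hu⟩ := h.c.exists_inv hc
  have hy := F.isMor_conj (P := cS S (a ^ (2 * m : ℤ))) inf_le_left h.c.yS
  have hy' := F.isMor_conj (P := cS S (a ^ (2 * m : ℤ))) inf_le_left (inv_mem h.c.yS)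
  refine ⟨fun x => y * σ (y⁻¹ * τ x * y⁻¹⁻¹) * y⁻¹, h, hy.comp' (hσ.comp' (hy'.comp' hτ.mor
    hτ.mapsTo) fun x hx => h.yT' (hτ.mapsTo x hx)) fun x hx => hm _ (h.yT' (hτ.mapsTo x hx)),
    fun i j => ?_, fun x hx => ?_⟩
  · have : τ (a ^ i * b ^ j) = a ^ (-(u * j)) * b ^ (u * (i + j)) := by
      rw [← f1 _ (h.eT (-(u * j)) (u * (i + j))), hs]
      congr 1
      exact h.eq (-p * i) (-p * j) (by linear_combination (-i) * hu)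
        (by linear_combination (-j) * hu)
    simp only [this, h.ye', hs, h.ye]
    exact h.eq (-p * (i + j)) (p * i) (by linear_combination (-(i + j)) * hu)
      (by linear_combination i * hu)
  · have vT := h.yT' (hτ.mapsTo x hx)
    obtain ⟨d, e8⟩ := h.c.yconj vT.1
    obtain ⟨d', e9⟩ := h.c.yconj hx.1
    have e10 : y⁻¹ * τ x * y⁻¹⁻¹ = τ x * (a ^ (-d) * b ^ (- -d)) := by
      rw [← e_r h.comm, zpow_neg, eq_mul_inv_iff_mul_eq, ← e8]; group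
    have e11 : ∀ v, y * (x * v) * y⁻¹ = y * x * y⁻¹ * (y * v * y⁻¹) := fun v => by group
    exact ⟨_, _, by rw [e10, hσ.map_mul (hτ.mapsTo x hx) (h.eT _ _), f2 x hx, hs, e11, h.ye, e9,
      e_r h.comm, mul_assoc, e_mul h.comm]⟩

end Cfsg.Agent.QP
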