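import Cfsg.Agent.Lib.QP.TwoA

/-!
# Weakly closed generalized quaternion subgroups: the torus is normal and self-centralizing
-/

set_option autoImplicit false
set_option linter.unusedSectionVars false
set_option linter.unusedVariables false

namespace Cfsg.Agent.QP

open Cfsg Subgroup FusionSystem H6 H2 H8

variable {Ω : Type*} [Group Ω] {S R P Q : Subgroup Ω} [Finite S] {F : FusionSystem S} {m : ℕ}
  {r y t s w x v a b ι : Ω} {f g ρ : Ω → Ω}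

theorem comm_e (h1 : x * a = a * x) (h2 : x * b = b * x) (i j : ℤ) :
    x * (a ^ i * b ^ j) = a ^ i * b ^ j * x :=
  (((show Commute x a from h1).zpow_right i).mul_right
    ((show Commute x b from h2).zpow_right j) : _)

namespace Tx

variable (h : Tx F R m a b y ρ)
include h

theorem ra : ρ a = a⁻¹ * b := by simpa using h.rho 1 0
theorem rb : ρ b = a⁻¹ := by simpa using h.rho 0 1
theorem rr : ρ (a * b⁻¹) = b := by simpa using h.rho 1 (-1)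
theorem rt : ρ (a ^ (2 * m : ℤ)) = y * y := by
  simpa using (h.rho (2 * m) 0).trans ((h.eq (-1) 0 (by ring) (by ring)).trans h.zt.symm)
theorem rz : ρ (y * y) = b ^ (2 * m : ℤ) := by
  rw [h.zt]
  simpa using (h.rho (2 * m) (2 * m)).trans (h.eq (k := 0) (l := 2 * m) (-1) 0 (by ring) (by ring))
theorem rt' : ρ (b ^ (2 * m : ℤ)) = a ^ (2 * m : ℤ) := by
  simpa using (h.rho 0 (2 * m)).trans (h.eq (k := 2 * m) (l := 0) (-1) 0 (by ring) (by ring))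
theorem maps : ∀ x ∈ cS S (a ^ (2 * m : ℤ)), ρ x ∈ cS S (a ^ (2 * m : ℤ)) := fun x hx => by
  obtain ⟨i, j, e⟩ := h.modA x hx
  exact e ▸ mul_mem hx (h.eT i j)
theorem fixA (hx : x ∈ g2 a b) (e : ρ x = x) : x = 1 := by
  obtain ⟨i, j, rfl⟩ := (mem_g2 h.comm).1 hx
  rw [h.rho, h.eq_iff] at e
  have : (4 * m : ℤ) ∣ i := (h.c.cop (c := 3) ⟨1, rfl⟩).dvd_of_dvd_mul_left
    (dvd_of_eq (dvd_sub e.2 e.1) (by ring))
  exact (h.one_iff i j).2 ⟨this, dvd_of_eq (dvd_sub this e.2) (by ring)⟩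
theorem fix (hx : x ∈ cS S (a ^ (2 * m : ℤ))) :
    ∃ i j : ℤ, ρ (x * (a ^ i * b ^ j)) = x * (a ^ i * b ^ j) := by
  obtain ⟨p, q, e⟩ := h.modA x hx
  obtain ⟨u, k, hu⟩ := h.c.exists_inv (c := 3) ⟨1, rfl⟩
  refine ⟨u * (p - q), q + u * (p - q), ?_⟩
  rw [h.mor.map_mul hx (h.eT _ _), e, h.rho, mul_assoc, e_mul h.comm]
  congr 1
  exact h.eq (-k * (p - q)) 0 (by linear_combination (q - p) * hu) (by ring)
theorem cent2 (hx : x ∈ S) (h1 : x * a = a * x) (h2 : x * b = b * x) (h3 : x * x ∈ g2 a b) :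
    x ∈ g2 a b := by
  have xT : x ∈ cS S (a ^ (2 * m : ℤ)) := mem_cS.2 ⟨hx, (Commute.zpow_right h1 _ : _)⟩
  obtain ⟨i, k, e⟩ := h.fix xT
  by_contra hn
  have jT := mul_mem xT (h.eT i k)
  have ja : x * (a ^ i * b ^ k) * a = a * (x * (a ^ i * b ^ k)) := by
    rw [mul_assoc, ← comm_e rfl h.comm, ← mul_assoc, h1, mul_assoc]
  have jb : x * (a ^ i * b ^ k) * b = b * (x * (a ^ i * b ^ k)) := by
    rw [mul_assoc, ← comm_e h.comm.symm rfl, ← mul_assoc, h2, mul_assoc]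
  have jn : x * (a ^ i * b ^ k) ∉ g2 a b := fun e =>
    hn ((mul_mem_cancel_right (e_mem a b i k)).1 e)
  have jj : x * (a ^ i * b ^ k) * (x * (a ^ i * b ^ k)) = 1 := by
    refine h.fixA ?_ (by rw [h.mor.map_mul jT jT, e])
    rw [mul_assoc, ← mul_assoc (a ^ i * b ^ k), ← comm_e h1 h2, mul_assoc, ← mul_assoc]
    exact mul_mem h3 (mul_mem (e_mem a b i k) (e_mem a b i k))
  generalize x * (a ^ i * b ^ k) = j at *
  have jr : j * (a * b⁻¹) = a * b⁻¹ * j := by simpa using comm_e ja jb 1 (-1)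
  have zT := h.c.z_cS h.tD.mem_right
  have tT := zpow_mem h.aT (2 * m : ℤ)
  have tT' := zpow_mem h.bT (2 * m : ℤ)
  rcases h.c.yconj2 jT.1 jr jj with e1 | e1
  · have := h.c.sc j jT.1 jr (mul_inv_eq_iff_eq_mul.1 e1).symm
      (orderOf_eq_prime (by rwa [pow_two]) fun e => jn (e ▸ one_mem _)) _ ρ h.mor jT e _ h.rT
      h.c.mc.x_mem
    exact h.tR' (zpow_mem (h.rr ▸ this) _)
  have hy := F.isMor_conj (P := cS S (a ^ (2 * m : ℤ))) inf_le_left h.c.yS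
  have hy' := F.isMor_conj (P := cS S (a ^ (2 * m : ℤ))) inf_le_left (inv_mem h.c.yS)
  have m1 := hy'.comp' h.mor h.maps
  have n1 := fun x hx => h.yT' (h.maps x hx)
  have m2 := hy.comp' (h.mor.comp' m1 n1) fun x hx => h.maps _ (n1 x hx)
  have n2 := fun x hx => h.yT (h.maps _ (n1 x hx))
  have m3 := h.mor.comp' (h.mor.comp' m2 n2) fun x hx => h.maps _ (n2 x hx)
  have jt : j * a ^ (2 * m : ℤ) = a ^ (2 * m : ℤ) * j := (mem_cS.1 jT).2
  have e2 : y⁻¹ * (j * (y * y)) * y⁻¹⁻¹ = j := by rw [← e1]; group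
  have := h.c.sc (j * a ^ (2 * m : ℤ)) (mul_mem jT tT).1
    (by rw [mul_assoc, ← (mem_cS.1 h.rT).2, ← mul_assoc, jr, mul_assoc, mul_assoc])
    (by rw [eq_comm, ← mul_inv_eq_iff_eq_mul, show y * (j * a ^ (2 * m : ℤ)) * y⁻¹ =
      y * j * y⁻¹ * (y * a ^ (2 * m : ℤ) * y⁻¹) by group, e1, h.yt, mul_assoc,
      ← h.c.comm_z tT'.1, h.tz'])
    (orderOf_eq_prime (by rw [pow_two, mul_assoc, ← mul_assoc _ j, ← jt, mul_assoc, h.c.sq h.tD,
      mul_one, jj]) fun e => jn ((mul_mem_cancel_right (mem_sup_left (zpow_mem_zpowers a _))).1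
        (e ▸ one_mem _))) _ _ m3 (mul_mem jT tT)
    (by simp only [h.mor.map_mul jT tT, e, h.rt, e2, e1, h.mor.map_mul jT zT, h.rz,
      h.mor.map_mul jT tT', h.rt']) _ h.rT h.c.mc.x_mem
  have e3 : y⁻¹ * b * y⁻¹⁻¹ = a := by simpa using h.ye' 0 1
  have e4 : y * (a⁻¹ * b) * y⁻¹ = a * b⁻¹ := by simpa using h.ye (-1) 1
  simp only [h.rr, e3, h.ra, e4, h.rb] at this
  exact h.tR (zpow_mem (inv_mem_iff.1 this) _)
theorem cent (hx : x ∈ S) (h1 : x * a = a * x) (h2 : x * b = b * x) : x ∈ g2 a b := by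
  obtain ⟨k, hk⟩ := h.c.two ⟨x, hx⟩
  have hk' : x ^ 2 ^ k ∈ g2 a b := by
    rw [show x ^ 2 ^ k = 1 from congrArg Subtype.val hk]; exact one_mem _
  clear hk
  induction k with
  | zero => simpa using hk'
  | succ k ih =>
    exact ih (h.cent2 (pow_mem hx _) (Commute.pow_left h1 _ : _) (Commute.pow_left h2 _ : _)
      (by rwa [← pow_two, ← pow_mul, ← pow_succ]))
theorem cent' (hx : x ∈ S) (h1 : ∀ i j : ℤ, x * (a ^ i * b ^ j) * x⁻¹ = a ^ i * b ^ j) :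
    x ∈ g2 a b :=
  h.cent hx (mul_inv_eq_iff_eq_mul.1 (by simpa using h1 1 0))
    (mul_inv_eq_iff_eq_mul.1 (by simpa using h1 0 1))
theorem centT (hx : x ∈ cS S (a ^ (2 * m : ℤ))) (h1 : x * (a * b⁻¹) = a * b⁻¹ * x) :
    x ∈ g2 a b := by
  obtain ⟨c, hc, e⟩ := h.scal hx
  have := e 1 (-1)
  rw [zpow_one, zpow_neg_one, h1, mul_inv_cancel_right] at this
  obtain ⟨k, hk⟩ := (h.eq_iff.1 (this.symm.trans (show _ = a ^ (1 : ℤ) * b ^ (-1 : ℤ) by simp))).1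
  exact h.cent' hx.1 fun i j => (e i j).trans (h.eq (k * i) (k * j) (by linear_combination i * hk)
    (by linear_combination j * hk))
theorem sqA (hx : x ∈ cS S (a ^ (2 * m : ℤ)) ∨ x * y⁻¹ ∈ cS S (a ^ (2 * m : ℤ)))
    (h1 : x * (a * b⁻¹) = a * b⁻¹ * x) : x ∈ g2 a b ∨ x * x ∈ R := by
  rcases hx with hx | hx
  · exact Or.inl (h.centT hx h1)
  obtain ⟨c, hc, e⟩ := h.scal hx
  have e1 : ∀ i j : ℤ, x * (a ^ i * b ^ j) * x⁻¹ = a ^ (c * j) * b ^ (c * i) := fun i j => by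
    rw [← e, ← h.ye i j]; group
  have := e1 1 (-1)
  rw [zpow_one, zpow_neg_one, h1, mul_inv_cancel_right] at this
  obtain ⟨k, hk⟩ := (h.eq_iff.1 (this.symm.trans (show _ = a ^ (1 : ℤ) * b ^ (-1 : ℤ) by simp))).1
  have e2 : ∀ i j : ℤ, x * (a ^ i * b ^ j) * x⁻¹ = a ^ (-j) * b ^ (-i) := fun i j =>
    (e1 i j).trans (h.eq (-k * j) (-k * i) (by linear_combination (-j) * hk)
      (by linear_combination (-i) * hk))
  have xS : x ∈ S := (mul_mem_cancel_right (inv_mem h.c.yS)).1 hx.1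
  obtain ⟨i, j, e3⟩ := (mem_g2 h.comm).1 (h.cent' (mul_mem xS xS) fun i j => by
    rw [show x * x * (a ^ i * b ^ j) * (x * x)⁻¹ = x * (x * (a ^ i * b ^ j) * x⁻¹) * x⁻¹ by group,
      e2, e2, neg_neg, neg_neg])
  have e4 := e2 i j
  rw [← e3, mul_inv_eq_iff_eq_mul, ← mul_assoc, mul_left_inj, e3, h.eq_iff] at e4
  right
  rw [e3, h.eq_iff (k := i) (l := -i).2 ⟨by simp, e4.2⟩, ← e_r h.comm]
  exact h.c.mc.zpow_mem i
theorem norm_cases (hs : s ∈ normalizerIn S (g2 a b)) :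
    s ∈ cS S (a ^ (2 * m : ℤ)) ∨ s * y⁻¹ ∈ cS S (a ^ (2 * m : ℤ)) := by
  have h1 := h.tD.trans (isConjElt_conj F hs.1 h.tD.mem_right)
  rcases h.inv_cases (H6.conj_mem_of_mem_normalizer hs.2 (mem_sup_left (zpow_mem_zpowers a _)))
    (h.c.ne_one h1) (h.c.sq h1) (fun e => h.ne (by
      rwa [← h.c.conj_z hs.1, mul_left_inj, mul_right_inj] at e)) with e | e
  · exact Or.inl (mem_cS.2 ⟨hs.1, mul_inv_eq_iff_eq_mul.1 e⟩)
  · refine Or.inr (h.cS_eq ▸ mem_cS.2 ⟨mul_mem hs.1 (inv_mem h.c.yS), ?_⟩)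
    rw [← mul_inv_eq_iff_eq_mul]
    nth_rewrite 1 [← h.yt]
    rw [← e]; group
theorem norm : S ≤ normalizer (g2 a b : Set Ω) := by
  have aA : a ∈ g2 a b := mem_sup_left (mem_zpowers a)
  have := eq_of_normalizerIn_le (p := 2) h.c.two (normalizerIn_le (S := S) (P := g2 a b))
    fun s hs => by
      obtain ⟨c, -, hc, e, -⟩ := h.c.act hs.1
      have h1 := H6.conj_mem_of_mem_normalizer hs.2 (le_normalizerIn (g2_le h.aS h.bS) aA)
      rcases h.sqA (h.norm_cases h1) (h.c.comm_r hc (by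
        rw [← e, show s * a * s⁻¹ * (s * (a * b⁻¹) * s⁻¹) = s * (a * (a * b⁻¹)) * s⁻¹ by group,
          show a * (a * b⁻¹) = a * b⁻¹ * a by simpa using comm_e rfl h.comm 1 (-1)]
        group)) with h2 | h2
      · refine ⟨hs.1, norm_g2 h.aS h.bS h2 ?_⟩
        rw [show s * b * s⁻¹ = (s * (a * b⁻¹) * s⁻¹)⁻¹ * (s * (a * b * a⁻¹ * b⁻¹ * a) * s⁻¹) by
          rw [h.comm]; group, h.comm, e, e_r h.comm]
        exact mul_mem (inv_mem (e_mem a b _ _)) (by simpa using h2)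
      · have h3 := h.c.conj_mem (inv_mem hs.1) h2
        rw [show s⁻¹ * (s * a * s⁻¹ * (s * a * s⁻¹)) * s⁻¹⁻¹ = a * a by group, ← zpow_two] at h3
        exact absurd (zpow_mul a 2 m ▸ zpow_mem h3 m) h.tR
  exact this ▸ normalizerIn_le_normalizer
theorem top (hs : s ∈ S) : s ∈ cS S (a ^ (2 * m : ℤ)) ∨ s * y⁻¹ ∈ cS S (a ^ (2 * m : ℤ)) :=
  h.norm_cases ⟨hs, h.norm hs⟩
theorem centric : F.IsCentric (g2 a b) :=
  (h.c.sat.isFullyCentralized h.c.two (F.isFullyNormalized_of_le_normalizer (g2_le h.aS h.bS)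
    h.norm)).isCentric fun x hx => h.cent hx.1
      ((mem_centralizerIn'.1 hx).2 a (mem_sup_left (mem_zpowers a))).symm
      ((mem_centralizerIn'.1 hx).2 b (mem_sup_right (mem_zpowers b))).symm

end Tx

/-- An involution inverting the torus and fixed by the automorphism of order three. -/
structure Io (S : Subgroup Ω) (m : ℕ) (a b y : Ω) (ρ : Ω → Ω) (ι : Ω) (l : ℤ) : Prop where
  mem : ι ∈ cS S (a ^ (2 * m : ℤ))
  inv : ∀ i j : ℤ, ι * (a ^ i * b ^ j) * ι⁻¹ = a ^ (-i) * b ^ (-j)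
  sq : ι * ι = 1
  fix : ρ ι = ι
  comm : ι * ((a * b⁻¹) ^ l * y) = (a * b⁻¹) ^ l * y * ι

namespace Tx

variable (h : Tx F R m a b y ρ)
include h

theorem iota (hx : x ∈ cS S (a ^ (2 * m : ℤ))) (h1 : x * (a * b⁻¹) * x⁻¹ = (a * b⁻¹)⁻¹) :
    ∃ ι l, Io S m a b y ρ ι l ∧ ∃ i j : ℤ, x = ι * (a ^ i * b ^ j) := by
  obtain ⟨c, hc, e⟩ := h.scal hx
  have := e 1 (-1)
  rw [zpow_one, zpow_neg_one, h1, ← zpow_neg_one, e_r h.comm] at this
  obtain ⟨k, hk⟩ := (h.eq_iff.1 this).1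
  obtain ⟨p, q, e1⟩ := h.fix hx
  have hι := mul_mem hx (h.eT p q)
  have e2 : ∀ i j : ℤ, x * (a ^ p * b ^ q) * (a ^ i * b ^ j) * (x * (a ^ p * b ^ q))⁻¹ =
      a ^ (-i) * b ^ (-j) := fun i j => by
    rw [mul_assoc x, e_cc h.comm, show x * (a ^ i * b ^ j * (a ^ p * b ^ q)) *
      (x * (a ^ p * b ^ q))⁻¹ = x * (a ^ i * b ^ j) * x⁻¹ by group, e]
    exact h.eq (-k * i) (-k * j) (by linear_combination (-i) * hk)
      (by linear_combination (-j) * hk)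
  have e3 : x = x * (a ^ p * b ^ q) * (a ^ (-p) * b ^ (-q)) := by rw [← e_inv h.comm]; group
  generalize x * (a ^ p * b ^ q) = ι at *
  have ii : ι * ι = 1 := h.fixA (h.cent' (mul_mem hι.1 hι.1) fun i j => by
    rw [show ι * ι * (a ^ i * b ^ j) * (ι * ι)⁻¹ = ι * (ι * (a ^ i * b ^ j) * ι⁻¹) * ι⁻¹ by group,
      e2, e2, neg_neg, neg_neg]) (by rw [h.mor.map_mul hι hι, e1])
  have hy := F.isMor_conj (P := cS S (a ^ (2 * m : ℤ))) inf_le_left h.c.yS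
  have hy' := F.isMor_conj (P := cS S (a ^ (2 * m : ℤ))) inf_le_left (inv_mem h.c.yS)
  have n0 : ∀ x ∈ cS S (a ^ (2 * m : ℤ)), _ := fun x hx => h.yT' hx
  have n1 := fun x hx => h.maps _ (n0 x hx)
  obtain ⟨v, hv, e4⟩ := h.c.sat.exists_center_of_fixed h.c.two h.centric (g2_le h.aT h.bT)
    (h.mor.comp' (hy.comp' (h.mor.comp' hy' n0) n1) fun x hx => h.yT (n1 x hx)) fun x hx => by
      obtain ⟨i, j, rfl⟩ := (mem_g2 h.comm).1 hx
      simp only [h.ye', h.rho, h.ye]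
      congr 2 <;> ring
  obtain ⟨i, j, rfl⟩ := (mem_g2 h.comm).1 hv.1
  obtain ⟨d, e5⟩ := h.c.yconj hι.1
  have e6 : y⁻¹ * ι * y⁻¹⁻¹ = ι * (a ^ d * b ^ (-d)) := by
    rw [← e_r h.comm, ← e5, show y⁻¹ * ι * y⁻¹⁻¹ = y * ((y * y)⁻¹ * (ι * (y * y))) * y⁻¹ by group,
      h.c.comm_z hι.1, inv_mul_cancel_left]
  have e7 := e4 ι hι
  have e8 : ∀ v, y * (ι * v) * y⁻¹ = y * ι * y⁻¹ * (y * v * y⁻¹) := fun v => by group
  have e9 : ∀ i j : ℤ, a ^ i * b ^ j * ι = ι * (a ^ (-i) * b ^ (-j)) := fun i j => by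
    have := e2 (-i) (-j)
    rw [neg_neg, neg_neg] at this
    rw [← this, inv_mul_cancel_right]
  simp only [e6, h.mor.map_mul hι (h.eT _ _), e1, h.rho, e8, e5, h.ye, e_r h.comm, mul_assoc ι,
    e_mul h.comm, e9, e_inv h.comm, mul_right_inj, h.eq_iff] at e7
  obtain ⟨l, hl⟩ := e7.1
  refine ⟨ι, i, ⟨hι, e2, ii, e1, ?_⟩, _, _, e3⟩
  rw [mul_assoc _ y, mul_inv_eq_iff_eq_mul.1 e5, e_r h.comm, e_r h.comm, ← mul_assoc _ _ y,
    ← mul_assoc _ _ y, ← mul_assoc _ ι, e9, mul_assoc ι _ (_ * _), e_mul h.comm,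
    h.eq (i := i) (j := -i) (k := -i + d) (l := - -i + -d) l (-l) (by linear_combination hl)
      (by linear_combination -hl)]
theorem conj_iota {l : ℤ} (hι : Io S m a b y ρ ι l) (hx : x ∈ cS S (a ^ (2 * m : ℤ))) :
    ∃ i j : ℤ, x * ι * x⁻¹ = ι * (a ^ (2 * i) * b ^ (2 * j)) := by
  obtain ⟨c, hc, e⟩ := h.scal hx
  have ti : ι⁻¹ = ι := inv_eq_of_mul_eq_one_right hι.sq
  have e9 : ∀ i j : ℤ, a ^ i * b ^ j * ι = ι * (a ^ (-i) * b ^ (-j)) := fun i j => by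
    have := hι.inv (-i) (-j)
    rw [neg_neg, neg_neg] at this
    rw [← this, inv_mul_cancel_right]
  obtain ⟨i, j, e1⟩ := (mem_g2 h.comm).1 (h.cent' (x := ι⁻¹ * (x * ι * x⁻¹)) (mul_mem
    (inv_mem hι.mem.1) (mul_mem (mul_mem hx.1 hι.mem.1) (inv_mem hx.1))) fun i j => by
      obtain ⟨c', -, e'⟩ := h.scal (inv_mem hx)
      rw [show ι⁻¹ * (x * ι * x⁻¹) * (a ^ i * b ^ j) * (ι⁻¹ * (x * ι * x⁻¹))⁻¹ =
        ι⁻¹ * (x * (ι * (x⁻¹ * (a ^ i * b ^ j) * x⁻¹⁻¹) * ι⁻¹) * x⁻¹) * ι by group, e', hι.inv,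
        ← e_inv h.comm, ← e', show ι⁻¹ * (x * (x⁻¹ * (a ^ i * b ^ j) * x⁻¹⁻¹)⁻¹ * x⁻¹) * ι =
        ι⁻¹ * ((a ^ i * b ^ j)⁻¹ * ι) by group, e_inv h.comm, e9, neg_neg, neg_neg,
        inv_mul_cancel_left])
  rw [inv_mul_eq_iff_eq_mul] at e1
  obtain ⟨p, q, e2⟩ := h.modA x hx
  have e3 := h.mor.map_conj hx hι.mem
  rw [e1, h.mor.map_mul hι.mem (h.eT _ _), hι.fix, h.rho, e2, mul_assoc x, e9,
    show x * (ι * (a ^ (-p) * b ^ (-q))) * (x * (a ^ p * b ^ q))⁻¹ =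
      x * ι * x⁻¹ * (x * (a ^ (-p) * b ^ (-q) * (a ^ p * b ^ q)⁻¹) * x⁻¹) by group, e1,
    e_inv h.comm, e_mul h.comm, e, mul_assoc, e_mul h.comm, mul_right_inj, h.eq_iff] at e3
  obtain ⟨⟨k, hk⟩, l, hl⟩ := e3
  refine ⟨-i + c * p - c * q - 2 * m * k + 2 * m * l, -i + c * p - 2 * m * k, ?_⟩
  rw [e1]
  congr 3
  · linear_combination hl - hk
  · linear_combination - hk

end Tx

end Cfsg.Agent.QP
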