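import Cfsg.Agent.Lib.QP.UniqA

/-!
# Uniqueness of the fusion system of type `G₂(q)`
-/

set_option autoImplicit false
set_option linter.unusedSectionVars false
set_option linter.unusedVariables false

namespace Cfsg.Agent.QP

open Cfsg Subgroup FusionSystem H6 H2 H8

variable {Ω : Type*} [Group Ω] {S : Subgroup Ω} {F : FusionSystem S} {m : ℕ}
  {a b y ι : Ω}

namespace CP

variable {r ζ g : Ω} (h : CP S m a r y ζ g) [Finite S]
include h

theorem step (hB : Bet F m r y ζ g) {p q : Ω} (hp : p ∈ g2 r y) (hq : q ∈ g2 ζ g)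
    (hpp : p * p = y * y) : ∃ i : ℤ, Odd i ∧ F.IsConjElt (p * q) (r ^ (m * i : ℤ) * q) := by
  obtain ⟨i, rfl | rfl⟩ := (h.R.mem_iff p).1 hp
  · rw [h.yy, ← zpow_add, h.R.zpow_eq_iff] at hpp
    obtain ⟨t, ht⟩ := hpp
    refine ⟨2 * t + 1, odd_two_mul_add_one t, ?_⟩
    rw [show (m * (2 * t + 1) : ℤ) = i by linarith]
    exact F.isConjElt_refl (mul_mem (h.R_le hp) (h.C_le hq))
  · obtain ⟨f, hf, e1, -, e2⟩ := h.betI_shift (h.betI_zero.2 hB) i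
    have h1 : r ^ i * y ∈ gen2 r m (r ^ i * y) ⊔ g2 ζ g :=
      mem_sup_left (mem_sup_right (mem_zpowers _))
    have := hf.isConjElt (mul_mem h1 (mem_sup_right hq))
    rw [hf.map_mul h1 (mem_sup_right hq), e1, e2 q hq] at this
    exact ⟨1, odd_one, by rwa [mul_one]⟩

theorem inv_conj (h1 : Bet F m r y ζ g) (h2 : Bet F m ζ g r y)
    (huc : ∀ i j : ℤ, Odd i → Odd j → F.IsConjElt (r ^ (m * i : ℤ) * ζ ^ (m * j : ℤ)) (y * y))
    {p q : Ω} (hp : p ∈ g2 r y) (hq : q ∈ g2 ζ g) (hs : p * q * (p * q) = 1) (hne : p * q ≠ 1) :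
    F.IsConjElt (p * q) (y * y) := by
  have e : p * p * (q * q) = 1 := by
    rw [← hs, mul_assoc, mul_assoc, ← mul_assoc q, ← h.com p hp q hq, mul_assoc p q]
  have hz : ∀ w ∈ zpowers (r ^ (2 * m : ℤ)), w = 1 ∨ w = y * y := by
    rintro _ ⟨n, rfl⟩
    simp only
    rcases Int.even_or_odd' n with ⟨k, rfl | rfl⟩
    · left; rw [zpow_mul, zpow_two, h.R.z_mul_self, one_zpow]
    · right; rw [zpow_add_one, zpow_mul, zpow_two, h.R.z_mul_self, one_zpow, one_mul, h.yy]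
  have hzz : y * y * (y * y) = 1 := h.yy ▸ h.R.z_mul_self
  have hi : ∀ {r y ζ g : Ω}, CP S m a r y ζ g → ∀ p ∈ g2 r y, p * p = 1 →
      p ∈ zpowers (r ^ (2 * m : ℤ)) := by
    intro r y ζ g h p hp hpp
    obtain ⟨i, rfl | rfl⟩ := (h.R.mem_iff p).1 hp
    · rw [← zpow_add, h.R.zpow_eq_one_iff] at hpp
      obtain ⟨t, ht⟩ := hpp
      exact ⟨t, by simp only [← zpow_mul]; congr 1; linarith⟩
    · rw [h.R.outer_odd_sq (by simp)] at hpp
      exact (h.R.z_ne_one hpp).elim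
  rcases hz _ (h.inf (mul_mem hp hp) (by
    rw [eq_inv_of_mul_eq_one_left e]; exact inv_mem (mul_mem hq hq))) with e1 | e1
  · rw [e1, one_mul] at e
    rcases hz _ (mul_mem (hi h p hp e1) (h.zz ▸ hi h.swap q hq e)) with e2 | e2
    · exact (hne e2).elim
    · rw [e2]; exact F.isConjElt_refl (h.R_le (mul_mem h.R.y_mem h.R.y_mem))
  · have e2 : q * q = g * g := by
      rw [e1] at e
      rw [h.gg, eq_inv_of_mul_eq_one_right e, inv_eq_iff_mul_eq_one, hzz]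
    obtain ⟨i, hi, c1⟩ := h.step h1 hp hq e1
    obtain ⟨j, hj, c2⟩ := h.swap.step h2 hq (h.R.zpow_mem (m * i)) e2
    rw [← h.com _ (h.R.zpow_mem _) _ hq, ← h.com _ (h.R.zpow_mem _) _ (h.C.zpow_mem _)] at c2
    exact (c1.trans c2).trans (huc i j hi hj)

end CP

namespace GS

variable (h : GS S m a b y ι)
include h

theorem two_dvd : (2 : ℤ) ∣ m := by
  obtain ⟨k, rfl⟩ := h.pow
  exact ⟨2 ^ k, by push_cast; ring⟩

theorem pos : 0 < m := by obtain ⟨k, rfl⟩ := h.pow; positivity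

theorem e_mul (i j k l : ℤ) : a ^ i * b ^ j * (a ^ k * b ^ l) = a ^ (i + k) * b ^ (j + l) := by
  rw [zpow_add, zpow_add, mul_assoc, mul_assoc, ← mul_assoc (b ^ j),
    ← (Commute.zpow_zpow h.comm k j).eq, mul_assoc]

theorem e_inv (i j : ℤ) : (a ^ i * b ^ j)⁻¹ = a ^ (-i) * b ^ (-j) := by
  rw [inv_eq_iff_mul_eq_one, h.e_mul]; simp

theorem e_eq_iff {i j k l : ℤ} :
    a ^ i * b ^ j = a ^ k * b ^ l ↔ (4 * m : ℤ) ∣ i - k ∧ (4 * m : ℤ) ∣ j - l := by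
  rw [← mul_inv_eq_one, h.e_inv, h.e_mul, h.one_iff, ← sub_eq_add_neg, ← sub_eq_add_neg]

theorem e_eq {i j k l : ℤ} (s t : ℤ) (e1 : i - k = 4 * m * s) (e2 : j - l = 4 * m * t) :
    a ^ i * b ^ j = a ^ k * b ^ l := h.e_eq_iff.2 ⟨⟨s, e1⟩, ⟨t, e2⟩⟩

theorem r_zpow (i : ℤ) : (a * b⁻¹) ^ i = a ^ i * b ^ (-i) := by
  rw [(Commute.inv_right h.comm).mul_zpow, inv_zpow, zpow_neg]

theorem ζ_zpow (i : ℤ) : (a * b) ^ i = a ^ i * b ^ i := Commute.mul_zpow h.comm i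

theorem y_e (i j : ℤ) : y * (a ^ i * b ^ j) = a ^ j * b ^ i * y := by
  rw [← mul_inv_eq_iff_eq_mul, show y * (a ^ i * b ^ j) * y⁻¹ =
    y * a ^ i * y⁻¹ * (y * b ^ j * y⁻¹) by group, ← conj_zpow, ← conj_zpow, h.ya, h.yb,
    (Commute.zpow_zpow h.comm j i).eq]

theorem ι_e (i j : ℤ) : ι * (a ^ i * b ^ j) = a ^ (-i) * b ^ (-j) * ι := by
  rw [← mul_inv_eq_iff_eq_mul, show ι * (a ^ i * b ^ j) * ι⁻¹ =
    ι * a ^ i * ι⁻¹ * (ι * b ^ j * ι⁻¹) by group, ← conj_zpow, ← conj_zpow, h.ia, h.ib]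
  simp

theorem g_e (i j : ℤ) : y * ι * (a ^ i * b ^ j) = a ^ (-j) * b ^ (-i) * (y * ι) := by
  rw [mul_assoc, h.ι_e, ← mul_assoc y, h.y_e, mul_assoc]

theorem yy' : y * y = a ^ (2 * m : ℤ) * b ^ (-(2 * m) : ℤ) := by rw [h.yy, h.r_zpow]

theorem gg : y * ι * (y * ι) = y * y := by
  rw [mul_assoc, ← mul_assoc ι, h.iy, mul_assoc, h.ii, mul_one]

theorem not_comm {w : Ω} {i j : ℤ} (hw : w = y ∨ w = ι ∨ w = y * ι) : w ≠ a ^ i * b ^ j := by
  intro e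
  have hm := h.pos
  have h2 := h.two_dvd
  have e' : w * (a ^ (1 : ℤ) * b ^ (0 : ℤ)) = a ^ (1 : ℤ) * b ^ (0 : ℤ) * w := by
    rw [e, h.e_mul, h.e_mul, add_comm i, add_comm j]
  rcases hw with rfl | rfl | rfl
  · rw [h.y_e, mul_left_inj, h.e_eq_iff] at e'
    have := Int.le_of_dvd (by omega) e'.2; omega
  · rw [h.ι_e, mul_left_inj, eq_comm, h.e_eq_iff] at e'
    have := Int.le_of_dvd (by omega) e'.1; omega
  · rw [h.g_e, mul_left_inj, eq_comm, h.e_eq_iff] at e'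
    have := Int.le_of_dvd (by omega) e'.1; omega

theorem e_mem (i j : ℤ) : a ^ i * b ^ j ∈ S := (h.mem_iff _).2 ⟨i, j, Or.inl rfl⟩
theorem a_mem : a ∈ S := by simpa using h.e_mem 1 0
theorem b_mem : b ∈ S := by simpa using h.e_mem 0 1
theorem y_mem : y ∈ S := (h.mem_iff _).2 ⟨0, 0, Or.inr (Or.inl (by simp))⟩
theorem ι_mem : ι ∈ S := (h.mem_iff _).2 ⟨0, 0, Or.inr (Or.inr (Or.inl (by simp)))⟩

theorem ey_sq (i j : ℤ) : a ^ i * b ^ j * y * (a ^ i * b ^ j * y) =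
    a ^ (i + j + 2 * m) * b ^ (j + i + -(2 * m)) := by
  rw [mul_assoc (a ^ i * b ^ j) y, ← mul_assoc y, h.y_e, mul_assoc (a ^ j * b ^ i), h.yy',
    ← mul_assoc (a ^ i * b ^ j), h.e_mul, h.e_mul]

theorem eι_sq (i j : ℤ) : a ^ i * b ^ j * ι * (a ^ i * b ^ j * ι) = 1 := by
  rw [mul_assoc (a ^ i * b ^ j) ι, ← mul_assoc ι, h.ι_e, mul_assoc (a ^ (-i) * b ^ (-j)), h.ii,
    mul_one, h.e_mul]; simp

theorem eg_sq (i j : ℤ) : a ^ i * b ^ j * (y * ι) * (a ^ i * b ^ j * (y * ι)) =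
    a ^ (i + -j + 2 * m) * b ^ (j + -i + -(2 * m)) := by
  rw [mul_assoc (a ^ i * b ^ j) (y * ι), ← mul_assoc (y * ι), h.g_e,
    mul_assoc (a ^ (-j) * b ^ (-i)), h.gg, h.yy', ← mul_assoc (a ^ i * b ^ j), h.e_mul, h.e_mul]

theorem two : IsPGroup 2 S := by
  rintro ⟨s, hs⟩
  obtain ⟨k, hk⟩ := h.pow
  refine ⟨1 + (k + 3), Subtype.ext ?_⟩
  obtain ⟨i, j, e⟩ : ∃ i j : ℤ, s * s = a ^ i * b ^ j := by
    obtain ⟨i, j, rfl | rfl | rfl | rfl⟩ := (h.mem_iff s).1 hs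
    exacts [⟨_, _, h.e_mul _ _ _ _⟩, ⟨_, _, h.ey_sq _ _⟩, ⟨0, 0, by rw [h.eι_sq]; simp⟩,
      ⟨_, _, h.eg_sq _ _⟩]
  change s ^ _ = 1
  rw [pow_add, pow_mul, pow_one, pow_two, e, (Commute.zpow_zpow h.comm i j).mul_pow,
    ← zpow_natCast, ← zpow_natCast, ← zpow_mul, ← zpow_mul, h.one_iff, hk]
  push_cast
  exact ⟨⟨i, by ring⟩, ⟨j, by ring⟩⟩

theorem D_mul {r y ζ g : Ω} (hc : ∀ p ∈ g2 r y, ∀ q ∈ g2 ζ g, p * q = q * p) {s s' : Ω}
    (h1 : ∃ p ∈ g2 r y, ∃ q ∈ g2 ζ g, s = p * q) (h2 : ∃ p ∈ g2 r y, ∃ q ∈ g2 ζ g, s' = p * q) :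
    ∃ p ∈ g2 r y, ∃ q ∈ g2 ζ g, s * s' = p * q := by
  obtain ⟨p, hp, q, hq, rfl⟩ := h1
  obtain ⟨p', hp', q', hq', rfl⟩ := h2
  exact ⟨_, mul_mem hp hp', _, mul_mem hq hq', by
    rw [mul_assoc, ← mul_assoc q, ← hc p' hp' q hq]; simp only [mul_assoc]⟩

theorem com : ∀ p ∈ g2 (a * b⁻¹) y, ∀ q ∈ g2 (a * b) (y * ι), p * q = q * p := by
  have key : ∀ p : Ω, p * (a * b) = a * b * p → p * (y * ι) = y * ι * p →
      ∀ q ∈ g2 (a * b) (y * ι), p * q = q * p := fun p h1 h2 q hq =>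
    (mem_centralizer_singleton_iff.1 ((sup_le (zpowers_le_of_mem
      (mem_centralizer_singleton_iff.2 h1.symm)) (zpowers_le_of_mem
        (mem_centralizer_singleton_iff.2 h2.symm)) : g2 (a * b) (y * ι) ≤ centralizer {p}) hq)).symm
  intro p hp q hq
  refine mem_centralizer_singleton_iff.1 ((sup_le (zpowers_le_of_mem
      (mem_centralizer_singleton_iff.2 (key _ ?_ ?_ q hq))) (zpowers_le_of_mem
        (mem_centralizer_singleton_iff.2 (key _ ?_ ?_ q hq))) :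
          g2 (a * b⁻¹) y ≤ centralizer {q}) hp)
  · have e1 := h.e_mul 1 (-1) 1 1
    have e2 := h.e_mul 1 1 1 (-1)
    rw [add_comm (-1 : ℤ) 1] at e1
    simpa using e1.trans e2.symm
  · simpa using (h.g_e 1 (-1)).symm
  · simpa using h.y_e 1 1
  · rw [mul_assoc, h.iy]

theorem D_even {i j : ℤ} (he : Even (i - j)) {w : Ω} (hw : w = 1 ∨ w = y ∨ w = ι ∨ w = y * ι) :
    ∃ p ∈ g2 (a * b⁻¹) y, ∃ q ∈ g2 (a * b) (y * ι), a ^ i * b ^ j * w = p * q := by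
  obtain ⟨k, hk⟩ := he
  have hy : y ∈ g2 (a * b⁻¹) y := mem_sup_right (mem_zpowers _)
  have hg : y * ι ∈ g2 (a * b) (y * ι) := mem_sup_right (mem_zpowers _)
  refine h.D_mul h.com ⟨_, mem_sup_left (zpow_mem_zpowers _ k), _,
    mem_sup_left (zpow_mem_zpowers _ (j + k)), by
      rw [h.r_zpow, h.ζ_zpow, h.e_mul]; congr 2 <;> linarith⟩ ?_
  rcases hw with rfl | rfl | rfl | rfl
  exacts [⟨1, one_mem _, 1, one_mem _, (mul_one 1).symm⟩, ⟨_, hy, 1, one_mem _, (mul_one _).symm⟩,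
    ⟨_, inv_mem hy, _, hg, by group⟩, ⟨1, one_mem _, _, hg, (one_mul _).symm⟩]

theorem cp [Finite S] : CP S m a (a * b⁻¹) y (a * b) (y * ι) := by
  obtain ⟨k, hk⟩ := h.pow
  have hR : g2 (a * b⁻¹) y ≤ S := sup_le (zpowers_le_of_mem (mul_mem h.a_mem (inv_mem h.b_mem)))
    (zpowers_le_of_mem h.y_mem)
  have hC : g2 (a * b) (y * ι) ≤ S := sup_le (zpowers_le_of_mem (mul_mem h.a_mem h.b_mem))
    (zpowers_le_of_mem (mul_mem h.y_mem h.ι_mem))
  have := finite_of_le hR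
  have := finite_of_le hC
  have ho : ∀ x : Ω, (∀ n : ℤ, x ^ n = 1 ↔ (4 * m : ℤ) ∣ n) → orderOf x = 4 * m := fun x hx =>
    Nat.dvd_antisymm (orderOf_dvd_of_pow_eq_one (by rw [← zpow_natCast, hx]; simp))
      (by exact_mod_cast (hx (orderOf x)).1 (by rw [zpow_natCast, pow_orderOf_eq_one]))
  have hzz : (a * b⁻¹) ^ (2 * m : ℤ) = (a * b) ^ (2 * m : ℤ) := by
    rw [h.r_zpow, h.ζ_zpow]; exact h.e_eq 0 (-1) (by ring) (by ring)
  have hay : a * y * a⁻¹ = a * b⁻¹ * y := by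
    have := h.y_e (-1) 0
    simp only [zpow_neg, zpow_one, zpow_zero, mul_one, one_mul] at this
    rw [mul_assoc, this, mul_assoc]
  have hag : a * (y * ι) * a⁻¹ = a * b * (y * ι) := by
    have := h.g_e (-1) 0
    simp only [zpow_neg, zpow_one, zpow_zero, mul_one, one_mul, neg_neg, neg_zero] at this
    rw [mul_assoc, this, mul_assoc a b]
  refine ⟨h.two, h.two_dvd, mc_of_gens ⟨_, hk⟩ (ho _ fun n => by rw [h.r_zpow, h.one_iff]; simp)
    (by rw [h.yy, mul_one]) ?_ (by simp) rfl,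
    mc_of_gens ⟨_, hk⟩ (ho _ fun n => by simp [h.ζ_zpow, h.one_iff])
    (by rw [h.gg, h.yy, hzz, mul_one]) ?_ (by simp) rfl, h.com, hzz, ?_, ?_, hay, hag,
    fun s => ⟨fun hs => ?_, ?_⟩⟩
  · rw [mul_inv_eq_iff_eq_mul, h.r_zpow]; simpa using h.y_e 1 (-1)
  · rw [mul_inv_eq_iff_eq_mul, h.ζ_zpow]; simpa using h.g_e 1 1
  · rw [mul_assoc, (Commute.inv_right h.comm).eq]
  · rw [mul_assoc, ← h.comm]
  · obtain ⟨i, j, w, hw, rfl⟩ : ∃ (i j : ℤ) (w : Ω), (w = 1 ∨ w = y ∨ w = ι ∨ w = y * ι) ∧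
        s = a ^ i * b ^ j * w := by
      obtain ⟨i, j, rfl | rfl | rfl | rfl⟩ := (h.mem_iff s).1 hs
      exacts [⟨i, j, 1, Or.inl rfl, (mul_one _).symm⟩, ⟨i, j, _, Or.inr (Or.inl rfl), rfl⟩,
        ⟨i, j, _, Or.inr (Or.inr (Or.inl rfl)), rfl⟩, ⟨i, j, _, Or.inr (Or.inr (Or.inr rfl)), rfl⟩]
    rcases Int.even_or_odd (i - j) with he | he
    · obtain ⟨p, hp, q, hq, e⟩ := h.D_even he hw
      exact ⟨p, hp, q, hq, Or.inl e⟩
    · obtain ⟨k, l, hkl, e⟩ : ∃ k l : ℤ, Odd (k - l) ∧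
          w * (a ^ (-1 : ℤ) * b ^ (0 : ℤ)) = a ^ k * b ^ l * w := by
        rcases hw with rfl | rfl | rfl | rfl
        exacts [⟨-1, 0, by decide, by simp⟩, ⟨_, _, by decide, h.y_e _ _⟩,
          ⟨_, _, by decide, h.ι_e _ _⟩, ⟨_, _, by decide, h.g_e _ _⟩]
      obtain ⟨p, hp, q, hq, e'⟩ := h.D_even (i := i + k) (j := j + l)
        (by rw [show i + k - (j + l) = i - j + (k - l) by ring]; exact he.add_odd hkl) hw
      refine ⟨p, hp, q, hq, Or.inr ?_⟩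
      rw [← e', ← h.e_mul, mul_assoc (a ^ i * b ^ j), ← e]
      simp [mul_assoc]
  · rintro ⟨p, hp, q, hq, rfl | rfl⟩
    exacts [mul_mem (hR hp) (hC hq), mul_mem (mul_mem (hR hp) (hC hq)) h.a_mem]

theorem rho_e {f : Ω → Ω} (hf : Rho F a b ι f) (i j : ℤ) :
    f (a ^ i * b ^ j) = a ^ (-i - j) * b ^ i := by
  have ha : a ∈ g2 a b ⊔ zpowers ι := mem_sup_left (mem_sup_left (mem_zpowers _))
  have hb : b ∈ g2 a b ⊔ zpowers ι := mem_sup_left (mem_sup_right (mem_zpowers _))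
  rw [hf.1.map_mul (zpow_mem ha i) (zpow_mem hb j), hf.1.map_zpow ha, hf.1.map_zpow hb, hf.2.1,
    hf.2.2.1, (Commute.inv_left h.comm).mul_zpow, inv_zpow', inv_zpow', sub_eq_add_neg]
  simpa using h.e_mul (-i) i (-j) 0

theorem e_mem_T (i j : ℤ) : a ^ i * b ^ j ∈ g2 a b ⊔ zpowers ι :=
  mem_sup_left (mul_mem (mem_sup_left (zpow_mem_zpowers _ _)) (mem_sup_right (zpow_mem_zpowers _ _)))

theorem mem_T {x : Ω} (hx : x ∈ g2 a b ⊔ zpowers ι) :
    ∃ i j : ℤ, x = a ^ i * b ^ j ∨ x = a ^ i * b ^ j * ι := by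
  let T : Subgroup Ω :=
    { carrier := {x | ∃ i j : ℤ, x = a ^ i * b ^ j ∨ x = a ^ i * b ^ j * ι}
      mul_mem' := by
        rintro _ _ ⟨i, j, rfl | rfl⟩ ⟨k, l, rfl | rfl⟩
        · exact ⟨_, _, Or.inl (h.e_mul _ _ _ _)⟩
        · exact ⟨_, _, Or.inr (by rw [← mul_assoc, h.e_mul])⟩
        · exact ⟨_, _, Or.inr (by rw [mul_assoc, h.ι_e, ← mul_assoc, h.e_mul])⟩
        · exact ⟨_, _, Or.inl (by
            rw [mul_assoc (a ^ i * b ^ j) ι, ← mul_assoc ι, h.ι_e,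
              mul_assoc (a ^ (-k) * b ^ (-l)), h.ii, mul_one, h.e_mul])⟩
      one_mem' := ⟨0, 0, Or.inl (by simp)⟩
      inv_mem' := by
        rintro _ ⟨i, j, rfl | rfl⟩
        · exact ⟨_, _, Or.inl (h.e_inv _ _)⟩
        · exact ⟨_, _, Or.inr (inv_eq_of_mul_eq_one_right (h.eι_sq _ _))⟩ }
  exact (sup_le (sup_le (zpowers_le_of_mem ⟨1, 0, Or.inl (by simp)⟩)
    (zpowers_le_of_mem ⟨0, 1, Or.inl (by simp)⟩)) (zpowers_le_of_mem ⟨0, 0, Or.inr (by simp)⟩) :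
      g2 a b ⊔ zpowers ι ≤ T) hx

variable [Finite S]

theorem inv_conj (hρ : ∃ f, Rho F a b ι f) (h1 : Bet F m (a * b⁻¹) y (a * b) (y * ι))
    (h2 : Bet F m (a * b) (y * ι) (a * b⁻¹) y) {s : Ω} (hs : s ∈ S) (hss : s * s = 1)
    (hne : s ≠ 1) : F.IsConjElt s (y * y) := by
  obtain ⟨f, hf⟩ := hρ
  have hyc : ∀ i j : ℤ, ∀ w, w * y = y * w → w ∈ S →
      F.IsConjElt (a ^ i * b ^ j * w) (a ^ j * b ^ i * w) := fun i j w hw hwS => by
    have := isConjElt_conj F h.y_mem (mul_mem (h.e_mem i j) hwS)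
    rwa [← mul_assoc y, h.y_e, mul_assoc _ y, ← hw, ← mul_assoc, mul_inv_cancel_right] at this
  have c1 : F.IsConjElt (a ^ (2 * m : ℤ) * b ^ (0 : ℤ)) (y * y) := by
    have := hf.1.isConjElt (h.e_mem_T (2 * m) 0)
    rwa [h.rho_e hf, h.e_eq (i := -(2 * m) - 0) (j := 2 * m) (k := 2 * m) (l := -(2 * m)) (-1) 1
      (by ring) (by ring), ← h.yy'] at this
  have c2 : F.IsConjElt (a ^ (0 : ℤ) * b ^ (2 * m : ℤ)) (y * y) := by
    have := hyc 0 (2 * m) 1 (by simp) (one_mem _)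
    rw [mul_one, mul_one] at this
    exact this.trans c1
  have key : ∀ i j : ℤ, Even (i - j) → ∀ w, (w = 1 ∨ w = y ∨ w = ι ∨ w = y * ι) →
      a ^ i * b ^ j * w * (a ^ i * b ^ j * w) = 1 → a ^ i * b ^ j * w ≠ 1 →
      F.IsConjElt (a ^ i * b ^ j * w) (y * y) := by
    intro i j he w hw e1 e2
    obtain ⟨p, hp, q, hq, e⟩ := h.D_even he hw
    rw [e] at e1 e2 ⊢
    refine h.cp.inv_conj h1 h2 ?_ hp hq e1 e2
    rintro _ _ ⟨k, rfl⟩ ⟨l, rfl⟩
    rw [h.r_zpow, h.ζ_zpow, h.e_mul]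
    rcases Int.even_or_odd' (k + l) with ⟨t, ht | ht⟩
    · rwa [h.e_eq (k := 2 * m) (l := 0) t (t - k) (by linear_combination 2 * m * ht)
        (by linear_combination 2 * m * ht)]
    · rwa [h.e_eq (k := 0) (l := 2 * m) (t + 1) (t - k) (by linear_combination 2 * m * ht)
        (by linear_combination 2 * m * ht)]
  have hιT : ι ∈ g2 a b ⊔ zpowers ι := mem_sup_right (mem_zpowers _)
  have keyι : ∀ i j : ℤ, Even j → F.IsConjElt (a ^ i * b ^ j * ι) (y * y) := fun i j hj => by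
    have := hf.1.isConjElt (mul_mem (h.e_mem_T i j) hιT)
    rw [hf.1.map_mul (h.e_mem_T i j) hιT, h.rho_e hf, hf.2.2.2] at this
    refine this.trans (key _ _ ?_ ι (Or.inr (Or.inr (Or.inl rfl))) (h.eι_sq _ _) fun e => ?_)
    · obtain ⟨t, rfl⟩ := hj
      exact ⟨-i - t, by ring⟩
    · exact h.not_comm (Or.inr (Or.inl rfl)) ((eq_inv_of_mul_eq_one_right e).trans (h.e_inv _ _))
  obtain ⟨n, hn⟩ := h.two_dvd
  obtain ⟨i, j, rfl | rfl | rfl | rfl⟩ := (h.mem_iff s).1 hs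
  · have := key i j ?_ 1 (Or.inl rfl) (by rwa [mul_one]) (by rwa [mul_one])
    · rwa [mul_one] at this
    rw [h.e_mul, h.one_iff] at hss
    obtain ⟨⟨s, hs⟩, t, ht⟩ := hss
    exact ⟨m * (s - t), by linarith⟩
  · refine key i j ?_ y (Or.inr (Or.inl rfl)) hss hne
    rw [h.ey_sq, h.one_iff] at hss
    obtain ⟨⟨s, hs⟩, -⟩ := hss
    exact ⟨2 * m * s - m - j, by linarith⟩
  · rcases Int.even_or_odd j with hj | hj
    · exact keyι i j hj
    rcases Int.even_or_odd i with hi | hi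
    · exact (hyc i j ι h.iy h.ι_mem).trans (keyι j i hi)
    · exact key i j (hi.sub_odd hj) ι (Or.inr (Or.inr (Or.inl rfl))) hss hne
  · refine key i j ?_ _ (Or.inr (Or.inr (Or.inr rfl))) hss hne
    rw [h.eg_sq, h.one_iff] at hss
    obtain ⟨⟨s, hs⟩, -⟩ := hss
    exact ⟨2 * m * s - m, by linarith⟩

theorem bet (hF : F.IsSaturated 2) (hsc : SC F (y * y) (g2 (a * b⁻¹) y))
    (hg : Gen F (y * y) a b ι) (hh : F.hyperfocalSubgroup 2 = S) :
    Bet F m (a * b⁻¹) y (a * b) (y * ι) ∧ Bet F m (a * b) (y * ι) (a * b⁻¹) y := by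
  have key : ∀ k l : ℤ, (∀ P f, F.IsMor P f → y * y ∈ P → f (y * y) = y * y →
      ∀ x ∈ P, x⁻¹ * f x ∈ centralizer {a ^ k * b ^ l}) → S ≤ centralizer {a ^ k * b ^ l} := by
    intro k l hM
    have hA : ∀ i j : ℤ, a ^ i * b ^ j ∈ centralizer {a ^ k * b ^ l} := fun i j =>
      mem_centralizer_singleton_iff.2 (by rw [h.e_mul, h.e_mul, add_comm i, add_comm j])
    have := hg _ (closed_mod F (centralizer {a ^ k * b ^ l})) hM fun f hf x hx => by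
      obtain ⟨i, j, rfl | rfl⟩ := h.mem_T hx
      · rw [h.rho_e hf, h.e_inv, h.e_mul]; exact hA _ _
      · rw [hf.1.map_mul (h.e_mem_T i j) (mem_sup_right (mem_zpowers _)), h.rho_e hf, hf.2.2.2,
          mul_inv_rev, h.e_inv, inv_eq_of_mul_eq_one_right h.ii, mul_assoc, ← mul_assoc _ _ ι,
          h.e_mul, ← mul_assoc, h.ι_e, mul_assoc, h.ii, mul_one]
        exact hA _ _
    rw [← hh]
    exact hyperfocalSubgroup_le_iff'.2 fun P hP α hα _ => this P _ (isMor_of_mem_autGroup hP hα)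
  have hm := h.pos
  have h2 := h.two_dvd
  constructor <;> by_contra hB
  · have := mem_centralizer_singleton_iff.1 (key 1 (-1)
      (by simpa using h.cp.mod_cent hF hsc hB) h.ι_mem)
    rw [h.ι_e, mul_left_inj, eq_comm, h.e_eq_iff] at this
    have := Int.le_of_dvd (by omega) this.1; omega
  · have := mem_centralizer_singleton_iff.1 (key 1 1
      (by simpa [h.gg] using h.cp.swap.mod_cent hF (h.cp.sc_swap hF hsc) hB) h.ι_mem)
    rw [h.ι_e, mul_left_inj, eq_comm, h.e_eq_iff] at this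
    have := Int.le_of_dvd (by omega) this.1; omega

theorem eq_of {F' : FusionSystem S} (hF : F.IsSaturated 2) (hsc : SC F (y * y) (g2 (a * b⁻¹) y))
    (hρ : ∃ f, Rho F a b ι f) (hg : Gen F (y * y) a b ι) (hh : F.hyperfocalSubgroup 2 = S)
    (hF' : F'.IsSaturated 2) (hsc' : SC F' (y * y) (g2 (a * b⁻¹) y)) (hρ' : ∃ f, Rho F' a b ι f)
    (h1' : Bet F' m (a * b⁻¹) y (a * b) (y * ι)) (h2' : Bet F' m (a * b) (y * ι) (a * b⁻¹) y) :
    F = F' := by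
  obtain ⟨h1, h2⟩ := h.bet hF hsc hg hh
  have hle : ∀ P f, F.IsMor P f → F'.IsMor P f := by
    refine hg _ (closed_isMor F F') (h.cp.cz_le hF hsc h1' h2') fun f hf => ?_
    obtain ⟨f', hf'⟩ := hρ'
    refine hf'.1.congr fun x hx => ?_
    obtain ⟨i, j, rfl | rfl⟩ := h.mem_T hx
    · rw [h.rho_e hf, h.rho_e hf']
    · rw [hf.1.map_mul (h.e_mem_T i j) (mem_sup_right (mem_zpowers _)), h.rho_e hf, hf.2.2.2,
        hf'.1.map_mul (h.e_mem_T i j) (mem_sup_right (mem_zpowers _)), h.rho_e hf', hf'.2.2.2]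
  refine le_antisymm' (le_iff.2 hle) (le_iff.2 (alperin_cr hF' h.two (closed_isMor F' F)
    fun P _ hP _ _ α hα => ?_))
  have hzS : y * y ∈ S := mul_mem h.y_mem h.y_mem
  have hzP : y * y ∈ P := hP.centralizerIn_le (mem_centralizerIn'.2 ⟨hzS, fun x hx =>
    mul_inv_eq_iff_eq_mul.1 (h.cp.z_central (hP.le hx))⟩)
  have hφ := isIso_of_mem_autGroup hP.le hα
  have hz1 : y * y ≠ 1 := h.cp.yy ▸ h.cp.R.z_ne_one
  have hz2 : y * y * (y * y) = 1 := h.cp.yy ▸ h.cp.R.z_mul_self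
  have hc := h.inv_conj hρ h1 h2 (hφ.mor.mem hzP) (by rw [← hφ.mor.map_mul hzP hzP, hz2, hφ.mor.map_one])
    fun e => hz1 ((hφ.mor.eq_one_iff hzP).1 e)
  set t := equivFun α (y * y) with ht
  obtain ⟨f, hf, e⟩ := isConjElt_iff'.1 hc
  have hi : F.IsIso (zpowers t) (zpowers (y * y)) f := ⟨hf, by
    rintro _ ⟨n, rfl⟩
    simp only
    rw [hf.map_zpow (mem_zpowers t), e]; exact zpow_mem_zpowers _ _, by
    rintro _ ⟨n, rfl⟩
    exact ⟨t ^ n, zpow_mem_zpowers _ _, by rw [hf.map_zpow (mem_zpowers t), e]⟩⟩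
  have := finite_of_le (zpowers_le_of_mem hzS)
  obtain ⟨ψ, hψ, hψi⟩ := hF.exists_isMor_normalizerIn h.two
    (F.isFullyNormalized_of_le_normalizer (zpowers_le_of_mem hzS) fun s hs =>
      FusionSystem.mem_normalizer_of_finite (by
        rintro _ ⟨n, rfl⟩
        simp only
        rw [← conj_zpow, h.cp.z_central hs]; exact zpow_mem_zpowers _ _)) hi.isConj
  have hψt : ψ t = y * y := by
    obtain ⟨n, hn⟩ := hψi.mapsTo t (mem_zpowers t)
    simp only at hn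
    rcases Int.even_or_odd' n with ⟨k, rfl | rfl⟩
    · rw [zpow_mul, zpow_two, hz2, one_zpow, eq_comm, hψi.mor.eq_one_iff (mem_zpowers t)] at hn
      exact (hz1 ((hφ.mor.eq_one_iff hzP).1 hn)).elim
    · rw [← hn, zpow_add_one, zpow_mul, zpow_two, hz2, one_zpow, one_mul]
  have hPN : P ≤ normalizerIn S (zpowers t) := fun x hx => ⟨hP.le hx, by
    obtain ⟨x', hx', rfl⟩ := hφ.surj x hx
    refine centralizer_le_normalizer _ (FusionSystem.mem_centralizer_of_conj_eq ?_)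
    rintro _ ⟨n, rfl⟩
    simp only
    rw [← conj_zpow, ht, ← hφ.mor.map_conj hx' hzP, h.cp.z_central (hP.le hx')]⟩
  have h3 : F.IsMor P (ψ ∘ equivFun α) := h.cp.cz_le hF' hsc' h1 h2 P _
    ((hle _ _ (hψ.mono hPN)).comp hφ.mor hφ.mapsTo) hzP hψt
  obtain ⟨χ, hχ, e1, -⟩ := (hψ.isIso_img_of_le hPN).exists_symm
  exact (hχ.mor.comp h3 fun x hx => mem_img_of_mem ψ (hφ.mapsTo x hx)).congr fun x hx =>
    e1 _ (hφ.mapsTo x hx)

omit [Finite S] in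
theorem w_mul (i j k l : ℤ) (e f e' f' : Bool) :
    a ^ i * b ^ j * (cond e y 1 * cond f ι 1) * (a ^ k * b ^ l * (cond e' y 1 * cond f' ι 1)) =
      a ^ (i + cond f (-1) 1 * cond e l k + cond (e && e') (2 * m : ℤ) 0) *
        b ^ (j + cond f (-1) 1 * cond e k l + cond (e && e') (-(2 * m) : ℤ) 0) *
        (cond (xor e e') y 1 * cond (xor f f') ι 1) := by
  have h1 : cond e y 1 * cond f ι 1 * (a ^ k * b ^ l) = a ^ (cond f (-1) 1 * cond e l k) *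
      b ^ (cond f (-1) 1 * cond e k l) * (cond e y 1 * cond f ι 1) := by
    cases e <;> cases f
    · simp
    · simpa using h.ι_e k l
    · simpa using h.y_e k l
    · simpa using h.g_e k l
  have h2 : cond e y 1 * cond f ι 1 * (cond e' y 1 * cond f' ι 1) =
      a ^ (cond (e && e') (2 * m) 0 : ℤ) * b ^ (cond (e && e') (-(2 * m)) 0 : ℤ) *
        (cond (xor e e') y 1 * cond (xor f f') ι 1) := by
    have iy' : ∀ w, ι * (y * w) = y * (ι * w) := fun w => by rw [← mul_assoc, h.iy, mul_assoc]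
    cases e <;> cases f <;> cases e' <;> cases f' <;>
      simp only [cond_true, cond_false, Bool.and_true, Bool.and_false, Bool.xor_true,
        Bool.xor_false, Bool.not_true, Bool.not_false, ← h.yy', zpow_zero, mul_one, one_mul,
        mul_assoc, h.iy, iy', h.ii]
  rw [mul_assoc, ← mul_assoc (cond e y 1 * cond f ι 1), h1, mul_assoc _ (cond e y 1 * cond f ι 1),
    h2, ← mul_assoc, ← mul_assoc, h.e_mul, h.e_mul]

omit [Finite S] in
theorem w_eq_iff (i j k l : ℤ) (e f e' f' : Bool) :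
    a ^ i * b ^ j * (cond e y 1 * cond f ι 1) = a ^ k * b ^ l * (cond e' y 1 * cond f' ι 1) ↔
      ((4 * m : ℤ) ∣ i - k ∧ (4 * m : ℤ) ∣ j - l) ∧ e = e' ∧ f = f' := by
  by_cases h0 : e = e' ∧ f = f'
  · obtain ⟨rfl, rfl⟩ := h0
    simp [h.e_eq_iff]
  refine iff_of_false (fun h1 => ?_) fun h1 => h0 h1.2
  have h2 := congrArg (· * (a ^ (0 : ℤ) * b ^ (0 : ℤ) * (cond e' y 1 * cond f' ι 1))) h1
  simp only [h.w_mul, Bool.xor_self, cond_false, mul_one] at h2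
  refine h.not_comm ?_ ((eq_inv_mul_of_mul_eq h2).trans (by rw [h.e_inv, h.e_mul]))
  cases e <;> cases f <;> cases e' <;> cases f' <;> simp at h0 ⊢

omit [Finite S] in
theorem mem_w (g : Ω) : g ∈ S ↔ ∃ i : ℤ × ℤ × Bool × Bool,
    g = a ^ i.1 * b ^ i.2.1 * (cond i.2.2.1 y 1 * cond i.2.2.2 ι 1) := by
  simp only [h.mem_iff, Prod.exists, Bool.exists_bool, cond_true, cond_false, mul_one, one_mul]
  exact exists₂_congr fun i j => by tauto

omit [Finite S] in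
theorem exists_grpIso {G : Type*} [Group G] {U : Subgroup G} {a' b' y' ι' : G}
    (h' : GS U m a' b' y' ι') :
    ∃ t s, GrpIso S U t s ∧ t a = a' ∧ t b = b' ∧ t y = y' ∧ t ι = ι' := by
  obtain ⟨t, s, h1, h2⟩ := exists_grpIso_of_param _ _
    (fun i j : ℤ × ℤ × Bool × Bool =>
      (i.1 + cond i.2.2.2 (-1) 1 * cond i.2.2.1 j.2.1 j.1 + cond (i.2.2.1 && j.2.2.1) (2 * m : ℤ) 0,
        i.2.1 + cond i.2.2.2 (-1) 1 * cond i.2.2.1 j.1 j.2.1 +
          cond (i.2.2.1 && j.2.2.1) (-(2 * m) : ℤ) 0, xor i.2.2.1 j.2.2.1, xor i.2.2.2 j.2.2.2))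
    (h.mem_w) (h'.mem_w) (fun i j => by rw [h.w_eq_iff, h'.w_eq_iff])
    (fun i j => h.w_mul ..) (fun i j => h'.w_mul ..)
  exact ⟨t, s, h1, by simpa using h2 (1, 0, false, false), by simpa using h2 (0, 1, false, false),
    by simpa using h2 (0, 0, true, false), by simpa using h2 (0, 0, false, true)⟩

end GS

theorem GS.realizedIn [Finite S] (h : GS S m a b y ι) (hF : F.IsSaturated 2)
    (hsc : SC F (y * y) (g2 (a * b⁻¹) y)) (hρ : ∃ f, Rho F a b ι f) (hg : Gen F (y * y) a b ι)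
    (hh : F.hyperfocalSubgroup 2 = S) {G : Type*} [Group G] [Finite G] {U : Subgroup G}
    {a' b' y' ι' : G} (hM : GM U m a' b' y' ι') : RealizedIn F G := by
  obtain ⟨t, s, hi, ta, tb, ty, tι⟩ := h.exists_grpIso hM.gs
  obtain ⟨F', hF'⟩ := (groupFusionSystem U).exists_isoVia hi.symm
  have hv := hF'.symm
  -- morphisms of `F'` induced by elements of `G`
  have hmor : ∀ (g : G) (P : Subgroup Ω), P ≤ S → (∀ x ∈ P, g * t x * g⁻¹ ∈ U) →
      F'.IsMor P fun x => s (g * t x * g⁻¹) := fun g P hP hm =>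
    hv.isMor_symm hP (f' := fun x => g * x * g⁻¹) (groupFusionSystem_isMor.2 ⟨hi.img_le hP,
      fun x hx => by
        obtain ⟨x', hx', rfl⟩ := (hi.mem_img hP).1 hx
        exact hm x' hx', g, fun _ _ => rfl⟩)
  have hgen : ∀ (g : G) (x : Ω), x ∈ S → g * t x * g⁻¹ ∈ U → zpowers x ≤
      (((isHomOn_conj ⊤ g).comp hi.hom fun _ _ => trivial).preim U) := fun g x hx hm =>
    zpowers_le_of_mem ⟨hx, hm⟩
  have c := h.cp
  have c' := hM.gs.cp
  have tr : t (a * b⁻¹) = a' * b'⁻¹ := by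
    rw [hi.hom.map_mul h.a_mem (inv_mem h.b_mem), hi.hom.map_inv h.b_mem, ta, tb]
  have tζ : t (a * b) = a' * b' := by rw [hi.hom.map_mul h.a_mem h.b_mem, ta, tb]
  have tg : t (y * ι) = y' * ι' := by rw [hi.hom.map_mul h.y_mem h.ι_mem, ty, tι]
  have hbet : ∀ {r y ζ g : Ω} {r' y' ζ' g' : G}, CP S m a r y ζ g → CP U m a' r' y' ζ' g' →
      t r = r' → t y = y' → t ζ = ζ' → t g = g' → (∃ w : G, w * y' * w⁻¹ = r' ^ (m : ℤ) ∧
        w * r' ^ (m : ℤ) * w⁻¹ = y' * r' ^ (m : ℤ) ∧ w * ζ' * w⁻¹ = ζ' ∧ w * g' * w⁻¹ = g') →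
      Bet F' m r y ζ g := by
    intro r y ζ g r' y' ζ' g' c c' tr ty tζ tg ⟨w, e1, e2, e3, e4⟩
    have hr := c.R_le c.R.x_mem
    have hy := c.R_le c.R.y_mem
    have hζ := c.C_le c.C.x_mem
    have hg := c.C_le c.C.y_mem
    have tu : t (r ^ (m : ℤ)) = r' ^ (m : ℤ) := by rw [hi.hom.map_zpow hr, tr]
    have hle := sup_le (sup_le
      (hgen w _ (zpow_mem hr m) (by rw [tu, e2]; exact c'.R_le (mul_mem c'.R.y_mem (c'.R.zpow_mem _))))
      (hgen w _ hy (by rw [ty, e1]; exact c'.R_le (c'.R.zpow_mem _))))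
      (sup_le (hgen w _ hζ (by rw [tζ, e3]; exact c'.C_le c'.C.x_mem))
        (hgen w _ hg (by rw [tg, e4]; exact c'.C_le c'.C.y_mem)))
    refine ⟨_, hmor w _ (fun x hx => (hle hx).1) fun x hx => (hle hx).2, ?_, ?_, ?_, ?_⟩
    · rw [ty, e1, ← tu, hi.left _ (zpow_mem hr m)]
    · rw [tu, e2, ← tu, ← ty, ← hi.hom.map_mul hy (zpow_mem hr m),
        hi.left _ (mul_mem hy (zpow_mem hr m))]
    · rw [tζ, e3, ← tζ, hi.left _ hζ]
    · rw [tg, e4, ← tg, hi.left _ hg]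
  have hR : ∀ x ∈ S, t x ∈ g2 (a' * b'⁻¹) y' ↔ x ∈ g2 (a * b⁻¹) y := fun x hx => by
    rw [← hi.apply_mem_img_iff c.R_le hx, hi.img_sup (le_sup_left.trans c.R_le)
      (le_sup_right.trans c.R_le), hi.img_zpowers (c.R_le c.R.x_mem), hi.img_zpowers h.y_mem, tr, ty]
  have tz : t (y * y) = y' * y' := by rw [hi.hom.map_mul h.y_mem h.y_mem, ty]
  have e := h.eq_of (F' := F') hF hsc hρ hg hh (hF'.isSaturated (group_isSaturated hM.syl))
    (fun P f hf hz e x hx hxR => ?_) ?_ (hbet c c' tr ty tζ tg hM.b1)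
    (hbet c.swap c'.swap tζ tg tr ty hM.b2)
  · exact realizedIn_of_isoVia hM.syl (e ▸ hv)
  · obtain ⟨-, h1, g, h2⟩ := groupFusionSystem_isMor.1 (hv.mor P f hf)
    have h3 : ∀ x ∈ P, t (f x) = g * t x * g⁻¹ := fun x hx => by
      rw [← h2 _ (mem_img_of_mem t hx), hi.left x (hf.le hx)]
    rw [← hR _ (hf.mem hx), h3 x hx]
    refine hM.sc g (by rw [← tz, ← h3 _ hz, e]) _ ((hR x (hf.le hx)).2 hxR) ?_
    rw [← h3 x hx]; exact hi.mem _ (hf.mem hx)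
  · obtain ⟨w, e1, e2, e3⟩ := hM.rho
    have h' := hM.gs
    have hle := sup_le (sup_le
      (hgen w _ h.a_mem (by rw [ta, e1]; exact mul_mem (inv_mem h'.a_mem) h'.b_mem))
      (hgen w _ h.b_mem (by rw [tb, e2]; exact inv_mem h'.a_mem)))
      (hgen w _ h.ι_mem (by rw [tι, e3]; exact h'.ι_mem))
    refine ⟨_, hmor w _ (fun x hx => (hle hx).1) fun x hx => (hle hx).2, ?_, ?_, ?_⟩
    · rw [ta, e1, ← ta, ← tb, ← hi.hom.map_inv h.a_mem, ← hi.hom.map_mul (inv_mem h.a_mem) h.b_mem,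
        hi.left _ (mul_mem (inv_mem h.a_mem) h.b_mem)]
    · rw [tb, e2, ← ta, ← hi.hom.map_inv h.a_mem, hi.left _ (inv_mem h.a_mem)]
    · rw [tι, e3, ← tι, hi.left _ h.ι_mem]

end Cfsg.Agent.QP
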