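import Cfsg.Agent.Lib.QP.Defs

/-!
# The centralizer system of the central involution for `Q ∘ Q . 2`
-/

set_option autoImplicit false
set_option linter.unusedSectionVars false
set_option linter.unusedVariables false

namespace Cfsg.Agent.QP

open Cfsg Subgroup FusionSystem H6 H2 H8

variable {Ω : Type*} [Group Ω]

/-- `S = (R ∘ C) ⟨a⟩` with commuting generalized quaternion groups `R = ⟨r, y⟩`, `C = ⟨ζ, g⟩`. -/
structure CP (S : Subgroup Ω) (m : ℕ) (a r y ζ g : Ω) : Prop where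
  two : IsPGroup 2 S
  ev : (2 : ℤ) ∣ m
  R : MC (g2 r y) m 0 1 r y
  C : MC (g2 ζ g) m 0 1 ζ g
  com : ∀ p ∈ g2 r y, ∀ q ∈ g2 ζ g, p * q = q * p
  zz : r ^ (2 * m : ℤ) = ζ ^ (2 * m : ℤ)
  ar : a * r = r * a
  aζ : a * ζ = ζ * a
  ay : a * y * a⁻¹ = r * y
  ag : a * g * a⁻¹ = ζ * g
  mem : ∀ s, s ∈ S ↔ ∃ p ∈ g2 r y, ∃ q ∈ g2 ζ g, s = p * q ∨ s = p * q * a

theorem q8_sq {R X : Subgroup Ω} {m : ℕ} {r y : Ω} (h : MC R m 0 1 r y) {φ : Ω → Ω}
    (hφ : OddAut X φ) {i : ℤ} (hu : r ^ (m : ℤ) ∈ X) (hv : r ^ i * y ∈ X)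
    (e : φ (r ^ (m : ℤ)) = r ^ i * y) (e' : φ (r ^ i * y) ∈ gen2 r m (r ^ i * y)) :
    φ (φ (r ^ i * y)) = r ^ (m : ℤ) ∧ (φ (φ (r ^ (m : ℤ))) = r ^ i * y * r ^ (m : ℤ) ∨
      φ (φ (r ^ (m : ℤ))) = r ^ (m : ℤ) * (r ^ i * y)) := by
  have hm := h.pos
  have hvv : r ^ i * y * (r ^ i * y) = r ^ (2 * m : ℤ) := h.outer_odd_sq (by simp)
  have huu : r ^ (m : ℤ) * r ^ (m : ℤ) = r ^ (2 * m : ℤ) := by rw [← zpow_add, two_mul]
  have hz : φ (r ^ (2 * m : ℤ)) = r ^ (2 * m : ℤ) := by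
    rw [← huu, hφ.mul _ hu _ hu, e, hvv, huu]
  have hj : ∀ j : ℤ, φ (r ^ (m * j : ℤ)) = (r ^ i * y) ^ j := fun j => by
    rw [zpow_mul, hφ.map_zpow hu, e]
  have hsq : φ (r ^ i * y) * φ (r ^ i * y) = r ^ (2 * m : ℤ) := by
    rw [← hφ.mul _ hv _ hv, hvv, hz]
  obtain ⟨j, hj'⟩ := (h.mem_gen2 (d := m) (Dvd.intro_left 2 rfl) i).1 e'
  have hvu : r ^ i * y * r ^ (m : ℤ) = r ^ (i - m) * y := by
    rw [h.outer_mul_zpow]; congr 2; ring
  rcases hj' with hj' | hj'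
  · exfalso
    rw [hj', ← zpow_add, h.zpow_eq_iff] at hsq
    obtain ⟨t, ht⟩ := hsq
    have hjo : j = 2 * t + 1 := by
      have : (m : ℤ) * (2 * j - 2 - 4 * t) = 0 := by linarith
      rcases mul_eq_zero.1 this with h0 | h0 <;> omega
    -- `φ²` maps `u` to `u^j`
    have h2 : ∀ k : ℕ, ∃ l : ℤ, φ^[2 * k] (r ^ (m : ℤ)) = r ^ (m * l : ℤ) := by
      intro k
      induction k with
      | zero => exact ⟨1, by simp⟩
      | succ k ih =>
        obtain ⟨l, hl⟩ := ih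
        refine ⟨j * l, ?_⟩
        rw [show 2 * (k + 1) = (2 * k + 1) + 1 by ring, Function.iterate_succ_apply',
          Function.iterate_succ_apply', hl, hj, hφ.map_zpow hv, hj', ← zpow_mul, mul_assoc]
    obtain ⟨n, ⟨k, rfl⟩, hk⟩ := hφ.odd
    obtain ⟨l, hl⟩ := h2 k
    have h3 := (Function.iterate_succ_apply' φ (2 * k) _).symm.trans (hk _ hu)
    rw [hl, hj] at h3
    have h4 := h.outer_conj_c i
    rw [← h3] at h4
    have h5 : (r ^ i * y) ^ l = ((r ^ i * y) ^ l)⁻¹ := by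
      rw [← h4, (Commute.self_zpow _ l).eq, mul_inv_cancel_right]
    rw [h3, eq_inv_iff_mul_eq_one, huu] at h5
    exact h.z_ne_one h5
  · have hodd : Odd j := by
      rw [← Int.not_even_iff_odd]
      rintro ⟨t, rfl⟩
      have h1 : φ (r ^ i * y) = φ (r ^ (m * (t + t) : ℤ) * r ^ (m : ℤ)) := by
        rw [hφ.mul _ (by rw [zpow_mul]; exact zpow_mem hu _) _ hu, e, hj, hj', ← two_mul t,
          zpow_mul (r ^ i * y), zpow_two, hvv, ← zpow_mul, zpow_add, mul_assoc]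
        congr 2; ring
      have := hφ.inj hv (mul_mem (by rw [zpow_mul]; exact zpow_mem hu _) hu) h1
      rw [← zpow_add] at this
      exact h.outer_ne _ _ this
    obtain ⟨t, rfl⟩ := hodd
    have hw : φ (r ^ i * y) = r ^ (m * (2 * t + 1) : ℤ) * (r ^ i * y) := by
      rw [hj', zpow_add r _ i, mul_assoc]
    refine ⟨?_, ?_⟩
    · rw [hw, hφ.mul _ (by rw [zpow_mul]; exact zpow_mem hu _) _ hv, hj, hj', zpow_add_one,
        zpow_mul (r ^ i * y), zpow_two, hvv, ← zpow_mul, mul_assoc, h.outer_mul_outer, ← zpow_add]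
      exact h.zpow_eq 0 (by ring)
    · rw [e, hj', hvu, ← mul_assoc, ← zpow_add]
      rcases Int.even_or_odd' t with ⟨s, rfl | rfl⟩
      · right; congr 1; exact h.zpow_eq s (by ring)
      · left; congr 1; exact h.zpow_eq (s + 1) (by ring)

namespace CP

variable {S : Subgroup Ω} {m : ℕ} {a r y ζ g : Ω} (h : CP S m a r y ζ g)
include h

theorem swap : CP S m a ζ g r y where
  two := h.two
  ev := h.ev
  R := h.C
  C := h.R
  com p hp q hq := (h.com q hq p hp).symm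
  zz := h.zz.symm
  ar := h.aζ
  aζ := h.ar
  ay := h.ag
  ag := h.ay
  mem s := (h.mem s).trans ⟨fun ⟨p, hp, q, hq, e⟩ => ⟨q, hq, p, hp, h.com p hp q hq ▸ e⟩,
    fun ⟨p, hp, q, hq, e⟩ => ⟨q, hq, p, hp, (h.com q hq p hp).symm ▸ e⟩⟩

theorem hb : (2 : ℤ) ∣ m * 1 := by simpa using h.ev

theorem R_le : g2 r y ≤ S := fun p hp =>
  (h.mem p).2 ⟨p, hp, 1, one_mem _, Or.inl (mul_one p).symm⟩

theorem C_le : g2 ζ g ≤ S := h.swap.R_le

theorem a_mem : a ∈ S := (h.mem a).2 ⟨1, one_mem _, 1, one_mem _, Or.inr (by simp)⟩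

theorem yy : y * y = r ^ (2 * m : ℤ) := by rw [h.R.sq, mul_one]

theorem gg : g * g = y * y := by rw [h.yy, h.zz, h.C.sq, mul_one]

theorem a_r (j i : ℤ) : a ^ j * r ^ i * (a ^ j)⁻¹ = r ^ i := by
  rw [(Commute.zpow_zpow h.ar j i).eq, mul_inv_cancel_right]

theorem a_y (j : ℤ) : a ^ j * y * (a ^ j)⁻¹ = r ^ j * y := by
  have e : y * a⁻¹ * y⁻¹ = a⁻¹ * r := by
    rw [mul_inv_eq_iff_eq_mul, mul_assoc, ← h.ay]; group
  have : y * (a ^ j)⁻¹ * y⁻¹ = (a ^ j)⁻¹ * r ^ j := by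
    rw [← inv_zpow, ← conj_zpow, e, (Commute.inv_left h.ar).mul_zpow]
  rw [mul_assoc, mul_inv_eq_iff_eq_mul.1 this]; group

theorem a_outer (j i : ℤ) : a ^ j * (r ^ i * y) * (a ^ j)⁻¹ = r ^ (i + j) * y := by
  rw [show a ^ j * (r ^ i * y) * (a ^ j)⁻¹ = a ^ j * r ^ i * (a ^ j)⁻¹ * (a ^ j * y * (a ^ j)⁻¹) by
    group, h.a_r, h.a_y, zpow_add, mul_assoc]

theorem a_conj_R (j : ℤ) {p : Ω} (hp : p ∈ g2 r y) : a ^ j * p * (a ^ j)⁻¹ ∈ g2 r y := by
  obtain ⟨i, rfl | rfl⟩ := (h.R.mem_iff p).1 hp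
  · rw [h.a_r]; exact hp
  · rw [h.a_outer]; exact h.R.outer_mem _

theorem conj_R {s p : Ω} (hs : s ∈ S) (hp : p ∈ g2 r y) : s * p * s⁻¹ ∈ g2 r y := by
  have key : ∀ p' ∈ g2 r y, ∀ q ∈ g2 ζ g, ∀ w ∈ g2 r y, p' * q * w * (p' * q)⁻¹ ∈ g2 r y := by
    intro p' hp' q hq w hw
    rw [mul_assoc p', ← h.com w hw q hq, show p' * (w * q) * (p' * q)⁻¹ = p' * w * p'⁻¹ by group]
    exact mul_mem (mul_mem hp' hw) (inv_mem hp')
  obtain ⟨p', hp', q, hq, rfl | rfl⟩ := (h.mem s).1 hs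
  · exact key p' hp' q hq p hp
  · have := key p' hp' q hq _ (h.a_conj_R 1 hp)
    rw [zpow_one] at this
    rwa [show p' * q * a * p * (p' * q * a)⁻¹ = p' * q * (a * p * a⁻¹) * (p' * q)⁻¹ by group]

theorem le_norm_R : S ≤ normalizer (g2 r y : Set Ω) := fun s hs =>
  FusionSystem.mem_normalizer_of_conj (fun p hp => h.conj_R hs hp) fun p hp => by
    simpa using h.conj_R (inv_mem hs) hp

theorem conj_r {s : Ω} (hs : s ∈ S) : (∀ j : ℤ, s * r ^ j * s⁻¹ = r ^ j) ∨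
    ∀ j : ℤ, s * r ^ j * s⁻¹ = r ^ (-j) := by
  have key : ∀ p ∈ g2 r y, ∀ q ∈ g2 ζ g, (∀ j : ℤ, p * q * r ^ j * (p * q)⁻¹ = r ^ j) ∨
      ∀ j : ℤ, p * q * r ^ j * (p * q)⁻¹ = r ^ (-j) := by
    intro p hp q hq
    have e : ∀ j : ℤ, p * q * r ^ j * (p * q)⁻¹ = p * r ^ j * p⁻¹ := fun j => by
      rw [mul_assoc p, ← h.com _ (h.R.zpow_mem j) q hq]; group
    simp only [e]
    obtain ⟨i, rfl | rfl⟩ := (h.R.mem_iff p).1 hp
    · left; intro j; group
    · right; intro j; rw [h.R.outer_conj]; congr 1; ring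
  obtain ⟨p, hp, q, hq, rfl | rfl⟩ := (h.mem s).1 hs
  · exact key p hp q hq
  · have e : ∀ j : ℤ, p * q * a * r ^ j * (p * q * a)⁻¹ = p * q * r ^ j * (p * q)⁻¹ := fun j => by
      have := h.a_r 1 j
      rw [zpow_one] at this
      rw [show p * q * a * r ^ j * (p * q * a)⁻¹ = p * q * (a * r ^ j * a⁻¹) * (p * q)⁻¹ by group,
        this]
    simp only [e]
    exact key p hp q hq

theorem z_central {s : Ω} (hs : s ∈ S) : s * (y * y) * s⁻¹ = y * y := by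
  rw [h.yy]
  rcases h.conj_r hs with e | e <;> rw [e]
  exact h.R.zpow_eq (-1) (by ring)

theorem z_mem_C : r ^ (2 * m : ℤ) ∈ g2 ζ g := h.zz ▸ h.C.zpow_mem _

theorem inf {p : Ω} (hp : p ∈ g2 r y) (hq : p ∈ g2 ζ g) : p ∈ zpowers (r ^ (2 * m : ℤ)) :=
  h.R.mem_zpowers_z hp fun s hs => h.com s hs p hq

theorem cent {s : Ω} (hs : s ∈ S) {i : ℤ} (hu : r ^ (m : ℤ) * s = s * r ^ (m : ℤ))
    (hv : r ^ i * y * s = s * (r ^ i * y)) : s ∈ g2 ζ g := by
  have cancel : ∀ w ∈ g2 r y, ∀ p ∈ g2 r y, ∀ q ∈ g2 ζ g, w * (p * q) = p * q * w →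
      w * p = p * w := fun w hw p hp q hq e => by
    rw [mul_assoc p, ← h.com w hw q hq, ← mul_assoc, ← mul_assoc] at e
    exact mul_right_cancel e
  obtain ⟨p, hp, q, hq, rfl | rfl⟩ := (h.mem s).1 hs
  · have h1 := cancel _ (h.R.zpow_mem _) p hp q hq hu
    have h2 := cancel _ (h.R.outer_mem _) p hp q hq hv
    have : p ∈ centralizerIn (g2 r y) (gen2 r m (r ^ i * y)) := by
      refine ⟨hp, ?_⟩
      change p ∈ centralizer _
      rw [mem_centralizer_iff]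
      intro w hw
      exact mem_centralizer_singleton_iff.1 ((sup_le (zpowers_le_of_mem
        (mem_centralizer_singleton_iff.2 h1)) (zpowers_le_of_mem
          (mem_centralizer_singleton_iff.2 h2)) : gen2 r m (r ^ i * y) ≤ centralizer {p}) hw)
    exact mul_mem (zpowers_le_of_mem h.z_mem_C (h.R.centralizer_gen2_le (dvd_refl _) i this)) hq
  · exfalso
    have h1 : r ^ (m : ℤ) * p = p * r ^ (m : ℤ) := by
      refine cancel _ (h.R.zpow_mem _) p hp q hq ?_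
      rw [mul_assoc (p * q), (Commute.zpow_right h.ar m).eq, ← mul_assoc _ (p * q),
        ← mul_assoc (p * q)] at hu
      exact mul_right_cancel hu
    have h2 : r ^ i * y * p = p * (r ^ (i + 1) * y) := by
      have e := h.a_outer 1 i
      rw [zpow_one, mul_inv_eq_iff_eq_mul] at e
      rw [mul_assoc (p * q), e, ← mul_assoc _ (p * q), ← mul_assoc (p * q), mul_left_inj, mul_assoc p,
        ← h.com _ (h.R.outer_mem _) q hq, ← mul_assoc, ← mul_assoc p, mul_left_inj] at hv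
      exact hv
    have hm := h.R.pos
    obtain ⟨j, rfl | rfl⟩ := (h.R.mem_iff p).1 hp
    · rw [h.R.outer_mul_zpow, ← mul_assoc, ← zpow_add, mul_left_inj, h.R.zpow_eq_iff] at h2
      obtain ⟨t, ht⟩ := h2
      have : (2 : ℤ) ∣ 1 := ⟨-j - 2 * m * t, by linarith⟩
      omega
    · obtain ⟨t, ht⟩ := (h.R.commute_outer_iff j m).1 h1.symm
      have : (m : ℤ) * (2 * t - 1) = 0 := by linarith
      rcases mul_eq_zero.1 this with h0 | h0 <;> omega

theorem cent_R {s : Ω} (hs : s ∈ S) (hc : ∀ p ∈ g2 r y, p * s = s * p) : s ∈ g2 ζ g :=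
  h.cent hs (i := 0) (hc _ (h.R.zpow_mem _)) (hc _ (h.R.outer_mem _))

theorem mcP_eq (i : ℤ) : mcP m 0 1 r y i = gen2 r m (r ^ i * y) := by
  rw [mcP, mcD_odd (by simp)]

theorem odd_R {φ : Ω → Ω} (hφ : OddAut (g2 r y) φ) : ∀ p ∈ g2 r y, φ p = p := by
  by_contra hc
  push Not at hc
  obtain ⟨i, hi, -⟩ := h.R.oddAut_cases le_rfl hφ hc
  exact h.R.P_ne h.hb i hi.symm

/-- The structure of odd order automorphisms acting trivially modulo `R`. -/
theorem cp {P : Subgroup Ω} (hP : P ≤ S) {φ : Ω → Ω} (hφ : OddAut P φ)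
    (hmod : ∀ x ∈ P, x⁻¹ * φ x ∈ g2 r y) (hne : ∃ x ∈ P, φ x ≠ x) :
    ∃ i : ℤ, gen2 r m (r ^ i * y) ≤ P ∧ φ (r ^ (m : ℤ)) = r ^ i * y ∧
      (∀ w ∈ gen2 r m (r ^ i * y), φ w ∈ gen2 r m (r ^ i * y)) ∧
      (∀ q ∈ P, q ∈ g2 ζ g → φ q = q) ∧
      ∀ x ∈ P, ∃ w ∈ gen2 r m (r ^ i * y), ∃ q ∈ g2 ζ g, x = w * q := by
  have hm : ∀ x ∈ P ⊓ g2 r y, φ x ∈ P ⊓ g2 r y := fun x hx =>
    ⟨hφ.mem x hx.1, by simpa using mul_mem hx.2 (hmod x hx.1)⟩
  have hφ' := hφ.mono inf_le_left hm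
  obtain ⟨i, hi, e⟩ := h.R.oddAut_cases inf_le_right hφ' (by
    by_contra hc
    push Not at hc
    obtain ⟨x, hx, hne⟩ := hne
    exact hne (hφ.fix_of_step' (h.two.to_le hP) inf_le_left hc hx
      ⟨P.mul_mem (P.inv_mem hx) (hφ.mem x hx), hmod x hx⟩))
  rw [h.mcP_eq] at hi
  rw [mcD_odd (by simp)] at e
  have hQP : gen2 r m (r ^ i * y) ≤ P := hi ▸ inf_le_left
  have hu : r ^ (m : ℤ) ∈ gen2 r m (r ^ i * y) := mem_sup_left (mem_zpowers _)
  have hv : r ^ i * y ∈ gen2 r m (r ^ i * y) := mem_sup_right (mem_zpowers _)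
  have hvv : r ^ i * y * (r ^ i * y) = r ^ (2 * m : ℤ) := h.R.outer_odd_sq (by simp)
  have huu : r ^ (m : ℤ) * r ^ (m : ℤ) = r ^ (2 * m : ℤ) := by rw [← zpow_add, two_mul]
  have hz : φ (r ^ (2 * m : ℤ)) = r ^ (2 * m : ℤ) := by
    rw [← huu, hφ.mul _ (hQP hu) _ (hQP hu), e, hvv, huu]
  refine ⟨i, hQP, e, fun w hw => hi ▸ hm w (hi ▸ hw), fun q hq hqC => ?_, fun x hx => ?_⟩
  · have h1 : φ q ∈ g2 ζ g := by
      obtain ⟨w, hw, e'⟩ := hφ'.exists_eq (hi ▸ hu)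
      refine h.cent (hP (hφ.mem q hq)) (i := i) ?_ ?_
      · rw [← e', ← hφ.mul _ hw.1 _ hq, ← hφ.mul _ hq _ hw.1, h.com w hw.2 q hqC]
      · rw [← e, ← hφ.mul _ (hQP hu) _ hq, ← hφ.mul _ hq _ (hQP hu), h.com _ (h.R.zpow_mem _) q hqC]
    have hzP : zpowers (r ^ (2 * m : ℤ)) ≤ P := zpowers_le_of_mem (huu ▸ hQP (mul_mem hu hu))
    exact hφ.fix_of_step' (h.two.to_le hP) hzP (fix_zpowers hφ.isHomOn (hzP (mem_zpowers _)) hz) hq
      (h.inf (hmod q hq) (mul_mem (inv_mem hqC) h1))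
  · have h1 : x * r ^ (m : ℤ) * x⁻¹ = r ^ (m : ℤ) ∨ x * r ^ (m : ℤ) * x⁻¹ = (r ^ (m : ℤ))⁻¹ := by
      rcases h.conj_r (hP hx) with e' | e' <;> rw [e']
      exacts [Or.inl rfl, Or.inr (zpow_neg _ _)]
    have h2 : x * (r ^ i * y) * x⁻¹ = r ^ i * y ∨ x * (r ^ i * y) * x⁻¹ = (r ^ i * y)⁻¹ := by
      obtain ⟨x', hx', rfl⟩ := hφ.exists_eq hx
      rw [← e, ← hφ.isHomOn.map_conj hx' (hQP hu), ← hφ.map_inv (hQP hu)]
      rcases h.conj_r (hP hx') with e' | e' <;> rw [e']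
      exacts [Or.inl rfl, Or.inr (by rw [zpow_neg])]
    have h3 := h.R.outer_conj_c i
    have hc := fun s hs => h.cent (s := s) hs (i := i)
    have hzc := h.R.z_comm (h.R.zpow_mem m)
    generalize gen2 r m (r ^ i * y) = Q at *
    generalize r ^ (m : ℤ) = u at *
    generalize r ^ i * y = v at *
    have h4 : u * v * u⁻¹ = v⁻¹ := by
      rw [eq_inv_iff_mul_eq_one, ← h3, show u * v * (v * u * v⁻¹) * v = u * (v * v) * u by group,
        hvv, hzc, mul_assoc, huu, h.R.z_mul_self]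
    have key : ∀ w ∈ Q, x * u * x⁻¹ = w * u * w⁻¹ → x * v * x⁻¹ = w * v * w⁻¹ →
        ∃ w ∈ Q, ∃ q ∈ g2 ζ g, x = w * q := fun w hw e1 e2 =>
      ⟨w, hw, w⁻¹ * x, hc _ (S.mul_mem (S.inv_mem (hP (hQP hw))) (hP hx))
        (by calc u * (w⁻¹ * x) = w⁻¹ * (w * u * w⁻¹) * x := by group
              _ = _ := by rw [← e1]; group)
        (by calc v * (w⁻¹ * x) = w⁻¹ * (w * v * w⁻¹) * x := by group
              _ = _ := by rw [← e2]; group), by group⟩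
    rcases h1 with e1 | e1 <;> rcases h2 with e2 | e2
    · exact key 1 (one_mem _) (by rw [e1]; group) (by rw [e2]; group)
    · exact key u hu (by rw [e1]; group) (by rw [e2, h4])
    · exact key v hv (by rw [e1, h3]) (by rw [e2]; group)
    · refine key (u * v) (mul_mem hu hv) ?_ ?_
      · rw [e1, show u * v * u * (u * v)⁻¹ = u * (v * u * v⁻¹) * u⁻¹ by group, h3]; group
      · rw [e2, ← h4]; group

variable [Finite S] {F : FusionSystem S}

theorem exists_cent (hF : F.IsSaturated 2) (hsc : SC F (y * y) (g2 r y)) :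
    ∃ E : FusionSystem S, E.IsSaturated 2 ∧ E.IsSubsystemOf F ∧ E.StronglyClosed (g2 r y) ∧
      ∀ P f, F.IsMor P f → y * y ∈ P → f (y * y) = y * y → E.IsMor P f := by
  have hzS : y * y ∈ S := h.R_le (mul_mem h.R.y_mem h.R.y_mem)
  have hZ : zpowers (y * y) ≤ S := zpowers_le_of_mem hzS
  have hZc : S ≤ centralizer (zpowers (y * y) : Set Ω) := fun s hs =>
    FusionSystem.mem_centralizer_of_conj_eq fun _ ⟨n, hn⟩ => by
      rw [← hn, ← conj_zpow, h.z_central hs]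
  obtain ⟨E, hE⟩ := F.exists_isKNormSys_bot hZ hZc
  have hEs : E.IsSaturated 2 := hE.isSaturated hF h.two
    (hF.isFullyKNormalized_of_fc h.two (F.isFullyCentralized_of_le_centralizer hZ hZc) bot_le)
  have hEF := hE.isSubsystemOf
  have hT : E.StronglyClosed (g2 r y) := stronglyClosed_iff.2 ⟨h.R_le, fun P f hf x hx hxR => by
    obtain ⟨f', hf', e1, e2⟩ := hE.bot_exists_ext hf
    rw [← e1 x hx]
    exact hsc _ f' hf' (mem_sup_right (mem_zpowers _)) (e2 _ (mem_zpowers _)) x (mem_sup_left hx)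
      hxR⟩
  exact ⟨E, hEs, hEF, hT, fun P f hf hz e => hE.bot_isMor_of_fixed hf (zpowers_le_of_mem hz) le_rfl
    hf.le (fix_zpowers hf.isHomOn hz e)⟩

/-- Alperin's theorem for the centralizer system of `z`. -/
theorem cz (hF : F.IsSaturated 2) (hsc : SC F (y * y) (g2 r y))
    {M : Subgroup Ω → (Ω → Ω) → Prop} (hM : Closed F M)
    (hconj : ∀ s ∈ S, M S fun x => s * x * s⁻¹)
    (H1 : ∀ P, P ≤ S → ∀ α ∈ F.autGroup P, Odd (orderOf α) → α ≠ 1 →
      (∀ x ∈ P, x⁻¹ * equivFun α x ∈ g2 r y) → M P (equivFun α))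
    (H2 : ∀ P, P ≤ S → ∀ α ∈ F.autGroup P, Odd (orderOf α) → α ≠ 1 →
      (∀ x ∈ P, x⁻¹ * equivFun α x ∈ g2 ζ g) → M P (equivFun α)) :
    ∀ P f, F.IsMor P f → y * y ∈ P → f (y * y) = y * y → M P f := by
  obtain ⟨E, hEs, hEF, hT, hEm⟩ := h.exists_cent hF hsc
  have hM' : Closed E M :=
    ⟨hM.congr, fun h1 => hM.mono (hEF.isMor h1), fun h1 h2 => hM.comp (hEF.isMor h1) (hEF.isMor h2),
      fun h1 h2 => hM.inv (hEF.isIso h1) (hEF.isIso h2)⟩
  have hid : ∀ P, P ≤ S → M P (equivFun (1 : MulAut P)) := fun P hP =>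
    hM.congr (hM.mono (F.isMor_conj le_rfl (one_mem S)) (hconj 1 (one_mem S)) hP) fun x hx => by
      rw [equivFun_one hx]; simp
  have G2 : ∀ P, P ≤ S → g2 r y ≤ P → ∀ α ∈ E.autGroup P, (orderOf α).Coprime 2 →
      (∀ x ∈ g2 r y, equivFun α x = x) → M P (equivFun α) := by
    intro P hP hRP α hα ho hfix
    by_cases e : α = 1
    · exact e ▸ hid P hP
    refine H2 P hP α (hEF.autGroup_le P hα) (Nat.coprime_two_right.1 ho) e fun x hx =>
      h.cent_R (mul_mem (inv_mem (hP hx)) (hP (equivFun_mem α hx))) fun p hp => ?_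
    have h1 := hfix _ (h.conj_R (hP hx) hp)
    rw [(isHomOn_equivFun α).map_conj hx (hRP hp), hfix p hp] at h1
    calc p * (x⁻¹ * equivFun α x) = x⁻¹ * (x * p * x⁻¹) * equivFun α x := by group
      _ = _ := by rw [← h1]; group
  have key := alperin_p' hEs h.two hM' hconj fun P hP _ _ hab α hα ho => by
    have hst : E.autGroup P ≤ stabAut P (g2 r y) := fun β hβ x hx =>
      hT.map_mem_iff (isMor_of_mem_autGroup hP.le hβ) hx
    by_cases hRP : g2 r y ≤ P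
    · by_cases hCP : g2 ζ g ≤ P
      · exact G2 P hP.le hRP α hα ho (h.odd_R ((oddAut_equivFun (Nat.coprime_two_right.1 ho)).mono
          hRP fun x hx => (hst hα x (hRP hx)).2 hx))
      · obtain ⟨t, ht, htN, htP⟩ := exists_mem_normalizer_of_not_le' h.two hP.le h.C_le
          (hP.le.trans h.swap.le_norm_R) hCP
        exact hab.frattini hM' (hEs.isFullyAutomized h.two hP) (hEs.isReceptive h.two hP)
          (hst.trans stabAut_le_normalizer_fixAut) (h.C_le ht) htN htP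
          (fun x hx hxR => by
            rw [equivFun_conjAut htN hx, ← h.com x hxR t ht, mul_inv_cancel_right])
          (fun β hβ hA ho => G2 P hP.le hRP β hβ ho fun x hx => hA x (hRP hx) hx) α hα
    · obtain ⟨t, ht, htN, htP⟩ := exists_mem_normalizer_of_not_le' h.two hP.le h.R_le
        (hP.le.trans h.le_norm_R) hRP
      refine hab.frattini hM' (hEs.isFullyAutomized h.two hP) (hEs.isReceptive h.two hP)
        (hst.trans stabAut_le_normalizer_modAut) (h.R_le ht) htN htP (fun x hx => ?_)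
        (fun β hβ hA ho => ?_) α hα
      · rw [equivFun_conjAut htN hx]
        have := mul_mem (h.conj_R (inv_mem (hP.le hx)) ht) (inv_mem ht)
        simpa [mul_assoc] using this
      · by_cases e : β = 1
        · exact e ▸ hid P hP.le
        · exact H1 P hP.le β (hEF.autGroup_le P hβ) (Nat.coprime_two_right.1 ho) e hA
  exact fun P f hf hz e => key P f (hEm P f hf hz e)

/-- The automorphism of `Bet`, conjugated by `a ^ i`. -/
def BetI (F : FusionSystem S) (m : ℕ) (r y ζ g : Ω) (i : ℤ) : Prop :=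
  ∃ f, F.IsMor (gen2 r m (r ^ i * y) ⊔ g2 ζ g) f ∧ f (r ^ i * y) = r ^ (m : ℤ) ∧
    f (r ^ (m : ℤ)) = r ^ i * y * r ^ (m : ℤ) ∧ ∀ q ∈ g2 ζ g, f q = q

theorem betI_zero : BetI F m r y ζ g 0 ↔ Bet F m r y ζ g := by
  simp only [BetI, Bet, zpow_zero, one_mul]
  refine exists_congr fun f => and_congr_right fun hf => and_congr_right fun _ =>
    and_congr_right fun _ => ⟨fun h' => ⟨h' _ h.C.x_mem, h' _ h.C.y_mem⟩, fun ⟨e3, e4⟩ => ?_⟩
  exact (hf.isHomOn.mono le_sup_right).eqOn_sup (isHomOn_id _)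
    (fix_zpowers hf.isHomOn (mem_sup_right h.C.x_mem) e3)
    (fix_zpowers hf.isHomOn (mem_sup_right h.C.y_mem) e4)

theorem betI_shift {j : ℤ} (hB : BetI F m r y ζ g j) (i : ℤ) : BetI F m r y ζ g i := by
  obtain ⟨f, hf, e1, e2, hC⟩ := hB
  have ha : a ^ (i - j) ∈ S := zpow_mem h.a_mem _
  have c1 : a ^ (j - i) * r ^ (m : ℤ) * (a ^ (j - i))⁻¹ = r ^ (m : ℤ) := h.a_r _ _
  have c2 : a ^ (j - i) * (r ^ i * y) * (a ^ (j - i))⁻¹ = r ^ j * y := by rw [h.a_outer]; simp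
  have hle : gen2 r m (r ^ i * y) ⊔ g2 ζ g ≤ S := sup_le ((h.R.gen2_le _ _).trans h.R_le) h.C_le
  have h1 := F.isMor_conj hle (zpow_mem h.a_mem (j - i))
  have h2 : ∀ x ∈ gen2 r m (r ^ i * y) ⊔ g2 ζ g,
      a ^ (j - i) * x * (a ^ (j - i))⁻¹ ∈ gen2 r m (r ^ j * y) ⊔ g2 ζ g := by
    refine h1.isHomOn.mapsTo_sup ((h1.isHomOn.mono le_sup_left).mapsTo_sup ?_ ?_)
      fun q hq => mem_sup_right (h.swap.a_conj_R _ hq)
    · rintro _ ⟨n, rfl⟩
      simp only [← conj_zpow, c1]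
      exact mem_sup_left (mem_sup_left (zpow_mem_zpowers _ _))
    · rintro _ ⟨n, rfl⟩
      simp only [← conj_zpow, c2]
      exact mem_sup_left (mem_sup_right (zpow_mem_zpowers _ _))
  refine ⟨_, (F.isMor_conj le_rfl ha).comp' (hf.comp' h1 h2) fun x hx => hf.mem (h2 x hx), ?_, ?_,
    fun q hq => ?_⟩
  · rw [c2, e1, h.a_r]
  · rw [c1, e2, show a ^ (i - j) * (r ^ j * y * r ^ (m : ℤ)) * (a ^ (i - j))⁻¹ =
      a ^ (i - j) * (r ^ j * y) * (a ^ (i - j))⁻¹ * (a ^ (i - j) * r ^ (m : ℤ) * (a ^ (i - j))⁻¹) by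
        group, h.a_outer, h.a_r]
    simp
  · rw [hC _ (h.swap.a_conj_R _ hq)]; group

theorem mor_of_bet (hB : Bet F m r y ζ g) {P : Subgroup Ω} (hP : P ≤ S) {α : MulAut P}
    (ho : Odd (orderOf α)) (hne : α ≠ 1) (hmod : ∀ x ∈ P, x⁻¹ * equivFun α x ∈ g2 r y) :
    F.IsMor P (equivFun α) := by
  have hφ := oddAut_equivFun ho
  obtain ⟨i, hQP, e, hQ, hfix, hdec⟩ := h.cp hP hφ hmod (exists_ne_of_ne_one hne)
  have hu : r ^ (m : ℤ) ∈ gen2 r m (r ^ i * y) := mem_sup_left (mem_zpowers _)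
  have hv : r ^ i * y ∈ gen2 r m (r ^ i * y) := mem_sup_right (mem_zpowers _)
  obtain ⟨e1, e2⟩ := q8_sq h.R hφ (hQP hu) (hQP hv) e (hQ _ hv)
  obtain ⟨f, hf, f1, f2, f3⟩ := h.betI_shift (h.betI_zero.2 hB) i
  have key : ∀ f', F.IsMor (gen2 r m (r ^ i * y) ⊔ g2 ζ g) f' → f' (r ^ i * y) = r ^ (m : ℤ) →
      f' (r ^ (m : ℤ)) = equivFun α (equivFun α (r ^ (m : ℤ))) → (∀ q ∈ g2 ζ g, f' q = q) →
      F.IsMor P (equivFun α) := by
    intro f' hf' g1 g2' g3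
    have hle : P ≤ gen2 r m (r ^ i * y) ⊔ g2 ζ g := fun x hx => by
      obtain ⟨w, hw, q, hq, rfl⟩ := hdec x hx
      exact mul_mem (mem_sup_left hw) (mem_sup_right hq)
    have hQ' : ∀ w ∈ gen2 r m (r ^ i * y), f' w = equivFun (α * α) w := by
      refine (hf'.isHomOn.mono le_sup_left).eqOn_sup ((isHomOn_equivFun _).mono hQP) ?_ ?_
      · rintro _ ⟨n, rfl⟩
        simp only
        rw [hf'.map_zpow (mem_sup_left hu), (isHomOn_equivFun _).map_zpow (hQP hu), g2',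
          equivFun_mul _ _ (hQP hu)]
      · rintro _ ⟨n, rfl⟩
        simp only
        rw [hf'.map_zpow (mem_sup_left hv), (isHomOn_equivFun _).map_zpow (hQP hv), g1,
          equivFun_mul _ _ (hQP hv), e1]
    have h1 : F.IsMor P (equivFun (α * α)) := (hf'.mono hle).congr fun x hx => by
      obtain ⟨w, hw, q, hq, rfl⟩ := hdec x hx
      have hqP : q ∈ P := (P.mul_mem_cancel_left (hQP hw)).1 hx
      rw [hf'.map_mul (mem_sup_left hw) (mem_sup_right hq), hQ' w hw, g3 q hq,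
        (isHomOn_equivFun _).map_mul (hQP hw) hqP, equivFun_mul _ _ hqP, hfix q hqP hq,
        hfix q hqP hq]
    have h2 : α * α ∈ F.autGroup P := (mem_autGroup_iff hP).2 h1.isIso_equivFun
    have h3 : α ∈ zpowers (α ^ 2) := mem_zpowers_pow_iff.2 (Nat.coprime_two_left.2 ho)
    exact isMor_of_mem_autGroup hP (zpowers_le_of_mem (pow_two α ▸ h2) h3)
  rcases e2 with e2 | e2
  · exact key f hf f1 (f2.trans e2.symm) f3
  · refine key _ ((F.isMor_conj le_rfl (h.R_le (h.R.zpow_mem m))).comp' hf fun x hx => hf.mem hx)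
      (by rw [f1]; group) (by rw [f2, e2]; group) fun q hq => ?_
    rw [f3 q hq, h.com _ (h.R.zpow_mem m) q hq, mul_inv_cancel_right]

theorem bet_of (hF : F.IsSaturated 2) (hsc : SC F (y * y) (g2 r y)) {P : Subgroup Ω} (hP : P ≤ S)
    {α : MulAut P} (hα : α ∈ F.autGroup P) (ho : Odd (orderOf α)) (hne : α ≠ 1)
    (hmod : ∀ x ∈ P, x⁻¹ * equivFun α x ∈ g2 r y) : Bet F m r y ζ g := by
  have hφ := oddAut_equivFun ho
  obtain ⟨i, hQP, e, hQ, -, -⟩ := h.cp hP hφ hmod (exists_ne_of_ne_one hne)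
  have hu : r ^ (m : ℤ) ∈ gen2 r m (r ^ i * y) := mem_sup_left (mem_zpowers _)
  have hv : r ^ i * y ∈ gen2 r m (r ^ i * y) := mem_sup_right (mem_zpowers _)
  obtain ⟨e1, e2⟩ := q8_sq h.R hφ (hQP hu) (hQP hv) e (hQ _ hv)
  obtain ⟨E, hEs, hEF, hT, hEm⟩ := h.exists_cent hF hsc
  have hvv : r ^ i * y * (r ^ i * y) = y * y := (h.R.outer_odd_sq (by simp)).trans h.yy.symm
  have huu : r ^ (m : ℤ) * r ^ (m : ℤ) = y * y := by rw [← zpow_add, h.yy, two_mul]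
  have hQR : gen2 r m (r ^ i * y) ≤ g2 r y := h.R.gen2_le _ _
  have hcent : ∀ j : ℤ, centralizerIn S (gen2 r m (r ^ j * y)) = g2 ζ g := fun j =>
    le_antisymm (fun s hs => h.cent hs.1 (i := j)
      ((mem_centralizerIn'.1 hs).2 _ (mem_sup_left (mem_zpowers _)))
      ((mem_centralizerIn'.1 hs).2 _ (mem_sup_right (mem_zpowers _))))
      fun q hq => mem_centralizerIn'.2 ⟨h.C_le hq, fun w hw => h.com w (h.R.gen2_le _ _ hw) q hq⟩
  have hi : E.IsIso (gen2 r m (r ^ i * y)) (gen2 r m (r ^ i * y)) (equivFun α) :=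
    (hEm _ _ ((isMor_of_mem_autGroup hP hα).mono hQP) (huu ▸ mul_mem hu hu)
      (by rw [← huu, hφ.mul _ (hQP hu) _ (hQP hu), e, hvv, huu])).isIso_self hQ
  have hpow : ∀ {X : Subgroup Ω} (hX : gen2 r m (r ^ i * y) ≤ X) (γ : MulAut X),
      (∀ x ∈ gen2 r m (r ^ i * y), equivFun γ x = equivFun α x) → ∀ k : ℕ,
      ∀ x ∈ gen2 r m (r ^ i * y), equivFun (γ ^ k) x = equivFun (α ^ k) x := by
    intro X hX γ hγ k
    induction k with
    | zero => intro x hx; rw [pow_zero, pow_zero, equivFun_one (hX hx), equivFun_one (hQP hx)]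
    | succ k ih =>
      intro x hx
      rw [equivFun_pow_succ' _ _ (hX hx), equivFun_pow_succ' _ _ (hQP hx), hγ x hx, ih _ (hQ x hx)]
  have hodd : HasOdd E (gen2 r m (r ^ i * y)) := by
    obtain ⟨β, hβ, e'⟩ := hi.exists_aut
    refine hasOdd_of_aut hβ (Odd.of_dvd_nat ho (orderOf_dvd_of_res hQP fun x hx => (e' x hx).symm))
      fun h1 => h.R.outer_ne i m ?_
    rw [← e, ← e' _ hu, h1, equivFun_one hu]
  have hfc : E.IsFullyCentralized (gen2 r m (r ^ i * y)) := ⟨hi.le_left, fun Q' hc => by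
    obtain ⟨f, hf⟩ := hc.exists_isIso
    obtain ⟨φ, -, h1, h2⟩ := (hodd.of_isIso hf).exists_oddAut
    obtain ⟨j, hj, -⟩ := h.R.oddAut_cases (fun x hx => by
      obtain ⟨w, hw, rfl⟩ := hf.surj x hx
      exact hT.map_mem hf.mor hw (hQR hw)) h1 h2
    rw [hj, h.mcP_eq, hcent, hcent]⟩
  obtain ⟨γ, hγ, e3⟩ := (hEs.isReceptive_of_fc h.two hfc).exists_ext_centralizerIn hi
  rw [hcent] at hγ
  have hi' : E.IsIso _ _ γ := hi.congr fun x hx => (e3 x hx).symm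
  have hγC : ∀ q ∈ g2 ζ g, γ q ∈ g2 ζ g := fun q hq => hcent i ▸
    ⟨hγ.mem (mem_sup_right hq), hi'.map_mem_centralizer hγ le_sup_left (mem_sup_right hq)
      (hcent i ▸ hq : q ∈ centralizerIn S _).2⟩
  obtain ⟨δ, hδ, e4⟩ := (hγ.isIso_self (hγ.isHomOn.mapsTo_sup
    (fun x hx => mem_sup_left (hi'.mapsTo x hx)) fun q hq => mem_sup_right (hγC q hq))).exists_aut
  have : Finite (gen2 r m (r ^ i * y) ⊔ g2 ζ g : Subgroup Ω) := finite_of_le hγ.le
  obtain ⟨n, hn, hn'⟩ := exists_pow_coprime_modEq (p := 2) (isOfFinOrder_of_finite δ)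
    (Nat.coprime_two_right.2 ho)
  have e5 : ∀ x ∈ gen2 r m (r ^ i * y), equivFun (δ ^ n) x = equivFun α x := fun x hx => by
    rw [hpow le_sup_left δ (fun x hx => (e4 x (mem_sup_left hx)).trans (e3 x hx)) n x hx,
      pow_eq_pow_iff_modEq.2 hn', pow_one]
  have e6 : ∀ q ∈ g2 ζ g, equivFun (δ ^ n) q = q := by
    refine h.swap.odd_R ((oddAut_equivFun (Nat.coprime_two_right.1 hn)).mono le_sup_right ?_)
    have : δ ∈ stabAut _ (g2 ζ g) := mem_stabAut_of_finite fun x hx hxC => e4 x hx ▸ hγC x hxC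
    exact fun q hq => (pow_mem this n q (mem_sup_right hq)).2 hq
  have hd := hEF.isMor (isMor_of_mem_autGroup hγ.le (pow_mem hδ n))
  have hdd := hd.comp' hd fun x hx => equivFun_mem _ hx
  refine h.betI_zero.1 (h.betI_shift (j := i) ?_ 0)
  rcases e2 with e2 | e2
  · exact ⟨_, hdd, by rw [e5 _ hv, e5 _ (hQ _ hv), e1], by rw [e5 _ hu, e5 _ (hQ _ hu), e2],
      fun q hq => by rw [e6 q hq, e6 q hq]⟩
  · refine ⟨_, (F.isMor_conj le_rfl (S.inv_mem (h.R_le (h.R.zpow_mem m)))).comp' hdd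
      fun x hx => hdd.mem hx, by rw [e5 _ hv, e5 _ (hQ _ hv), e1]; group,
      by rw [e5 _ hu, e5 _ (hQ _ hu), e2]; group, fun q hq => ?_⟩
    rw [e6 q hq, e6 q hq, h.com _ (inv_mem (h.R.zpow_mem m)) q hq, mul_inv_cancel_right]

theorem sc_swap (hF : F.IsSaturated 2) (hsc : SC F (y * y) (g2 r y)) :
    SC F (g * g) (g2 ζ g) := by
  intro P f hf hz e x hx hxC
  rw [h.gg] at hz e
  refine (h.cz hF hsc (closed_stab F (g2 ζ g)) (fun s hs x hx => ⟨fun h' => ?_, h.swap.conj_R hs⟩)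
    (fun P hP α hα ho hne hmod x hx => ?_) (fun P hP α hα ho hne hmod x hx => ?_) P f hf hz e x
    hx).2 hxC
  · simpa [mul_assoc] using h.swap.conj_R (inv_mem hs) h'
  · have hφ := oddAut_equivFun ho
    obtain ⟨i, -, -, -, hfix, -⟩ := h.cp hP hφ hmod (exists_ne_of_ne_one hne)
    exact ⟨fun h' => (hφ.mem_of_map_mem (A := P ⊓ g2 ζ g)
      (fun w hw => (hfix w hw.1 hw.2).symm ▸ hw) hx ⟨hφ.mem x hx, h'⟩).2,
      fun h' => (hfix x hx h').symm ▸ h'⟩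
  · rw [← (g2 ζ g).mul_mem_cancel_right (y := x) (hmod x hx), mul_inv_cancel_left]

/-- If no automorphism of the first type exists, the fusion is trivial modulo `C_S(r)`. -/
theorem mod_cent (hF : F.IsSaturated 2) (hsc : SC F (y * y) (g2 r y)) (hB : ¬ Bet F m r y ζ g) :
    ∀ P f, F.IsMor P f → y * y ∈ P → f (y * y) = y * y → ∀ x ∈ P, x⁻¹ * f x ∈ centralizer {r} := by
  refine h.cz hF hsc (closed_mod F _) (fun s hs x hx => mem_centralizer_singleton_iff.2 ?_)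
    (fun P hP α hα ho hne hmod => (hB (h.bet_of hF hsc hP hα ho hne hmod)).elim)
    fun P hP α hα ho hne hmod x hx =>
      mem_centralizer_singleton_iff.2 (h.com r h.R.x_mem _ (hmod x hx)).symm
  have e : x * (s⁻¹ * r ^ (1 : ℤ) * s⁻¹⁻¹) * x⁻¹ = s⁻¹ * (x * r ^ (1 : ℤ) * x⁻¹) * s⁻¹⁻¹ := by
    rcases h.conj_r hx with e1 | e1 <;> rcases h.conj_r (inv_mem hs) with e2 | e2 <;>
      simp only [e1, e2]
  rw [zpow_one] at e
  calc x⁻¹ * (s * x * s⁻¹) * r = x⁻¹ * s * (x * (s⁻¹ * r * s⁻¹⁻¹) * x⁻¹) * x * s⁻¹ := by group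
    _ = _ := by rw [e]; group

/-- Morphisms fixing `z` lie in any system containing both `Bet` automorphisms. -/
theorem cz_le {F' : FusionSystem S} (hF : F.IsSaturated 2) (hsc : SC F (y * y) (g2 r y))
    (h1 : Bet F' m r y ζ g) (h2 : Bet F' m ζ g r y) :
    ∀ P f, F.IsMor P f → y * y ∈ P → f (y * y) = y * y → F'.IsMor P f :=
  h.cz hF hsc (closed_isMor F F') (fun _ hs => F'.isMor_conj le_rfl hs)
    (fun _ hP _ _ ho hne hmod => h.mor_of_bet h1 hP ho hne hmod)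
    fun _ hP _ _ ho hne hmod => h.swap.mor_of_bet h2 hP ho hne hmod

end CP

end Cfsg.Agent.QP
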